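import Cfsg.Agent.H9.C3Defs

/-!
# The fusion of involutions in the diamond
-/

set_option autoImplicit false

namespace Cfsg.Agent.H3.C3Dk

open Subgroup Cfsg.Agent.H62 Cfsg.Agent.H9.C3
open scoped Pointwise

universe u

variable {G : Type u} [Group G]

theorem mem_cj {A : Subgroup G} {k x : G} : x ∈ MulAut.conj k • A ↔ k⁻¹ * x * k ∈ A := by
  rw [mem_pointwise_smul_iff_inv_smul_mem]; simp [MulAut.smul_def]

theorem card_cj (A : Subgroup G) (k : G) : Nat.card ↥(MulAut.conj k • A) = Nat.card A :=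
  (Nat.card_congr (equivSMul _ A).toEquiv).symm

theorem mem_C1 {x t : G} : x ∈ C1 t ↔ x * t = t * x := mem_centralizer_singleton_iff

theorem ea_sup {D : Subgroup G} {t : G} (hD : EA D) (ht : t * t = 1) (h : D ≤ C1 t) :
    EA (D ⊔ zpowers t) := hD.sup (ea_zpowers ht) (by
  rintro d hd _ ⟨n, rfl⟩
  exact (Commute.zpow_right (show Commute d t from mem_C1.1 (h hd)) n).eq)

variable [Finite G]

theorem two_in {S : Sylow 2 G} {K H1 H2 : Subgroup G} (h1 : H1 ≤ K) (h2 : H2 ≤ K)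
    (p1 : IsPGroup 2 H1) (p2 : IsPGroup 2 H2) :
    ∃ n ∈ K, ∃ k : G, MulAut.conj (k * n) • H1 ≤ S ∧ MulAut.conj k • H2 ≤ S := by
  obtain ⟨P1, e1⟩ := (p1.comap_subtype (K := K)).exists_le_sylow
  obtain ⟨P2, e2⟩ := (p2.comap_subtype (K := K)).exists_le_sylow
  obtain ⟨n, hn⟩ := MulAction.exists_smul_eq K P1 P2
  obtain ⟨S', e3⟩ := (P2.2.map K.subtype).exists_le_sylow
  obtain ⟨k, hk⟩ := MulAction.exists_smul_eq G S' S
  have key : ∀ x : K, x ∈ (P2 : Subgroup K) → k * x * k⁻¹ ∈ (S : Subgroup G) := fun x hx => by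
    rw [← hk]
    exact smul_mem_pointwise_smul _ (MulAut.conj k) _ (e3 ⟨x, hx, rfl⟩)
  refine ⟨n, n.2, k, fun x hx => ?_, fun x hx => ?_⟩
  · have h3 := mem_cj.1 hx
    have h4 : n * ⟨_, h1 h3⟩ * n⁻¹ ∈ (P2 : Subgroup K) := by
      rw [← hn]
      exact smul_mem_pointwise_smul _ (MulAut.conj n) _ (e1 h3)
    have := key _ h4
    simp only [coe_mul, coe_inv] at this
    convert this using 1
    group
  · have h3 := mem_cj.1 hx
    have := key ⟨_, h2 h3⟩ (e2 h3)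
    convert this using 1
    simp only
    group

theorem free {A : Subgroup G} {t : G} (hA : EA A) (c : Nat.card A = 64) (hn : t ∈ Nm A)
    (ht : t * t = 1) (h8 : Nat.card ↥(A ⊓ C1 t) ≤ 8) :
    Nat.card ↥(A ⊓ C1 t) = 8 ∧ ∀ w ∈ A ⊓ C1 t, ∃ a ∈ A, a * t * a⁻¹ = t * w := by
  have hc : ∀ a ∈ A, t * a * t⁻¹ ∈ A := fun a ha => (mem_normalizer_iff.1 hn a).1 ha
  have hi : t⁻¹ = t := inv_eq_of_mul_eq_one_right ht
  let φ : A →* G := MonoidHom.mk' (fun a => (a : G) * (t * a * t⁻¹)) fun a b => by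
    have := hA.comm b.2 (hc _ a.2)
    simp only [coe_mul]
    calc _ = a * (b * (t * a * t⁻¹)) * (t * b * t⁻¹) := by group
      _ = _ := by rw [this]; group
  have hφ : ∀ a : A, φ a = a * (t * a * t⁻¹) := fun _ => rfl
  have r : φ.range ≤ A ⊓ C1 t := by
    rintro _ ⟨a, rfl⟩
    refine ⟨A.mul_mem a.2 (hc _ a.2), mem_C1.2 ?_⟩
    rw [hφ]
    conv_lhs => rw [hA.comm a.2 (hc _ a.2)]
    rw [hi]; group
  have k : φ.ker.map A.subtype ≤ A ⊓ C1 t := by
    rintro _ ⟨a, ha, rfl⟩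
    refine ⟨a.2, mem_C1.2 ?_⟩
    have h1 : (a : G) * (t * a * t⁻¹) = 1 := ha
    have h2 := eq_inv_of_mul_eq_one_right h1
    rw [hA.inv a.2] at h2
    exact (mul_inv_eq_iff_eq_mul.1 h2).symm
  have c1 := card_le_of_le r
  have c2 := card_le_of_le k
  have c3 := φ.ker.card_mul_index
  rw [card_subtype] at c2
  rw [index_ker, c] at c3
  have c4 : Nat.card φ.range = 8 := by
    by_contra hne
    have := Nat.mul_le_mul (c2.trans h8) (show Nat.card φ.range ≤ 7 by omega)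
    omega
  refine ⟨by omega, fun w hw => ?_⟩
  have e := eq_of_le_of_card_ge r (by omega)
  have hw' := mem_C1.1 hw.2
  rw [← e] at hw
  obtain ⟨a, rfl⟩ := hw
  refine ⟨a, a.2, ?_⟩
  rw [← hw', hφ, hA.inv a.2]; group

variable {S U A A' : Subgroup G}

omit [Finite G] in
theorem le_or (h : DS S U A A') {B : Subgroup G} (hB : EA B) (hU : B ≤ U) : B ≤ A ∨ B ≤ A' := by
  by_contra hn
  rw [not_or, SetLike.not_le_iff_exists, SetLike.not_le_iff_exists] at hn
  obtain ⟨⟨x, hx, hx'⟩, y, hy, hy'⟩ := hn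
  have h1 := (h.du.inv x (hU hx) (hB x hx)).resolve_left hx'
  have h2 := (h.du.inv y (hU hy) (hB y hy)).resolve_right hy'
  rcases h.du.inv _ (hU (B.mul_mem hx hy)) (hB _ (B.mul_mem hx hy)) with h3 | h3
  · exact hx' ((A.mul_mem_cancel_right h2).1 h3)
  · exact hy' ((A'.mul_mem_cancel_left h1).1 h3)

omit [Finite G] in
theorem half (h : DS S U A A') {B : Subgroup G} (hB : EA B) (hS : B ≤ S) {w : G} (hw : w ∈ B)
    (hU : w ∉ U) : Nat.card B = Nat.card ↥(B ⊓ U) * 2 := by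
  have h1 : (U.subgroupOf B).index = 2 := index_eq_two_iff.2 ⟨⟨w, hw⟩, fun b => by
    by_cases hb : b ∈ U.subgroupOf B
    · exact Or.inr ⟨hb, fun h2 => hU ((U.mul_mem_cancel_left hb).1 h2)⟩
    · exact Or.inl ⟨h.two _ (hS b.2) _ (hS hw) (hB _ b.2) (hB _ hw) hb hU, hb⟩⟩
  rw [← (U.subgroupOf B).card_mul_index, h1, ← card_subtype, subgroupOf_map_subtype, inf_comm]

theorem e64 (h : DS S U A A') {B : Subgroup G} (hB : EA B) (hS : B ≤ S) (c : Nat.card B = 64) :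
    B = A ∨ B = A' := by
  have hU : B ≤ U := fun w hw => by
    by_contra hU
    have h1 := half h hB hS hw hU
    obtain ⟨-, -, h2, h3⟩ := h.out w (hS hw) hU (hB w hw)
    have h4 : B ⊓ U ≤ C1 w := fun x hx => mem_C1.2 (hB.comm hx.1 hw)
    rcases le_or h (hB.mono inf_le_left) (inf_le_right (a := B)) with h5 | h5
    · have := card_le_of_le (le_inf h5 h4)
      omega
    · have := card_le_of_le (le_inf h5 h4)
      omega
  exact (le_or h hB hU).imp (fun e => eq_of_le_of_card_ge e (by rw [c, h.du.cA]))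
    fun e => eq_of_le_of_card_ge e (by rw [c, h.du.cA'])

theorem meet (h : DS S U A A') {B B' : Subgroup G} (hB : EA B) (hS : B ≤ S)
    (c : Nat.card B = 64) (hB' : EA B') (hS' : B' ≤ S) (c' : Nat.card B' = 64) :
    16 ≤ Nat.card ↥(B ⊓ B') := by
  rcases e64 h hB hS c with rfl | rfl <;> rcases e64 h hB' hS' c' with rfl | rfl
  · rw [inf_idem, c]; norm_num
  · exact h.du.cZ.ge
  · rw [inf_comm]; exact h.du.cZ.ge
  · rw [inf_idem, c]; norm_num

theorem main (p3 : P3 G) {S : Sylow 2 G} (h : DS (S : Subgroup G) U A A') {A0 : Subgroup G} {t : G}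
    (hA : EA A0) (c : Nat.card A0 = 64) (hn : t ∈ Nm A0) (ht : t * t = 1)
    (h8 : Nat.card ↥(A0 ⊓ C1 t) ≤ 8) (hS : A0 ⊓ C1 t ≤ S) (hU : t ∈ U) : False := by
  obtain ⟨c8, hf⟩ := free hA c hn ht h8
  have hY : EA (A0 ⊓ C1 t) := hA.mono inf_le_left
  have hi : t⁻¹ = t := inv_eq_of_mul_eq_one_right ht
  have hYU : A0 ⊓ C1 t ≤ U := fun w hw => by
    by_contra hw'
    have h1 := half h hY hS hw hw'
    have ww := hY w hw
    obtain ⟨n1, n2, h2, h3⟩ := h.out w (hS hw) hw' ww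
    have hD : EA (A0 ⊓ C1 t ⊓ U) := hY.mono inf_le_left
    obtain ⟨a, ha, e⟩ := hf w hw
    have key : ∀ B : Subgroup G, EA B → Nat.card B = 64 → w ∈ Nm B → Nat.card ↥(B ⊓ C1 w) ≤ 8 →
        A0 ⊓ C1 t ⊓ U ⊔ zpowers t ≤ B → False := fun B hB cB nB c8B hle => by
      have tB : t ∈ B := hle (mem_sup_right (mem_zpowers t))
      obtain ⟨b, hb, e'⟩ := (free hB cB nB ww c8B).2 t ⟨tB, mem_C1.2 (mem_C1.1 hw.2).symm⟩
      exact p3 _ a b t w hD (by omega) (hA a ha) (hB b hb) (fun d hd => hA.comm ha hd.1.1)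
        (fun d hd => hB.comm hb (hle (mem_sup_left hd))) ht ww (mem_C1.1 hw.2).symm
        (fun e => hw' (e ▸ U.one_mem)) e (by rw [hA.comm ha hw.1, mul_inv_cancel_right]) e'
        (by rw [hB.comm hb tB, mul_inv_cancel_right])
    rcases le_or h (ea_sup hD ht (inf_le_left.trans inf_le_right))
      (sup_le inf_le_right (zpowers_le.2 hU)) with h4 | h4
    · exact key A h.du.ea h.du.cA n1 h2 h4
    · exact key A' h.du.ea' h.du.cA' n2 h3 h4
  have hQ := ea_sup hY ht inf_le_right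
  have nA : A0 ≤ Nm (A0 ⊓ C1 t ⊔ zpowers t) := fun a ha => by
    have h1 : A0 ⊓ C1 t ⊔ zpowers t ≤
        (A0 ⊓ C1 t ⊔ zpowers t).comap (MulAut.conj a).toMonoidHom := by
      refine sup_le (fun y hy => ?_) (zpowers_le.2 ?_)
      · change a * y * a⁻¹ ∈ A0 ⊓ C1 t ⊔ zpowers t
        rw [hA.comm ha hy.1, mul_inv_cancel_right]
        exact mem_sup_left hy
      · change a * t * a⁻¹ ∈ A0 ⊓ C1 t ⊔ zpowers t
        have h2 : t * a * t⁻¹ ∈ A0 := (mem_normalizer_iff.1 hn a).1 ha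
        rw [show a * t * a⁻¹ = a * (t * a * t⁻¹) * t by rw [hA.inv ha]; group]
        refine mul_mem (mem_sup_left ⟨A0.mul_mem ha h2, mem_C1.2 ?_⟩) (mem_sup_right (mem_zpowers t))
        conv_lhs => rw [hA.comm ha h2]
        rw [hi]; group
    refine mem_normalizer_iff.2 fun x => ⟨fun hx => h1 hx, fun hx => ?_⟩
    have h2 : a * (a * x * a⁻¹) * a⁻¹ ∈ A0 ⊓ C1 t ⊔ zpowers t := h1 hx
    rwa [show a * (a * x * a⁻¹) * a⁻¹ = a * a * x * (a * a)⁻¹ by group, hA a ha, one_mul, inv_one,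
      mul_one] at h2
  have key : ∀ B : Subgroup G, EA B → Nat.card B = 64 → A0 ⊓ C1 t ⊔ zpowers t ≤ B → False := by
    intro B hB cB hle
    have nB : B ≤ Nm (A0 ⊓ C1 t ⊔ zpowers t) := fun b hb => centralizer_le_normalizer _
      (mem_centralizer_iff.2 fun x hx => hB.comm (hle hx) hb)
    obtain ⟨n, hn', k, e1, e2⟩ := two_in (S := S) nA nB hA.isPGroup hB.isPGroup
    have h1 := meet h (hA.conj _) e1 (by rw [card_cj, c]) (hB.conj _) e2 (by rw [card_cj, cB])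
    have h2 : n * t * n⁻¹ ∈ B :=
      hle ((mem_normalizer_iff.1 hn' t).1 (mem_sup_right (mem_zpowers t)))
    have h3 : MulAut.conj (k * n) • A0 ⊓ MulAut.conj k • B ≤ MulAut.conj (k * n) • (A0 ⊓ C1 t) :=
      fun x hx => mem_cj.2 ⟨mem_cj.1 hx.1, mem_C1.2 (by
        have := hB.comm (mem_cj.1 hx.2) h2
        calc _ = n⁻¹ * (k⁻¹ * x * k * (n * t * n⁻¹)) * n := by group
          _ = _ := by rw [this]; group)⟩
    have h4 := card_le_of_le h3
    rw [card_cj] at h4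
    omega
  rcases le_or h hQ (sup_le hYU (zpowers_le.2 hU)) with h4 | h4
  · exact key A h.du.ea h.du.cA h4
  · exact key A' h.du.ea' h.du.cA' h4

theorem dk : DKStmt.{u} := by
  intro G _ _ p3 S U A A' h t ht hU tt g hg
  obtain ⟨hn, -, h8, -⟩ := h.out t ht hU tt
  have hB := h.du.ea.conj g⁻¹
  have tB : t ∈ MulAut.conj g⁻¹ • A := mem_cj.2 (by rwa [inv_inv])
  obtain ⟨n, hn', k, e1, e2⟩ := two_in (S := S) (K := C1 t) (H1 := MulAut.conj g⁻¹ • A)
    (H2 := A ⊓ C1 t) (fun x hx => mem_C1.2 (hB.comm hx tB)) inf_le_right hB.isPGroup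
    (h.du.ea.mono inf_le_left).isPGroup
  have h1 : k * t * k⁻¹ ∈ MulAut.conj (k * n) • MulAut.conj g⁻¹ • A := mem_cj.2 (by
    rwa [show (k * n)⁻¹ * (k * t * k⁻¹) * (k * n) = n⁻¹ * (t * n) by group, ← mem_C1.1 hn',
      inv_mul_cancel_left])
  have h2 : k * t * k⁻¹ ∈ U := by
    rcases e64 h (hB.conj _) e1 (by rw [card_cj, card_cj, h.du.cA]) with e | e <;> rw [e] at h1
    · exact h.du.sup ▸ mem_sup_left h1
    · exact h.du.sup ▸ mem_sup_right h1
  have h3 : MulAut.conj k • A ⊓ C1 (k * t * k⁻¹) ≤ MulAut.conj k • (A ⊓ C1 t) := fun x hx =>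
    mem_cj.2 ⟨mem_cj.1 hx.1, mem_C1.2 (by
      have := mem_C1.1 hx.2
      calc _ = k⁻¹ * (x * (k * t * k⁻¹)) * k := by group
        _ = _ := by rw [this]; group)⟩
  refine main p3 h (h.du.ea.conj k) (by rw [card_cj, h.du.cA]) (t := k * t * k⁻¹)
    (mem_normalizer_iff.2 fun x => ?_) (by rw [conj_mul, tt, mul_one, mul_inv_cancel])
    ((card_le_of_le h3).trans (by rwa [card_cj])) (h3.trans e2) h2
  rw [mem_cj, mem_cj, mem_normalizer_iff.1 hn]
  exact iff_of_eq (congrArg (· ∈ A) (by group))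

end Cfsg.Agent.H3.C3Dk
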