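import Cfsg.Agent.H45.GdDefs

/-! Project CY (row S3256), chapter IV, piece S of the mixed systems. -/

set_option autoImplicit false

namespace Cfsg.Agent.H3.CyGdS

open Subgroup MulAction Cfsg.Agent.H11.Cy Cfsg.Agent.H45.Iv Cfsg.Agent.H45.Gd
open scoped commutatorElement

variable {G : Type} [Group G] {Ω : Type} [MulAction G Ω] {p : ℕ} {A : Ω → Subgroup G}

theorem smul_ln (h : Bs p A) {x y c : Ω} {r : G} (hr : r ∈ Fl A x y) (hc : c ∈ Ln A x y) :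
    r • c ∈ Ln A x y := fun a ha => by
  have h1 := h.eqv r⁻¹ _ a ha
  rw [inv_smul_smul] at h1
  have h2 := mul_mem (mul_mem hr (hc h1)) (inv_mem hr)
  convert h2 using 1
  group

/-- an involution whose fixed set is a subspace has no fixed point on a line `b (z b)` -/
theorem nof (h : Bs p A) (ep : Ep A) (sk : SK A) (ls : LS A) {z : G} (hzz : z * z = 1)
    {Ψ : Set Ω} (sub : Sub A Ψ) (fx : ∀ w, z • w = w ↔ w ∈ Ψ) (b : Ω) (hb : z • b ≠ b) :
    ∀ c ∈ Ln A b (z • b), z • c ≠ c := by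
  intro c hc hzc
  have hzi : z⁻¹ = z := inv_eq_of_mul_eq_one_right hzz
  have hbb : b ≠ z • b := fun e => hb e.symm
  obtain ⟨la, lb, -, -⟩ := ls b (z • b) hbb
  obtain ⟨l1, l2⟩ := sk.ln b (z • b)
  have hzb : z • z • b = b := by rw [← mul_smul, hzz, one_smul]
  obtain ⟨eR, -, -⟩ := sk.sp b (z • b) hbb (z • b) l2 b l1 hb
  have zfix : ∀ k ∈ Zl A b (z • b), ∀ w ∈ Ln A b (z • b), k • w = w := fun k hk =>
    (ep.kfix b (z • b) hbb k).1 (mem_inf.1 hk).2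
  have cjR : ∀ r ∈ Rl A b (z • b), z * r * z⁻¹ ∈ Rl A b (z • b) := by
    intro r hr
    have := (sk.cj z b (z • b) r).2.1 hr
    rwa [hzb, eR] at this
  have rle : Rl A b (z • b) ≤ Fl A b (z • b) := by
    rw [← la.sup]; exact le_sup_left
  have key : ∃ r ∈ Rl A b (z • b), r ∉ Zl A b (z • b) ∧ z * r * z⁻¹ * r⁻¹ ∈ Zl A b (z • b) := by
    obtain ⟨r, hr, hrb⟩ := la.tr (z • b) l2
    have hrz : r ∉ Zl A b (z • b) := fun e => hb (by rw [← hrb]; exact zfix r e b l1)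
    by_cases e : z * r * z⁻¹ * r⁻¹ ∈ Zl A b (z • b)
    · exact ⟨r, hr, hrz, e⟩
    · have h2 : z * r * z⁻¹ * r⁻¹ ∈ Rl A b (z • b) := mul_mem (cjR r hr) (inv_mem hr)
      refine ⟨_, h2, e, ?_⟩
      have h3 := inv_mem (lb.sq _ h2)
      have h4 : z * (z * r * z⁻¹ * r⁻¹) * z⁻¹ * (z * r * z⁻¹ * r⁻¹)⁻¹ =
          (z * r * z⁻¹ * r⁻¹ * (z * r * z⁻¹ * r⁻¹))⁻¹ := by
        have : z * (z * r * z⁻¹ * r⁻¹) = r * z * r⁻¹ := by
          rw [hzi]
          calc z * (z * r * z * r⁻¹) = (z * z) * r * z * r⁻¹ := by group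
            _ = _ := by rw [hzz, one_mul]
        rw [this]; group
      rw [h4]; exact h3
  obtain ⟨r, hr, hrz, hk⟩ := key
  have hrc : r • c ∈ Ln A b (z • b) := smul_ln h (rle hr) hc
  have hne : c ≠ r • c := fun e => hrz (lb.stab r hr c hc e.symm)
  have hfx : z • r • c = r • c := by
    have h1 := zfix _ hk _ hrc
    have h2 : z⁻¹ • c = c := by rw [hzi, hzc]
    calc z • r • c = z • r • z⁻¹ • c := by rw [h2]
      _ = (z * r * z⁻¹ * r⁻¹) • r • c := by simp only [mul_smul, inv_smul_smul]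
      _ = _ := h1
  have h5 := sub c ((fx c).1 hzc) (r • c) ((fx _).1 hfx) hne
  rw [(sk.sp b (z • b) hbb c hc (r • c) hrc hne).2.2] at h5
  exact hb ((fx b).2 (h5 l1))

/-- a fixed point free involution of a line is a translation -/
theorem tra (h : Bs p A) (ep : Ep A) (sk : SK A) (ls : LS A) {z : G} (hz : z * z = 1) (b : Ω)
    (hb : z • b ≠ b) (hc : ∀ c ∈ Ln A b (z • b), z • c ≠ c) :
    ∃ r ∈ Rl A b (z • b), r ∉ Zl A b (z • b) ∧ r⁻¹ * z ∈ Kl A b (z • b) := by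
  obtain ⟨la, lb, -, -⟩ := ls b (z • b) hb.symm
  obtain ⟨l1, l2⟩ := sk.ln b (z • b)
  obtain ⟨r, hr, e⟩ := la.tr _ l2
  have zf : ∀ t ∈ Zl A b (z • b), t • b = b := fun t ht => (ep.kfix _ _ hb.symm t).1 ht.2 b l1
  have zi : z⁻¹ = z := inv_eq_of_mul_eq_one_right hz
  refine ⟨r, hr, fun h' => hb (by rw [← e, zf r h']), ?_⟩
  have k1 : (r⁻¹ * z) • b = b := by rw [mul_smul, ← e, inv_smul_smul]
  have k2 : (r⁻¹ * z) • z • b = z • b := by
    rw [mul_smul, smul_smul z z, hz, one_smul, inv_smul_eq_iff, ← e, smul_smul, zf _ (lb.sq r hr)]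
  refine ep.eps _ _ hb.symm _ ⟨k1, k2⟩ fun a ha => ?_
  by_contra hne
  have a' : r⁻¹ * z * a * (r⁻¹ * z)⁻¹ ∈ A b := by
    have := h.eqv (r⁻¹ * z) b a ha
    rwa [k1] at this
  have aF : a ∈ Fl A b (z • b) := mem_sup_left ha
  have gF : a⁻¹ * (z * a * z⁻¹) ∈ Fl A b (z • b) :=
    mul_mem (inv_mem aF) (mem_sup_right (h.eqv z b a ha))
  have rF : r ∈ Fl A b (z • b) := la.sup ▸ mem_sup_left hr
  obtain ⟨c, hcl, hf, -⟩ := la.out _ gF (fun hg => by
    have c1 : ⁅a, a⁻¹ * (z * a * z⁻¹)⁆ ∈ Rl A b (z • b) := commutator_mem_commutator aF gF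
    have c2 : ⁅r, r⁻¹ * z * a * (r⁻¹ * z)⁻¹⁆ ∈ Rl A b (z • b) :=
      commutator_mem_commutator rF (mem_sup_left a')
    have := la.disj b _ (mul_mem a' (inv_mem ha)) (by
      convert mul_mem (inv_mem c2) (mul_mem c1 hg) using 1
      simp only [commutatorElement_def]; group)
    apply hne
    rw [mul_inv_eq_one, mul_inv_eq_iff_eq_mul] at this
    exact this.symm)
  apply hc c hcl
  rw [← hf]
  have e1 : a⁻¹ * (z * a * z⁻¹) * z = z * (a⁻¹ * (z * a * z⁻¹))⁻¹ := by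
    calc a⁻¹ * (z * a * z⁻¹) * z = a⁻¹ * z * a := by group
      _ = (z * z) * a⁻¹ * z * a := by rw [hz, one_mul]
      _ = _ := by rw [mul_inv_rev, mul_inv_rev, mul_inv_rev, inv_inv, inv_inv, zi]; group
  rw [smul_smul, e1, mul_smul, inv_smul_eq_iff.2 ((hf c).2 rfl).symm]

theorem s : SStmt := by
  intro G _ _ Ω _ _ p A h k Ψ mx z hz z1 x hx
  have fx := k.fx Ψ mx z hz z1
  have hb : z • x ≠ x := fun e => hx ((fx x).1 e)
  have hzz : z * z = 1 := (k.gd Ψ mx).2.1 z hz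
  exact ⟨hb, tra h.bs h.ep h.sk h.ls hzz x hb (nof h.bs h.ep h.sk h.ls hzz mx.1 fx x hb)⟩

end Cfsg.Agent.H3.CyGdS
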