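import Mathlib
import Cfsg.Agent.H50.E72Defs
import Cfsg.Agent.H23.E72Num
import Cfsg.Agent.S2602
import Cfsg.Agent.S2119

/-! Centres, orders and outer automorphism groups of `L₂(19)`, `L₄(3)` and `A₁₃`. -/

set_option autoImplicit false

namespace Cfsg.Agent.H3.E72Num

open Cfsg Cfsg.Agent.H50.E72 Subgroup
open Cfsg.Agent.H23.E72Num (center_bot)

universe u

theorem card_alt : Nat.card (alternatingGroup (Fin 13)) = 3113510400 := by
  have h := two_mul_nat_card_alternatingGroup (α := Fin 13)
  rw [Nat.card_perm, Nat.card_eq_fintype_card (α := Fin 13), Fintype.card_fin] at h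
  rw [show Nat.factorial 13 = 6227020800 from rfl] at h
  omega

theorem out_alt : Nat.card (Out (alternatingGroup (Fin 13))) = 2 := by
  have hb := S2119.result 13 (by omega) (by omega)
  rw [← alternatingGroup.index_eq_two (α := Fin 13)]
  change (Inn _).index = _
  rw [← index_comap_of_surjective _ hb.2]
  congr 1
  ext g
  constructor
  · rintro ⟨a, ha⟩
    have : (a : Equiv.Perm (Fin 13)) = g := hb.1 (by rw [← ha]; ext x; simp)
    exact this ▸ a.2
  · intro hg
    refine ⟨⟨g, hg⟩, ?_⟩
    ext x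
    simp

theorem num : NumStmt.{u} := by
  refine ⟨fun F _ _ hF => ?_, ?_, ?_, out_alt, card_alt⟩
  · have hc : Nat.card (Matrix.ProjectiveSpecialLinearGroup (Fin 2) F) = 3420 := by
      have h := Cfsg.Agent.S0243.result hF 2 le_rfl
      simp only [Fin.prod_univ_two, Fin.val_zero, Fin.val_one] at h
      norm_num at h
      omega
    haveI : Fact (Nat.Prime 19) := ⟨by norm_num⟩
    haveI : IsSimpleGroup (Matrix.ProjectiveSpecialLinearGroup (Fin 2) F) := by
      refine H26.psl_isSimpleGroup (Or.inr ?_)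
      obtain ⟨x, hx⟩ := IsCyclic.exists_ofOrder_eq_natCard (α := Fˣ)
      rw [Nat.card_units, Nat.card_eq_fintype_card, hF] at hx
      refine ⟨x, x.ne_zero, fun e => ?_⟩
      have : orderOf x ∣ 2 := orderOf_dvd_of_pow_eq_one (Units.ext (by simpa using e))
      rw [hx] at this
      norm_num at this
    refine ⟨center_bot (by rw [hc]; norm_num), ?_, hc⟩
    obtain ⟨φ, hs, -, hk⟩ := Cfsg.Agent.S2602.result (F := F) (p := 19) (f := 1) le_rfl
      (by rw [hF]; norm_num) (by norm_num)
    have h1 := Subgroup.card_mul_index φ.ker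
    rw [Subgroup.index_ker, MonoidHom.range_eq_top.2 hs, Subgroup.card_top, hk] at h1
    rw [← h1]
    simp
  · haveI : Fact (Nat.Prime 3) := ⟨Nat.prime_three⟩
    have hF : Fintype.card (ZMod 3) = 3 := ZMod.card 3
    have hc : Nat.card (Matrix.ProjectiveSpecialLinearGroup (Fin 4) (ZMod 3)) = 6065280 := by
      have h := Cfsg.Agent.S0243.result hF 4 (by norm_num)
      rw [show ∏ i : Fin 4, (3 ^ 4 - 3 ^ (i : ℕ)) = 24261120 by decide,
        show Nat.gcd 4 (3 - 1) = 2 from rfl] at h
      omega
    haveI : IsSimpleGroup (Matrix.ProjectiveSpecialLinearGroup (Fin 4) (ZMod 3)) :=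
      Cfsg.Agent.S0249.result 4 (by norm_num)
    refine ⟨center_bot (by rw [hc]; norm_num), ?_, hc⟩
    obtain ⟨φ, hs, -, hk⟩ := Cfsg.Agent.S2601.result (F := ZMod 3) (p := 3) (f := 1) (n := 4)
      le_rfl (by rw [hF]; norm_num) (by norm_num)
    have h1 := Subgroup.card_mul_index φ.ker
    rw [Subgroup.index_ker, MonoidHom.range_eq_top.2 hs, Subgroup.card_top, hk] at h1
    rw [← h1]
    simp
  · haveI : IsSimpleGroup (alternatingGroup (Fin 13)) := alternatingGroup.isSimpleGroup (by simp)
    exact center_bot (by rw [card_alt]; norm_num)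

end Cfsg.Agent.H3.E72Num
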