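import Mathlib
import Cfsg.Agent.H11.ElDefs

/-! Project EL, piece LX: an element centralising a dihedral pair acts with order at most two. -/

set_option autoImplicit false

namespace Cfsg.Agent.H3.ElLx

open Subgroup Cfsg.Agent.H11.EL

universe u

variable {G : Type u} [Group G]

theorem idx2 [Finite G] {Z D : Subgroup G} (h : Z ≤ D) (hc : Nat.card D = 2 * Nat.card Z) {a b : G}
    (ha : a ∈ D) (hb : b ∈ D) (ha' : a ∉ Z) (hb' : b ∉ Z) : a * b ∈ Z := by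
  have i : (Z.subgroupOf D).index = 2 := by
    have := (Z.subgroupOf D).card_mul_index
    rw [Nat.card_congr (subgroupOfEquivOfLe h).toEquiv, hc, mul_comm] at this
    exact Nat.eq_of_mul_eq_mul_right Nat.card_pos this
  exact (mul_mem_iff_of_index_two i (a := ⟨a, ha⟩) (b := ⟨b, hb⟩)).2 (iff_of_false ha' hb')

theorem cm {L : Subgroup G} {k l : G} (hk : k ∈ Ct L) (hl : l ∈ L) : Commute k l :=
  (mem_centralizer_iff.1 hk l hl).symm

theorem nL {L : Subgroup G} {m l : G} (hm : m ∈ Nm L) (hl : l ∈ L) : m * l * m⁻¹ ∈ L :=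
  (mem_normalizer_iff.1 hm l).1 hl

theorem nK {L : Subgroup G} {m k : G} (hm : m ∈ Nm L) (hk : k ∈ Ct L) : m * k * m⁻¹ ∈ Ct L :=
  mem_centralizer_iff.2 fun h hh => by
    have := (cm hk (nL (inv_mem hm) hh)).eq
    calc h * (m * k * m⁻¹) = m * (m⁻¹ * h * m⁻¹⁻¹ * k) * m⁻¹ := by group
      _ = m * k * m⁻¹ * h := by rw [← this]; group

/-- The product of the centraliser and the group. -/
def KL (L : Subgroup G) : Subgroup G where
  carrier := {g | ∃ k ∈ Ct L, ∃ l ∈ L, g = k * l}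
  one_mem' := ⟨1, one_mem _, 1, one_mem _, (mul_one _).symm⟩
  mul_mem' := by
    rintro _ _ ⟨k, hk, l, hl, rfl⟩ ⟨k', hk', l', hl', rfl⟩
    exact ⟨k * k', mul_mem hk hk', l * l', mul_mem hl hl', by
      rw [mul_assoc, ← mul_assoc l, ← (cm hk' hl).eq]; group⟩
  inv_mem' := by
    rintro _ ⟨k, hk, l, hl, rfl⟩
    exact ⟨k⁻¹, inv_mem hk, l⁻¹, inv_mem hl, by rw [(cm hk hl).eq, mul_inv_rev]⟩

theorem nKL {L : Subgroup G} {m g : G} (hm : m ∈ Nm L) (hg : g ∈ KL L) : m * g * m⁻¹ ∈ KL L := by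
  obtain ⟨k, hk, l, hl, rfl⟩ := hg
  exact ⟨_, nK hm hk, _, nL hm hl, by group⟩

theorem uq {L : Subgroup G} (a : LA L) {k k' l l' : G} (hk : k ∈ Ct L) (hk' : k' ∈ Ct L) (hl : l ∈ L)
    (hl' : l' ∈ L) (e : k * l = k' * l') : l = l' := by
  have h : l' * l⁻¹ = k'⁻¹ * k := by
    rw [mul_inv_eq_iff_eq_mul, mul_assoc, e, inv_mul_cancel_left]
  have := a.ctr _ (mul_mem hl' (inv_mem hl)) (h ▸ mul_mem (inv_mem hk') hk)
  exact (mul_inv_eq_one.1 this).symm

theorem cjq {L : Subgroup G} (a : LA L) {m k k' l l' : G} (hm : m ∈ Nm L) (hk : k ∈ Ct L)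
    (hk' : k' ∈ Ct L) (hl : l ∈ L) (hl' : l' ∈ L) (e : m * (k * l) * m⁻¹ = k' * l') :
    m * l * m⁻¹ = l' :=
  uq a (nK hm hk) hk' (nL hm hl) hl' (by rw [← e]; group)

theorem pts {L A : Subgroup G} {g : G} (hg : g ∈ Nm L) (hA : A ∈ Pts L) : cj g A ∈ Pts L :=
  ⟨by rintro _ ⟨a, ha, rfl⟩; exact nL hg (hA.1 ha), (card_cj g A).trans hA.2⟩

theorem two [Finite G] (hC1 : LC1Stmt.{u}) (hC : LCStmt.{u}) (hT : LTStmt.{u}) {L : Subgroup G}
    (hL : IsL L) (a : LA L) {g h : G} (hg : g ∈ Nm L) (hh : h ∈ Nm L) (g' : g ∉ KL L)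
    (h' : h ∉ KL L) : g * h ∈ KL L := by
  obtain ⟨A, hA, B, hB, ne⟩ := (Set.one_lt_ncard (Set.toFinite _)).1
    (show 1 < (Pts L).ncard by rw [a.npts]; norm_num)
  have e := a.sup A hA B hB ne
  subst e
  have p : LP A B := ⟨hA.2, hB.2, ne, hL⟩
  obtain ⟨f, s, c1⟩ := hC1 A B p
  have t := hT A B f s p (hC A B f s p c1)
  by_cases h1 : E1 A B
  · exact absurd (t.e1M h1 g hg) g'
  simp only [E1, not_forall, not_not] at h1
  obtain ⟨y, yA, yB, hy⟩ := h1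
  have yM : y ∈ Nm (A ⊔ B) := by rw [← cj_eq_iff, cj_sup, cj_eq_iff.2 yA, cj_eq_iff.2 yB]
  have lk : ∀ l ∈ A ⊔ B, l ∈ KL (A ⊔ B) := fun l hl => ⟨1, one_mem _, l, hl, (one_mul _).symm⟩
  have T : ∀ g ∈ Nm A, g ∈ Nm B → g ∈ KL (A ⊔ B) ∨ g * y⁻¹ ∈ KL (A ⊔ B) := fun g a b => by
    obtain ⟨k, hk, n, e | e⟩ := t.e2T y yA yB hy g a b
    · exact Or.inl ⟨k, hk, _, pow_mem c1.fL n, e⟩
    · exact Or.inr ⟨k, hk, _, pow_mem c1.fL n, by rw [e, mul_inv_cancel_right]⟩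
  have M : ∀ g ∈ Nm (A ⊔ B), g ∉ KL (A ⊔ B) → g * y⁻¹ ∈ KL (A ⊔ B) := fun g hg g' => by
    obtain ⟨l, hl, e1⟩ := a.tr _ (pts hg hA) A hA
    rw [← cj_mul] at e1
    have m1 := mul_mem (le_normalizer hl) hg
    obtain ⟨b, ⟨b1, b2⟩, -⟩ := a.reg A hA _ (pts m1 hB) B hB (fun e2 => ne (by
      have := congrArg (cj (l * g)⁻¹) (e1.trans e2.symm)
      rwa [← cj_mul, ← cj_mul, inv_mul_cancel, cj_one, cj_one] at this)) ne.symm
    rw [← cj_mul] at b2
    have m2 := lk _ (mul_mem (hA.1 b1) hl)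
    rcases T (b * (l * g)) (mul_mem (le_normalizer b1) (cj_eq_iff.1 e1)) (cj_eq_iff.1 b2) with q | q
    · exact absurd (by simpa [mul_assoc] using mul_mem (inv_mem m2) q) g'
    · simpa [mul_assoc] using mul_mem (inv_mem m2) q
  have q1 := M g hg g'
  have q2 := M h hh h'
  rcases T (y * y) (mul_mem yA yA) (mul_mem yB yB) with q | q
  · have := mul_mem (mul_mem q1 (nKL yM q2)) q
    simpa [mul_assoc] using this
  · rw [mul_inv_cancel_right] at q
    exact absurd (by simpa using mul_mem q1 q) g'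

theorem lx (hA : LAStmt.{u}) (hB : LBStmt.{u}) (hC1 : LC1Stmt.{u}) (hC : LCStmt.{u})
    (hT : LTStmt.{u}) : LXStmt.{u} := by
  intro G _ _ L x w c hL hx hw hc x3 xK ww wx cx cw
  have a := hA L hL
  have b := hB L hL
  have P := fun {g h : G} => two (g := g) (h := h) hC1 hC hT hL a
  have sq : ∀ g ∈ Nm L, g * g ∈ KL L := fun g hg => by
    by_cases h : g ∈ KL L
    exacts [mul_mem h h, P hg hg h h]
  have xm : x ∈ KL L := by
    have := mul_mem (sq x hx) (sq x hx)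
    rwa [show x * x * (x * x) = x ^ 3 * x by simp only [pow_succ, pow_zero, one_mul, mul_assoc], x3, one_mul] at this
  obtain ⟨k, hk, z, hz, rfl⟩ := xm
  have : Fact (Nat.Prime 3) := ⟨Nat.prime_three⟩
  have z3 : z ^ 3 = 1 := uq a (pow_mem hk 3) (one_mem _) (pow_mem hz 3) (one_mem _) (by
    rw [← (cm hk hz).mul_pow, x3, mul_one])
  have zo : orderOf z = 3 := orderOf_eq_prime z3 fun e => xK (by rw [e, mul_one]; exact hk)
  have zi : z ≠ z⁻¹ := fun e => by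
    have : orderOf z ∣ 2 := orderOf_dvd_of_pow_eq_one (by rw [pow_two, mul_eq_one_iff_eq_inv]; exact e)
    rw [zo] at this; norm_num at this
  have cz : c * z * c⁻¹ = z := cjq a hc hk hk hz hz (by rw [cx.eq, mul_inv_cancel_right])
  have wz : w * z * w⁻¹ = z⁻¹ := cjq a hw hk (inv_mem hk) hz (inv_mem hz) (by
    rw [wx, (cm hk hz).eq, mul_inv_rev])
  obtain ⟨s, hs, v, hv, so, vo, sz, sv, vz⟩ := b.d12' z hz zo
  have ss : s * s = 1 := by rw [← pow_two, ← so, pow_orderOf_eq_one]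
  have vv : v * v = 1 := by rw [← pow_two, ← vo, pow_orderOf_eq_one]
  have s1 : s ≠ 1 := fun e => by rw [e, orderOf_one] at so; norm_num at so
  have t6 : orderOf (z * s) = 6 := by
    rw [sz.symm.orderOf_mul_eq_mul_orderOf_of_coprime (by rw [zo, so]; norm_num), zo, so]
  have t3 : (z * s) ^ 3 = s := by
    rw [sz.symm.mul_pow, z3, one_mul, pow_succ, pow_two, ss, one_mul]
  have hZ : zpowers (z * s) = L ⊓ C1 z := eq_of_le_of_card_ge (zpowers_le.2 ⟨mul_mem hz hs,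
    mem_centralizer_singleton_iff.2 ((Commute.refl z).mul_left sz).eq⟩) (by
      rw [b.c3 z hz zo, Nat.card_zpowers, t6])
  have mZ : ∀ u ∈ L, Commute u z → u ∈ zpowers (z * s) := fun u hu e =>
    hZ ▸ ⟨hu, mem_centralizer_singleton_iff.2 e.eq⟩
  have i1 : ∀ u ∈ zpowers (z * s), u * u = 1 → u = 1 ∨ u = s := by
    rintro _ ⟨j, rfl⟩ e
    rw [← zpow_add, ← orderOf_dvd_iff_zpow_eq_one, t6] at e
    obtain ⟨n, rfl⟩ : 3 ∣ j := by omega
    beta_reduce
    rw [zpow_mul, show (z * s) ^ (3 : ℤ) = s from (zpow_natCast _ 3).trans t3]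
    rcases Int.even_or_odd' n with ⟨m, rfl | rfl⟩
    · left; rw [zpow_mul, show s ^ (2 : ℤ) = 1 by rw [zpow_two, ss], one_zpow]
    · right; rw [zpow_add_one, zpow_mul, show s ^ (2 : ℤ) = 1 by rw [zpow_two, ss], one_zpow, one_mul]
  have fs : ∀ m ∈ Nm L, (m * z * m⁻¹ = z ∨ m * z * m⁻¹ = z⁻¹) → m * s * m⁻¹ = s := fun m hm e => by
    have c0 : Commute (m * s * m⁻¹) (m * z * m⁻¹) := sz.map (MulAut.conj m).toMonoidHom
    refine (i1 _ (mZ _ (nL hm hs) ?_) (by rw [conj_mul, ss, mul_one, mul_inv_cancel])).resolve_left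
      fun e' => s1 (by simpa [mul_assoc] using congrArg (fun q => m⁻¹ * q * m) e')
    rcases e with e | e <;> rw [e] at c0
    exacts [c0, by simpa using c0.inv_right]
  have cs := fs c hc (Or.inl cz)
  have ws := fs w hw (Or.inr wz)
  obtain ⟨k1, hk1, l, hl, e1⟩ := sq c hc
  have c2 : ∀ g : G, Commute c g → g * (k1 * l) * g⁻¹ = k1 * l := fun g e => by
    rw [← e1, ← (e.mul_left e).eq, mul_inv_cancel_right]
  have lz : Commute l z := (mul_inv_eq_iff_eq_mul.1 (cjq a (le_normalizer hz) hk1 hk1 hl hl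
    (c2 z (mul_inv_eq_iff_eq_mul.1 cz)))).symm
  have wl := cjq a hw hk1 hk1 hl hl (c2 w cw)
  have ll : l * l = 1 := by
    obtain ⟨j, rfl⟩ := mZ l hl lz
    have : w * (z * s) * w⁻¹ = (z * s)⁻¹ := by
      rw [← conj_mul, wz, ws, sz.symm.eq, mul_inv_rev, inv_eq_of_mul_eq_one_left ss]
    simp only [← conj_zpow, this, inv_zpow] at wl
    exact mul_eq_one_iff_eq_inv.2 wl.symm
  rcases i1 l (mZ l hl lz) ll with rfl | rfl
  · rw [e1, mul_one]; exact hk1
  exfalso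
  have cK : c ∉ KL L := by
    rintro ⟨k2, hk2, l2, hl2, rfl⟩
    have e : l2 ^ 2 = l := uq a (pow_mem hk2 2) hk1 (pow_mem hl2 2) hl (by
      rw [← (cm hk2 hl2).mul_pow, pow_two, e1])
    exact s1 (e ▸ b.no4 l2 hl2 (by rw [show 4 = 2 + 2 from rfl, pow_add, e, ss]))
  obtain ⟨y, ⟨k3, hk3, r, hr, rfl⟩, y1, y2, y3⟩ : ∃ y ∈ KL L, Commute c y ∧ y * z * y⁻¹ = z⁻¹ ∧
      y * l * y⁻¹ = l := by
    by_cases h : w ∈ KL L
    · exact ⟨w, h, cw, wz, ws⟩
    · refine ⟨c * w, P hc hw cK h, (Commute.refl c).mul_right cw, ?_, ?_⟩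
      · rw [show c * w * z * (c * w)⁻¹ = c * (w * z * w⁻¹) * c⁻¹ by group, wz, ← conj_inv, cz]
      · rw [show c * w * l * (c * w)⁻¹ = c * (w * l * w⁻¹) * c⁻¹ by group, ws, cs]
  have ac : ∀ u ∈ L, k3 * r * u * (k3 * r)⁻¹ = r * u * r⁻¹ := fun u hu => by
    rw [show k3 * r * u * (k3 * r)⁻¹ = k3 * (r * u * r⁻¹) * k3⁻¹ by group,
      (cm hk3 (nL (le_normalizer hr) hu)).eq, mul_inv_cancel_right]
  rw [ac _ hz] at y2
  rw [ac _ hl] at y3
  have cr : Commute c r := mul_inv_eq_iff_eq_mul.1 (cjq a hc hk3 hk3 hr hr (by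
    rw [y1.eq, mul_inv_cancel_right]))
  have cZ : ∀ u ∈ zpowers (z * l), Commute c u := by
    rintro _ ⟨j, rfl⟩
    exact (Commute.mul_right (mul_inv_eq_iff_eq_mul.1 cz) (mul_inv_eq_iff_eq_mul.1 cs)).zpow_right j
  have cD : ∀ d ∈ L, Commute d l → Commute c d := fun d hd e => by
    by_cases h : d ∈ zpowers (z * l)
    · exact cZ d h
    have := cZ _ (idx2 (D := L ⊓ C1 l) (zpowers_le.2 ⟨mul_mem hz hl,
      mem_centralizer_singleton_iff.2 (sz.symm.mul_left (Commute.refl l)).eq⟩)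
      (by rw [b.cC l hl so, Nat.card_zpowers, t6]) ⟨hd, mem_centralizer_singleton_iff.2 e.eq⟩
      ⟨hr, mem_centralizer_singleton_iff.2 (mul_inv_eq_iff_eq_mul.1 y3)⟩ h fun q => zi (by
        rw [hZ] at q
        rw [← y2, mem_centralizer_singleton_iff.1 q.2, mul_inv_cancel_right]))
    simpa using this.mul_right cr.inv_right
  obtain ⟨g, hg, gs⟩ := b.cls l hl v hv so vo
  have q1 : Commute c (g⁻¹ * l * g) := cD _ (mul_mem (mul_mem (inv_mem hg) hl) hg) (by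
    have := sv.map (MulAut.conj g⁻¹).toMonoidHom
    rw [← gs] at this
    simpa [mul_assoc] using this)
  have q2 : Commute (g * c * g⁻¹) l := by
    simpa [mul_assoc] using q1.map (MulAut.conj g).toMonoidHom
  have nm : g * c * g⁻¹ * c⁻¹ ∈ L := by
    rw [show g * c * g⁻¹ * c⁻¹ = g * (c * g⁻¹ * c⁻¹) by group]
    exact mul_mem hg (nL hc (inv_mem hg))
  have q3 := cD _ nm (q2.mul_left (Commute.inv_left (mul_inv_eq_iff_eq_mul.1 cs)))
  generalize hn : g * c * g⁻¹ * c⁻¹ = n at nm q3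
  have q4 : k1 * (n * n * l) = k1 * v := by
    calc k1 * (n * n * l) = n * n * (c * c) := by
          rw [e1, ← mul_assoc, (cm hk1 (mul_mem nm nm)).eq, mul_assoc]
      _ = n * c * (n * c) := by rw [mul_assoc n c, ← mul_assoc c n c, q3.eq]; simp only [mul_assoc]
      _ = g * (c * c) * g⁻¹ := by rw [← hn]; group
      _ = k1 * v := by rw [e1, ← gs, ← mul_assoc g, ← (cm hk1 hg).eq]; group
  have q5 : n * n = v * l := by
    rw [← mul_left_cancel q4, mul_assoc, ss, mul_one]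
  have q6 := b.no4 n nm (by
    rw [show n ^ 4 = n * n * (n * n) by simp only [pow_succ, pow_zero, one_mul, mul_assoc], q5, mul_assoc, ← mul_assoc l, sv.eq, mul_assoc, ss,
      mul_one, vv])
  rw [pow_two, q5] at q6
  have q7 : v = l := by rw [mul_eq_one_iff_eq_inv.1 q6, inv_eq_of_mul_eq_one_left ss]
  exact zi (by rw [← vz, q7, sz.eq, mul_inv_cancel_right])

end Cfsg.Agent.H3.ElLx
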