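import Cfsg.Agent.H73.GagDefs
import Cfsg.Agent.H93.AbSylow
import Cfsg.Agent.H4.CoprimeAction
import Cfsg.Agent.H10.SylowUtil
import Cfsg.Agent.H11.GroupUtil

/-! Groups with cyclic 3-subgroups in which elements of order three centralise the 2-subgroups
they normalise: local lemmas. -/

set_option autoImplicit false
set_option linter.unusedSectionVars false

namespace Cfsg.Agent.H3.GagMainB

open Subgroup Cfsg Cfsg.Agent.H73.Gag

universe u

/-- All 3-subgroups are cyclic. -/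
def Cyc3 (G : Type u) [Group G] : Prop := ∀ R : Subgroup G, IsPGroup 3 R → IsCyclic R

/-- Elements of order three centralise the 2-subgroups they normalise. -/
def NA (G : Type u) [Group G] : Prop := ∀ y : G, orderOf y = 3 → ∀ Q : Subgroup G,
  IsPGroup 2 Q → y ∈ normalizer (Q : Set G) → ∀ q ∈ Q, Commute q y

variable {G : Type u} [Group G]

/-- The normaliser of `⟨x⟩`. -/
abbrev Nz (x : G) : Subgroup G := normalizer (zpowers x : Set G)

theorem ne_one3 {x : G} (hx : orderOf x = 3) : x ≠ 1 := by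
  rintro rfl; simp at hx

theorem cube {x : G} (hx : orderOf x = 3) : x ^ 3 = 1 := by
  rw [← hx]; exact pow_orderOf_eq_one x

theorem ne_inv3 {x : G} (hx : orderOf x = 3) : x ≠ x⁻¹ := fun h => by
  have h2 : x ^ 2 = 1 := by rw [pow_two]; nth_rewrite 2 [h]; exact mul_inv_cancel x
  have := orderOf_dvd_of_pow_eq_one h2
  rw [hx] at this
  omega

theorem mem_zp3 {x y : G} (hx : orderOf x = 3) (hy : y ∈ zpowers x) :
    y = 1 ∨ y = x ∨ y = x⁻¹ := by
  have hfin : IsOfFinOrder x := orderOf_pos_iff.1 (by omega)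
  obtain ⟨n, rfl⟩ := (hfin.mem_powers_iff_mem_zpowers).2 hy
  have h2 : x ^ 2 = x⁻¹ := by
    rw [eq_inv_iff_mul_eq_one, ← pow_succ]; exact cube hx
  have h3 : n % 3 = 0 ∨ n % 3 = 1 ∨ n % 3 = 2 := by omega
  have h4 : x ^ n = x ^ (n % 3) := by rw [← hx, pow_mod_orderOf]
  simp only [h4]
  rcases h3 with h | h | h <;> rw [h] <;> simp [h2]

theorem orderOf_cj (g x : G) : orderOf (g * x * g⁻¹) = orderOf x := by
  simpa using (MulAut.conj g).orderOf_eq x

theorem nz_cases {x g : G} (hx : orderOf x = 3) (hg : g ∈ Nz x) :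
    g * x * g⁻¹ = x ∨ g * x * g⁻¹ = x⁻¹ :=
  (mem_zp3 hx ((mem_normalizer_iff.1 hg x).1 (mem_zpowers x))).resolve_left
    (ne_one3 (by rw [orderOf_cj, hx]))

theorem comm_iff {x g : G} : Commute g x ↔ g * x * g⁻¹ = x := by
  rw [mul_inv_eq_iff_eq_mul]; rfl

theorem inv_of_not_comm {x g : G} (hx : orderOf x = 3) (hg : g ∈ Nz x) (h : ¬ Commute g x) :
    g * x * g⁻¹ = x⁻¹ :=
  (nz_cases hx hg).resolve_left fun e => h (comm_iff.2 e)

theorem not_comm_of_inv {x g : G} (hx : orderOf x = 3) (h : g * x * g⁻¹ = x⁻¹) :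
    ¬ Commute g x := fun e => ne_inv3 hx ((comm_iff.1 e).symm.trans h)

theorem comm_mul {x a b : G} (hx : orderOf x = 3) (ha : a ∈ Nz x) (hb : b ∈ Nz x)
    (ha' : ¬ Commute a x) (hb' : ¬ Commute b x) : Commute (a * b) x := by
  have h1 := inv_of_not_comm hx ha ha'
  have h2 := inv_of_not_comm hx hb hb'
  rw [comm_iff]
  calc a * b * x * (a * b)⁻¹ = a * (b * x * b⁻¹) * a⁻¹ := by group
    _ = (a * x * a⁻¹)⁻¹ := by rw [h2]; group
    _ = x := by rw [h1, inv_inv]

theorem comm_cj {a b : G} (g : G) (h : Commute a b) : Commute (g * a * g⁻¹) (g * b * g⁻¹) := by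
  simpa using h.map (MulAut.conj g)

theorem comm_conj {x g d : G} (hx : orderOf x = 3) (hg : g ∈ Nz x) (h : Commute d x) :
    Commute (g * d * g⁻¹) x := by
  have h1 := comm_cj g h
  rcases nz_cases hx hg with e | e
  · rwa [e] at h1
  · rw [e] at h1; simpa using h1

variable [Finite G]

theorem mem_nz {x g : G} (h : g * x * g⁻¹ ∈ zpowers x) : g ∈ Nz x :=
  H10.mem_normalizer_of_conj_mem (by
    rintro _ ⟨n, rfl⟩
    simp only [← conj_zpow]
    exact zpow_mem h n)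

theorem nz_of_comm {x g : G} (h : Commute g x) : g ∈ Nz x :=
  mem_nz (by rw [comm_iff.1 h]; exact mem_zpowers x)

theorem nz_conj {x h : G} (g : G) (hh : g⁻¹ * h * g ∈ Nz x) : h ∈ Nz (g * x * g⁻¹) := by
  obtain ⟨n, hn⟩ := (mem_normalizer_iff.1 hh x).1 (mem_zpowers x)
  refine mem_nz ⟨n, ?_⟩
  simp only at hn ⊢
  rw [conj_zpow, hn]; group

theorem uniq3 (hc : Cyc3 G) {x y : G} (hx : orderOf x = 3) (hy : orderOf y = 3)
    (h : y ∈ Nz x) : y = x ∨ y = x⁻¹ := by
  have h3 : ∀ {t : G}, orderOf t = 3 → IsPGroup 3 (zpowers t) := fun ht =>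
    H10.isPGroup_zpowers_of_pow (k := 1) (by simpa using cube ht)
  have := hc _ (IsPGroup.to_sup_of_normal_right' (h3 hy) (h3 hx) (zpowers_le.2 h))
  exact (mem_zp3 hx (H11.mem_zpowers_of_orderOf_dvd (zpowers y ⊔ zpowers x)
    (mem_sup_left (mem_zpowers y)) (mem_sup_right (mem_zpowers x)) (by rw [hx, hy]))).resolve_left
    (ne_one3 hy)

theorem norm_of_cent {D : Subgroup G} {y : G} (h : ∀ d ∈ D, Commute d y) :
    y ∈ normalizer (D : Set G) :=
  H10.mem_normalizer_of_conj_mem fun d hd => by rw [comm_iff.1 (h d hd).symm]; exact hd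

theorem pow_two_pow {T : Subgroup G} (hT : IsPGroup 2 T) {s : G} (hs : s ∈ T) :
    ∃ k : ℕ, s ^ 2 ^ k = 1 := by
  obtain ⟨k, hk⟩ := hT ⟨s, hs⟩
  exact ⟨k, congrArg Subtype.val hk⟩

/-- The consequence of `LB.b` that is used. -/
theorem key (lb : LB G) {T : Subgroup G} (hT : IsPGroup 2 T) {x x' s : G} (hx : orderOf x = 3)
    (hx' : orderOf x' = 3) (h1 : T ≤ Nz x) (h2 : T ≤ Nz x') (hs : s ∈ T) (hs1 : ¬ Commute s x)
    (hs2 : Commute s x') {d : G} (hd : d ∈ T) (hd1 : Commute d x) (hd2 : Commute d x') :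
    d = 1 := by
  by_contra hne
  have hm : ∀ t : G, t ∈ T ⊓ (centralizer {x} ⊓ centralizer {x'}) ↔
      t ∈ T ∧ Commute t x ∧ Commute t x' := fun t => by
    simp only [mem_inf, mem_centralizer_singleton_iff]; rfl
  refine lb.b (T ⊓ (centralizer {x} ⊓ centralizer {x'})) hT.to_inf_left
    (fun e => hne (mem_bot.1 (e ▸ (hm d).2 ⟨hd, hd1, hd2⟩))) s
    (H10.mem_normalizer_of_conj_mem fun t ht => ?_) x
    (norm_of_cent fun t ht => ((hm t).1 ht).2.1) x' (norm_of_cent fun t ht => ((hm t).1 ht).2.2)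
    (pow_two_pow hT hs) hx hx' hs2 (inv_of_not_comm hx (h1 hs) hs1)
  obtain ⟨a, b, c⟩ := (hm t).1 ht
  exact (hm _).2 ⟨mul_mem (mul_mem hs a) (inv_mem hs), comm_conj hx (h1 hs) b,
    comm_conj hx' (h2 hs) c⟩

/-- A Sylow 2-subgroup `S` with central involution `z` whose centraliser normalises `⟨x⟩`. -/
structure Cfg (S : Sylow 2 G) (z x : G) : Prop where
  zo : orderOf z = 2
  xo : orderOf x = 3
  zS : z ∈ (S : Subgroup G)
  cen : ∀ s ∈ (S : Subgroup G), Commute s z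
  zx : Commute z x
  CN : ∀ c : G, Commute c z → c ∈ Nz x
  big : ∃ a ∈ (S : Subgroup G), ∃ b ∈ (S : Subgroup G), a ≠ 1 ∧ b ≠ 1 ∧ a ≠ b ∧
    Commute a x ∧ Commute b x

theorem Cfg.conj {S : Sylow 2 G} {z x : G} (h : Cfg S z x) (g : G) :
    Cfg (g • S) (g * z * g⁻¹) (g * x * g⁻¹) := by
  have hm : ∀ {t : G}, t ∈ (S : Subgroup G) → g * t * g⁻¹ ∈ ((g • S : Sylow 2 G) : Subgroup G) :=
    fun {t} ht => H10.mem_smul_sylow.2 (by
      rw [show g⁻¹ * (g * t * g⁻¹) * g = t by group]; exact ht)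
  refine ⟨by rw [orderOf_cj, h.zo], by rw [orderOf_cj, h.xo], hm h.zS, fun s hs => ?_,
    comm_cj g h.zx, fun c hc => nz_conj g (h.CN _ ?_), ?_⟩
  · simpa [mul_assoc] using comm_cj g (h.cen _ (H10.mem_smul_sylow.1 hs))
  · simpa [mul_assoc] using comm_cj g⁻¹ hc
  · obtain ⟨a, ha, b, hb, a1, b1, ab, ax, bx⟩ := h.big
    exact ⟨_, hm ha, _, hm hb, by simpa using a1, by simpa using b1, by simpa using ab,
      comm_cj g ax, comm_cj g bx⟩

theorem Cfg.sq {S : Sylow 2 G} {z x : G} (h : Cfg S z x) : z * z = 1 := by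
  rw [← pow_two, ← h.zo]; exact pow_orderOf_eq_one z

theorem Cfg.ne_one {S : Sylow 2 G} {z x : G} (h : Cfg S z x) : z ≠ 1 := by
  rintro rfl; simpa using h.zo

/-- Two configurations with `z'` in `S` inverting `x`. -/
theorem two_cfg (lb : LB G) {S S' : Sylow 2 G} {z x z' x' : G} (h : Cfg S z x)
    (h' : Cfg S' z' x') (hz : z' ∈ (S : Subgroup G)) (hn : ¬ Commute z' x) :
    ¬ Commute z x' ∧
      (∀ c : G, c ∈ (S : Subgroup G) ⊓ centralizer {z'} ↔
        c = 1 ∨ c = z ∨ c = z' ∨ c = z * z') ∧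
      ∃ n ∈ normalizer (((S : Subgroup G) ⊓ centralizer {z'} : Subgroup G) : Set G),
        n * z * n⁻¹ = z ∧ n * z' * n⁻¹ = z * z' := by
  set E : Subgroup G := (S : Subgroup G) ⊓ centralizer {z'} with hE
  have hm : ∀ t : G, t ∈ E ↔ t ∈ (S : Subgroup G) ∧ Commute t z' := fun t => by
    simp only [hE, mem_inf, mem_centralizer_singleton_iff]; rfl
  have e1 : E ≤ Nz x := fun t ht => h.CN t (h.cen t ((hm t).1 ht).1)
  have e2 : E ≤ Nz x' := fun t ht => h'.CN t ((hm t).1 ht).2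
  have z'E : z' ∈ E := (hm _).2 ⟨hz, Commute.refl _⟩
  have zE : z ∈ E := (hm _).2 ⟨h.zS, (h.cen _ hz).symm⟩
  have k0 : ∀ d ∈ E, Commute d x → Commute d x' → d = 1 := fun d hd a b =>
    key lb (S.2.to_inf_left) h.xo h'.xo e1 e2 z'E hn h'.zx hd a b
  have zx' : ¬ Commute z x' := fun e => h.ne_one (k0 z zE h.zx e)
  have k1 : ∀ d ∈ E, Commute d x → d = 1 ∨ d = z := fun d hd a => by
    by_cases b : Commute d x'
    · exact Or.inl (k0 d hd a b)
    · right
      have := k0 _ (mul_mem hd zE) (a.mul_left h.zx) (comm_mul h'.xo (e2 hd) (e2 zE) b zx')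
      calc d = d * z * z := by rw [mul_assoc, h.sq, mul_one]
        _ = z := by rw [this, one_mul]
  have k2 : ∀ c : G, c ∈ E ↔ c = 1 ∨ c = z ∨ c = z' ∨ c = z * z' := fun c => by
    constructor
    · intro hc
      by_cases a : Commute c x
      · rcases k1 c hc a with e | e <;> simp [e]
      · have e3 : c = c * z' * z' := by rw [mul_assoc, h'.sq, mul_one]
        rcases k1 _ (mul_mem hc z'E) (comm_mul h.xo (e1 hc) (e1 z'E) a hn) with e | e
        · rw [e, one_mul] at e3; simp [e3]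
        · rw [e] at e3; simp [e3]
    · rintro (rfl | rfl | rfl | rfl)
      exacts [one_mem _, zE, z'E, mul_mem zE z'E]
  refine ⟨zx', k2, ?_⟩
  have hlt : E < S := by
    refine lt_of_le_of_ne inf_le_left fun e => ?_
    obtain ⟨a, ha, b, hb, a1, b1, ab, ax, bx⟩ := h.big
    rw [← e] at ha hb
    exact ab (((k1 a ha ax).resolve_left a1).trans ((k1 b hb bx).resolve_left b1).symm)
  obtain ⟨n, hnS, hnN, hnE⟩ := H10.exists_mem_normalizer_of_lt S.2 hlt
  have nz : n * z * n⁻¹ = z := comm_iff.1 (h.cen n hnS)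
  refine ⟨n, hnN, nz, ?_⟩
  rcases (k2 _).1 ((mem_normalizer_iff.1 hnN z').1 z'E) with e | e | e | e
  · exact absurd (by simpa using e) h'.ne_one
  · have : z' = z := by simpa using e.trans nz.symm
    exact absurd (this ▸ h.zx) hn
  · exact absurd ((hm n).2 ⟨hnS, comm_iff.2 e⟩) hnE
  · exact e

/-- Control of fusion of `z`. -/
theorem fusion (hc : Cyc3 G) (na : NA G) (lb : LB G) {S : Sylow 2 G} {z x : G} (h : Cfg S z x)
    (g : G) (hg : g * z * g⁻¹ ∈ Nz x) : g ∈ Nz x := by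
  by_cases c1 : Commute (g * z * g⁻¹) x
  · have h1 : g⁻¹ * x * g ∈ Nz x := h.CN _ (by simpa [mul_assoc] using comm_cj g⁻¹ c1.symm)
    have h2 := uniq3 hc h.xo (by simpa using (orderOf_cj g⁻¹ x).trans h.xo) h1
    rw [← inv_mem_iff]
    refine mem_nz ?_
    rw [inv_inv]
    rcases h2 with e | e <;> rw [e]
    exacts [mem_zpowers x, inv_mem (mem_zpowers x)]
  exfalso
  have SN : (S : Subgroup G) ≤ Nz x := fun s hs => h.CN s (h.cen s hs)
  obtain ⟨a, ha, haS⟩ := H10.exists_conj_mem_sylow S SN (k := 1) (x := g * z * g⁻¹)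
    (by simpa [pow_two] using (h.conj g).sq) hg
  have hz' : a * g * z * (a * g)⁻¹ = a * (g * z * g⁻¹) * a⁻¹ := by group
  set z' := a * (g * z * g⁻¹) * a⁻¹ with hz'def
  have n1 : ¬ Commute z' x := fun e => c1 (by
    simpa [hz'def, mul_assoc] using comm_conj h.xo (inv_mem ha) e)
  have h1 := h.conj (a * g)
  rw [hz'] at h1
  obtain ⟨b, hb, hbS⟩ := H10.exists_conj_mem_sylow ((a * g) • S) (H := centralizer {z'})
    (fun s hs => mem_centralizer_singleton_iff.2 (h1.cen s hs)) (k := 1) (x := z)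
    (by simpa [pow_two] using h.sq) (mem_centralizer_singleton_iff.2 (h.cen _ haS).symm)
  have h2 := h1.conj b⁻¹
  have hbz : b⁻¹ * z' * b⁻¹⁻¹ = z' :=
    comm_iff.1 (Commute.inv_left (mem_centralizer_singleton_iff.1 hb))
  rw [hbz] at h2
  have zS' : z ∈ ((b⁻¹ • (a * g) • S : Sylow 2 G) : Subgroup G) :=
    H10.mem_smul_sylow.2 (by simpa using hbS)
  obtain ⟨n2, k1, n, hn, nz, nz'⟩ := two_cfg lb h h2 haS n1
  obtain ⟨-, k2, n', hn', n'z', n'z⟩ := two_cfg lb h2 h zS' n2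
  have zz : Commute z' z := h.cen _ haS
  have hE : ((b⁻¹ • (a * g) • S : Sylow 2 G) : Subgroup G) ⊓ centralizer {z} =
      (S : Subgroup G) ⊓ centralizer {z'} := by
    ext c; rw [k1, k2, zz.eq]; tauto
  rw [hE] at hn'
  have hm := mul_mem hn hn'
  set m := n * n' with hmdef
  have m1 : m * z * m⁻¹ = z' := by
    calc m * z * m⁻¹ = n * (n' * z * n'⁻¹) * n⁻¹ := by rw [hmdef]; group
      _ = (n * z' * n⁻¹) * (n * z * n⁻¹) := by rw [n'z]; group
      _ = z' := by rw [nz, nz', ← zz.eq, mul_assoc, h.sq, mul_one]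
  have m2 : m * z' * m⁻¹ = z * z' := by
    calc m * z' * m⁻¹ = n * (n' * z' * n'⁻¹) * n⁻¹ := by rw [hmdef]; group
      _ = z * z' := by rw [n'z', nz']
  have m3 : Commute (m ^ 3) z := by
    rw [comm_iff]
    calc m ^ 3 * z * (m ^ 3)⁻¹ = m * (m * (m * z * m⁻¹) * m⁻¹) * m⁻¹ := by
          rw [pow_succ, pow_two]; group
      _ = m * (z * z') * m⁻¹ := by rw [m1, m2]
      _ = (m * z * m⁻¹) * (m * z' * m⁻¹) := by group
      _ = z := by rw [m1, m2, ← zz.eq, ← mul_assoc, h2.sq, one_mul]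
  have d3 : 3 ∣ orderOf m := by
    by_contra hd
    obtain ⟨k, hk⟩ := exists_pow_eq_self_of_coprime
      ((Nat.Prime.coprime_iff_not_dvd Nat.prime_three).2 hd)
    have h4 : Commute m z := hk ▸ m3.pow_left k
    rw [comm_iff.1 h4] at m1
    exact n1 (m1 ▸ h.zx)
  have o3 : orderOf (m ^ (orderOf m / 3)) = 3 := orderOf_pow_orderOf_div (orderOf_pos m).ne' d3
  have c3 := na _ o3 _ S.2.to_inf_left (pow_mem hm _)
  have c4 := c3 z ((k1 z).2 (by simp))
  have c5 := c3 z' ((k1 z').2 (by simp))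
  rcases uniq3 hc h.xo o3 (h.CN _ c4.symm) with e | e <;> rw [e] at c5
  · exact n1 c5
  · exact n1 (by simpa using c5)

end Cfsg.Agent.H3.GagMainB
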