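import Cfsg.Agent.H24.JnDefs
import Cfsg.Agent.H33.J4Odd5
import Cfsg.Agent.S5563
import Cfsg.Agent.S5564
import Cfsg.Agent.S5629

/-! A non-central element of order eleven in a group of Janko-four type has a small normalizer. -/

set_option autoImplicit false

namespace Cfsg.Agent.H24.JN

open Subgroup Cfsg.Agent.H33.J4O

universe u

namespace B11x

theorem cent242 {G : Type*} [Group G] [Finite G] {L : L11 G} (Γ : L.Glob) {x v r : G}
    (hx : orderOf x = 11) (hv : orderOf v = 11) (hr : orderOf r = 3)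
    (rv : r * v = v * r) (xv : x * v = v * x) (rx : r * x ≠ x * r) :
    Nat.card (centralizer ({x} : Set G)) = 242 := by
  obtain ⟨O, h⟩ := L.exO
  obtain ⟨k, hk⟩ := L11.conjO h Γ (b := v) (hv ▸ pow_orderOf_eq_one v)
  have hz : k * v * k⁻¹ ∈ zpowers L.x := by
    by_contra hn
    have h1 := L11.centw' h Γ hk hn
    rw [conj_cent] at h1
    have h2 := ord_dvd (mcs.mpr rv)
    rw [hr, h1] at h2
    norm_num at h2
  have he : zpowers (k * v * k⁻¹) = zpowers L.x :=
    eq_of_le_of_card_ge (zpowers_le.mpr hz)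
      (by rw [Nat.card_zpowers, Nat.card_zpowers, L.x11, orderOf_cj, hv])
  have hxm : L.x ∈ zpowers (k * v * k⁻¹) := he ▸ mem_zpowers _
  have hw : k * x * k⁻¹ * L.x = L.x * (k * x * k⁻¹) :=
    zp_comm hxm (by rw [conj_mul, conj_mul, xv])
  have hO : k * x * k⁻¹ ∈ O :=
    L11.memO h Γ (k := 1) (by rw [pow_one, conj_pow, ← hx, pow_orderOf_eq_one]; simp) (h.norm _ hw)
  have hn : k * x * k⁻¹ ∉ zpowers L.x := fun hc => by
    rw [← he] at hc
    have h1 := zp_comm (a := k * r * k⁻¹) hc (by rw [conj_mul, conj_mul, rv])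
    rw [conj_mul, conj_mul] at h1
    exact rx (by simpa using h1)
  rw [← conj_cent k x]
  exact L11.centw' h Γ hO hn

end B11x

theorem pB11 : B11.{u} := by
  intro G _ _ _ hG hJ x v r hx hv hr rv xv rx
  obtain ⟨z, hz⟩ := hJ
  obtain ⟨h1, h2⟩ := card_hna hG ⟨z, hz⟩ (S5629.result hG z hz)
  obtain ⟨L, Γ, -⟩ := exists_glob hG ⟨z, hz⟩
    (fun z P h => (S5563.result hG z P h).2.2.2.2) (S5564.result hG ⟨z, hz⟩) h1 h2
  have hc := B11x.cent242 Γ hx hv hr rv xv rx
  obtain ⟨d, hd, e, -⟩ := card_norm (by norm_num : Nat.Prime 11) hx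
  have := Nat.le_of_dvd (by norm_num) hd
  rw [e, hc]
  omega

end Cfsg.Agent.H24.JN
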