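import Mathlib
import Cfsg.Agent.H89.L27Defs

/-! The dimension identities for the two four-groups of `L₂(7)`. -/

set_option autoImplicit false

namespace Cfsg.Agent.H89.L27

open Module
open scoped Matrix MatrixGroups

namespace Fgx

theorem gen (fa : FaStmt) (F W : Type) [Field F] [CharP F 3] [AddCommGroup W] [Module F W]
    [FiniteDimensional F W] (B : LinearMap.BilinForm F W) (T S A Y : Module.End F W)
    (hs : ∀ v w, B v w = B w v) (hn : ∀ v, (∀ w, B v w = 0) → v = 0)
    (iT : ∀ v w, B (T v) (T w) = B v w) (iS : ∀ v w, B (S v) (S w) = B v w)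
    (iA : ∀ v w, B (A v) (A w) = B v w) (iY : ∀ v w, B (Y v) (Y w) = B v w)
    (TT : T * T = 1) (SS : S * S = 1) (ST : S * T = T * S) (TA : T * A = A * S)
    (SA : S * A = A * (T * S)) (TY : T * Y = Y * T) (SY : S * Y = Y * (T * S))
    (AAA : A * (A * A) = 1) (YY : Y * Y = T)
    (YA : Y * (A * (Y * A)) = T * S ∨ Y * (A * (Y * A)) = 1)
    (U : Submodule F W) (hU : ∀ v, v ∈ U ↔ T v = v ∧ S v = v) :
    finrank F (U ⊓ LinearMap.ker (A - 1) ⊓ LinearMap.ker (Y - 1) : Submodule F W) + finrank F U =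
      finrank F (U ⊓ LinearMap.ker (A - 1) ⊓ LinearMap.ker (Y + 1) : Submodule F W) +
        2 * finrank F (U ⊓ LinearMap.ker (Y - 1) : Submodule F W) := by
  have ap : ∀ {P Q : Module.End F W}, P = Q → ∀ v, P v = Q v := fun h v => by rw [h]
  have key := fa F W B U A Y hs (fun v hv h0 => hn v fun w => by
      obtain ⟨h1, h2⟩ := (hU v).mp hv
      have tt := ap TT
      have ss := ap SS
      have st := ap ST
      simp only [Module.End.mul_apply, Module.End.one_apply] at tt ss st
      have hw : w + T w + S w + T (S w) ∈ U := (hU _).mpr ⟨by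
        simp only [map_add, tt]; abel, by
        simp only [map_add, st, ss]; abel⟩
      have e := h0 _ hw
      have e1 : ∀ u, B v (T u) = B v u := fun u => by rw [← iT v u, h1]
      have e2 : ∀ u, B v (S u) = B v u := fun u => by rw [← iS v u, h2]
      simp only [map_add, e1, e2] at e
      have e3 : (3 : F) = 0 := by exact_mod_cast CharP.cast_eq_zero F 3
      linear_combination e - B v w * e3) iA iY
    (fun v hv => by
      obtain ⟨h1, h2⟩ := (hU v).mp hv
      have a1 := ap TA v
      have a2 := ap SA v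
      simp only [Module.End.mul_apply, h1, h2] at a1 a2
      exact (hU _).mpr ⟨a1, a2⟩)
    (fun v hv => by
      obtain ⟨h1, h2⟩ := (hU v).mp hv
      have a1 := ap TY v
      have a2 := ap SY v
      simp only [Module.End.mul_apply, h1, h2] at a1 a2
      exact (hU _).mpr ⟨a1, a2⟩)
    (fun v _ => ap AAA v)
    (fun v hv => (ap YY v).trans ((hU v).mp hv).1)
    (fun v hv => by
      obtain ⟨h1, h2⟩ := (hU v).mp hv
      rcases YA with e | e
      · have a1 := ap e v
        simp only [Module.End.mul_apply, h1, h2] at a1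
        exact a1
      · exact ap e v)
  omega

theorem eq_of {F W : Type} [Field F] [AddCommGroup W] [Module F W] {ρ : S7 →* Module.End F W}
    (h : ρ (-1) = 1) {g k : S7} (e : g = k ∨ g = -1 * k) : ρ g = ρ k := by
  rcases e with e | e
  · rw [e]
  · rw [e, map_mul, h, one_mul]

end Fgx

open Fgx in
theorem fg (fa : FaStmt) : FgStmt := by
  intro F W _ _ _ _ _ B ρ hs hn hi h1
  have y2 : ∀ v, ρ ey v = v → ρ (ey ^ 2) v = v := fun v h => by
    rw [pow_two, map_mul, Module.End.mul_apply, h, h]
  constructor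
  · have key := gen fa F W B (ρ (ey ^ 2)) (ρ es) (ρ ev) (ρ ey) hs hn (hi _) (hi _) (hi _) (hi _)
      (by rw [← map_mul, ← map_one ρ]; exact eq_of h1 (by decide))
      (by rw [← map_mul, ← map_one ρ]; exact eq_of h1 (by decide))
      (by simp only [← map_mul]; exact eq_of h1 (by decide))
      (by simp only [← map_mul]; exact eq_of h1 (by decide))
      (by simp only [← map_mul]; exact eq_of h1 (by decide))
      (by simp only [← map_mul]; exact eq_of h1 (by decide))
      (by simp only [← map_mul]; exact eq_of h1 (by decide))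
      (by rw [← map_mul, ← map_mul, ← map_one ρ]; exact eq_of h1 (by decide))
      (by rw [← map_mul, pow_two])
      (Or.inl (by simp only [← map_mul]; exact eq_of h1 (by decide)))
      (Fx ρ [ey ^ 2, es]) (fun v => by simp [mem_Fx])
    have e1 : Fx ρ [ey ^ 2, es] ⊓ LinearMap.ker (ρ ev - 1) ⊓ LinearMap.ker (ρ ey - 1) =
        Fx ρ [ey, es, ev] := by
      ext v
      simp only [Submodule.mem_inf, mem_Fx, LinearMap.mem_ker, LinearMap.sub_apply,
        Module.End.one_apply, sub_eq_zero, List.mem_cons, List.not_mem_nil, or_false,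
        forall_eq_or_imp, forall_eq]
      exact ⟨fun h => ⟨h.2, h.1.1.2, h.1.2⟩, fun h => ⟨⟨⟨y2 v h.1, h.2.1⟩, h.2.2⟩, h.1⟩⟩
    have e2 : Fx ρ [ey ^ 2, es] ⊓ LinearMap.ker (ρ ey - 1) = Fx ρ [ey, es] := by
      ext v
      simp only [Submodule.mem_inf, mem_Fx, LinearMap.mem_ker, LinearMap.sub_apply,
        Module.End.one_apply, sub_eq_zero, List.mem_cons, List.not_mem_nil, or_false,
        forall_eq_or_imp, forall_eq]
      exact ⟨fun h => ⟨h.2, h.1.2⟩, fun h => ⟨⟨y2 v h.1, h.2⟩, h.1⟩⟩
    rwa [e1, e2] at key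
  · have key := gen fa F W B (ρ (ey ^ 2)) (ρ (es * ey)) (ρ eu) (ρ ey) hs hn (hi _) (hi _) (hi _)
      (hi _)
      (by rw [← map_mul, ← map_one ρ]; exact eq_of h1 (by decide))
      (by rw [← map_mul, ← map_one ρ]; exact eq_of h1 (by decide))
      (by simp only [← map_mul]; exact eq_of h1 (by decide))
      (by simp only [← map_mul]; exact eq_of h1 (by decide))
      (by simp only [← map_mul]; exact eq_of h1 (by decide))
      (by simp only [← map_mul]; exact eq_of h1 (by decide))
      (by simp only [← map_mul]; exact eq_of h1 (by decide))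
      (by rw [← map_mul, ← map_mul, ← map_one ρ]; exact eq_of h1 (by decide))
      (by rw [← map_mul, pow_two])
      (Or.inr (by rw [← map_mul, ← map_mul, ← map_mul, ← map_one ρ]; exact eq_of h1 (by decide)))
      (Fx ρ [ey ^ 2, es * ey]) (fun v => by simp [mem_Fx])
    have sy : ∀ v, ρ ey v = v → (ρ (es * ey) v = v ↔ ρ es v = v) := fun v h => by
      rw [map_mul, Module.End.mul_apply, h]
    have e1 : Fx ρ [ey ^ 2, es * ey] ⊓ LinearMap.ker (ρ eu - 1) ⊓ LinearMap.ker (ρ ey - 1) =
        Fx ρ [ey, es, eu] := by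
      ext v
      simp only [Submodule.mem_inf, mem_Fx, LinearMap.mem_ker, LinearMap.sub_apply,
        Module.End.one_apply, sub_eq_zero, List.mem_cons, List.not_mem_nil, or_false,
        forall_eq_or_imp, forall_eq]
      exact ⟨fun h => ⟨h.2, (sy v h.2).mp h.1.1.2, h.1.2⟩,
        fun h => ⟨⟨⟨y2 v h.1, (sy v h.1).mpr h.2.1⟩, h.2.2⟩, h.1⟩⟩
    have e2 : Fx ρ [ey ^ 2, es * ey] ⊓ LinearMap.ker (ρ ey - 1) = Fx ρ [ey, es] := by
      ext v
      simp only [Submodule.mem_inf, mem_Fx, LinearMap.mem_ker, LinearMap.sub_apply,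
        Module.End.one_apply, sub_eq_zero, List.mem_cons, List.not_mem_nil, or_false,
        forall_eq_or_imp, forall_eq]
      exact ⟨fun h => ⟨h.2, (sy v h.2).mp h.1.2⟩, fun h => ⟨⟨y2 v h.1, (sy v h.1).mpr h.2⟩, h.1⟩⟩
    rwa [e1, e2] at key

end Cfsg.Agent.H89.L27
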