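import Cfsg.Agent.H50.L81Defs
import Cfsg.Agent.H80.E82Eigx

/-! The eigenvalue multiplicities of an element of order `41` on the simple modules of
`SL₂(81)`. -/

set_option autoImplicit false

namespace Cfsg.Agent.H50.L81

open Finset Module Cfsg.Agent.H82 Cfsg.Agent.H50.SL2S H50.E83
open scoped MatrixGroups

theorem eigx (hP : ParStmt) : EigxStmt := by
  intro p r hr hev e he
  have hθ : IsPrimitiveRoot (p.θ : K) 41 := IsPrimitiveRoot.coe_units_iff.2 p.hθ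
  have hz : IsPrimitiveRoot (zx p : K) 41 :=
    IsPrimitiveRoot.coe_units_iff.2 (hP.2.2.2 p).2.2.2.2.2.1
  have hi : ((p.θ⁻¹ : Kˣ) : K) = (p.θ : K) ^ 40 := by
    rw [← Units.val_pow_eq_pow_val, inv_eq_of_mul_eq_one_right (by
      rw [← pow_succ']; exact p.hθ.pow_eq_one)]
  obtain ⟨v, h1, h2, h3⟩ := H80.E82Eigx.exists_basis p.κ 3 (g := x0 p) (θ := (p.θ : K))
    (η := ((p.θ⁻¹ : Kˣ) : K)) p.θ.mul_inv (by rw [← p.hτ]; simp [x0]) (hP.2.2.2 p).2.2.2.1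
    (r := r) (by rw [card_F]; exact hr)
  rw [dm, SP, ← h2, H80.E82Eigx.finrank_inf_eig (reg (x0 p)) v _ h1 h3 _
    (fun j => (r / 2 + (41 - 1) * (j : ℕ)) % 41 = e) fun j => ?_, EE, card_filter,
    card_filter, sum_coe_sort (JJ 3 r) fun j => if (r / 2 + (41 - 1) * j) % 41 = e then 1 else 0]
  have hj : (j : ℕ) ≤ r := by simpa [Nat.lt_succ_iff] using (mem_filter.1 j.2).1
  have e1 : (p.θ : K) ^ (r - j) * ((p.θ⁻¹ : Kˣ) : K) ^ (j : ℕ) =
      (zx p : K) ^ ((r / 2 + (41 - 1) * (j : ℕ)) % 41) := by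
    rw [← pow_eq_pow_mod _ hz.pow_eq_one, hi, zx, Units.val_pow_eq_pow_val, ← pow_mul, ← pow_mul,
      ← pow_add]
    obtain ⟨s, hs⟩ := hev
    have e2 : 2 * (r / 2 + (41 - 1) * (j : ℕ)) = r - j + 40 * j + 41 * j := by omega
    rw [e2, pow_add _ _ (41 * (j : ℕ)), pow_mul _ 41, hθ.pow_eq_one, one_pow, mul_one]
  rw [e1]
  exact ⟨hz.pow_inj (Nat.mod_lt _ (by decide)) he, fun h => by rw [h]⟩

end Cfsg.Agent.H50.L81
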