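import Cfsg.Agent.H42.N7Defs
import Cfsg.Agent.H69.SecRank
import Cfsg.Agent.H10.SylowUtil
import Cfsg.Agent.S0215
import Cfsg.Agent.S0205

/-! Project N7, pieces ZS, C2, XX, TQ. -/

set_option autoImplicit false

namespace Cfsg.Agent.H3.N7

open Subgroup Cfsg.Agent.H85 Cfsg.Agent.H42.N7 Cfsg.Agent.H36.LTS

universe u

theorem zs : ZsStmt.{u} := by
  intro G _ _ h T hT
  by_contra ne
  have iso : ∀ g : G, g * h.t * g⁻¹ ∈ T → g * h.t * g⁻¹ = h.t := fun g hg =>
    by_contra fun e => ne ⟨_, hg, e, isConj_iff.2 ⟨g, rfl⟩⟩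
  have t2 : orderOf h.t = 2 := orderOf_eq_prime ((pow_two _).trans h.tt) h.t1
  have tT : h.t ∈ T := hT.ge_of_le_normalizer (Q := zpowers h.t)
    (IsPGroup.of_card (n := 1) (by rw [Nat.card_zpowers, t2, pow_one]))
    ((zpowers_le).2 (mem_centralizer_singleton_iff.2 rfl))
    (hT.le.trans (by
      rw [zpowers_eq_closure, ← centralizer_closure]; exact centralizer_le_normalizer _))
    (mem_zpowers _)
  obtain ⟨P, hP⟩ := hT.isPGroup.exists_le_sylow
  rcases hP.eq_or_lt with e | e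
  · obtain ⟨N, hN, h1, h2⟩ := S0215.result P h.t t2 (hP tT) fun g hg => iso g (e.ge hg)
    have := h.Xn
    have := h.Xs
    rcases (hN.subgroupOf h.X).eq_bot_or_eq_top with k | k
    · refine h.nc fun x hx => mem_centralizer_singleton_iff.2 ?_
      have : (⟨_, mul_mem (h.Xn.conj_mem x hx h.t) (inv_mem hx)⟩ : h.X) ∈ N.subgroupOf h.X :=
        h2 x
      rw [k, mem_bot, Subtype.ext_iff] at this
      exact (mul_inv_eq_iff_eq_mul.1 (mul_inv_eq_one.1 this)).symm
    · have := S0205.result h1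
      have := Group.isSolvable_of_isSolvable_injective (inclusion_injective (subgroupOf_eq_top.1 k))
      exact h.Xa ⟨⟨IsSimpleGroup.comm_iff_isSolvable.2 this⟩⟩
  · obtain ⟨g, hg, h1, h2⟩ := H10.exists_mem_normalizer_of_lt P.isPGroup' e
    exact h2 ((hT.eq_of_le (P.isPGroup'.to_inf_left (K := centralizer {h.t})) (le_inf hP hT.le)
      inf_le_right).le ⟨hg, mem_centralizer_singleton_iff.2
        (mul_inv_eq_iff_eq_mul.1 (iso g ((mem_normalizer_iff.1 h1 _).1 tT)))⟩)

section

variable {G : Type u} [Group G] {t z a b w : G}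

theorem enum (B : B1 t z 1 a b) (z1 : z ≠ 1) (hw : w ∈ closure ({t, 1, a, b} : Set G)) :
    (w * w = z ∧ ¬ Commute w a) ∨ (w * w = 1 ∧ ∃ c, (c = 1 ∨ c = t) ∧
      (w = c ∨ w = c * z ∨ w = c * a ∨ w = c * (a * z) ∨ w = c * b ∨ w = c * (b * z))) := by
  have k : ∀ v ∈ closure ({t, z, 1, a} : Set G), ¬ Commute (b * v) a := fun v hv e => by
    have := (e.mul_left (cm_of (B.cE hv (by memc))).inv_left).symm
    rw [mul_inv_cancel_right] at this
    exact z1 (mul_eq_right.1 (B.ab.symm.trans (cv_of this)))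
  obtain ⟨v, hv, e⟩ := B.memT hw
  obtain ⟨x, hx, e'⟩ := B.memE hv
  have k' := k v hv
  rcases B.memW hx with rfl | rfl | rfl | rfl | rfl | rfl | rfl | rfl <;> rcases e' with rfl | rfl <;>
    rcases e with rfl | rfl <;> first
    | (refine .inl ⟨?_, k'⟩; en B []; done)
    | (refine .inr ⟨?_, 1, .inl rfl, ?_⟩ <;> en B [true_or, or_true] <;> done)
    | (refine .inr ⟨?_, _, .inr rfl, ?_⟩ <;> en B [true_or, or_true] <;> done)

theorem ccx {u u' x : G} (h1 : cn t x = t * z) (h2 : cn z x = z) (h3 : cn u x = u') :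
    cc {t, z, u} = cc {t, z, u'} := by
  rw [cc, cc, ← card_cj x⁻¹ (centralizer {t, z, u})]
  congr 2
  ext c
  have k : ∀ u : G, u * (x⁻¹⁻¹ * c * x⁻¹) = x⁻¹⁻¹ * c * x⁻¹ * u ↔ Commute (cn u x) c := fun u =>
    ⟨fun e => by
      simpa [Commute, SemiconjBy, cn, mul_assoc] using congrArg (fun w => x⁻¹ * w * x) e,
    fun e => by simpa [cn, mul_assoc] using congrArg (fun w => x * w * x⁻¹) e.eq⟩
  simp only [mem_cj, mem_centralizer_iff, Set.mem_insert_iff, Set.mem_singleton_iff, forall_eq_or_imp,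
    forall_eq, k, h1, h2, h3]
  exact ⟨fun e => ⟨by simpa only [mul_inv_cancel_right] using (e.1.mul_left e.2.1.inv_left).eq, e.2⟩,
    fun e => ⟨Commute.mul_left e.1 e.2.1, e.2⟩⟩

theorem dbl [Finite G] {S : Set G} {P : Subgroup G} {g : G} (h : ∀ s ∈ S, s ∈ P) (hg : g ∉ P) :
    2 * Nat.card (closure S) ≤ Nat.card (closure (insert g S)) := by
  have le : closure S ≤ closure (insert g S) := closure_mono (Set.subset_insert _ _)
  obtain ⟨k, hk⟩ := card_dvd_of_le le
  have := Nat.card_pos (α := closure (insert g S))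
  have : k ≠ 1 := fun e => hg ((closure_le P).2 h ((eq_of_le_of_card_ge le (by
    rw [hk, e, mul_one])).ge m1))
  rw [hk, mul_comm]
  exact Nat.mul_le_mul_left _ (by rcases k with _ | _ | k <;> simp_all)

theorem sq_mem {S : Set G} {c : G} (cc : c * c = 1) (h0 : ∀ s ∈ S, Commute s c)
    (h1 : ∀ s ∈ S, s * s = 1 ∨ s * s = c) (h2 : ∀ x ∈ S, ∀ s ∈ S, cv x s = x ∨ cv x s = x * c) :
    ∀ x ∈ closure S, x * x = 1 ∨ x * x = c := by
  have k0 : ∀ x ∈ closure S, Commute x c := fun x hx => mem_centralizer_singleton_iff.1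
    ((closure_le (centralizer {c})).2 (fun s hs => mem_centralizer_singleton_iff.2 (h0 s hs)) hx)
  have k1 : ∀ x ∈ closure S, ∀ s ∈ closure S, cv x s = x ∨ cv x s = x * c := fun x hx s hs => by
    induction hx, hs using closure_induction₂ with
    | mem x s hx hs => exact h2 x hx s hs
    | one_left => exact .inl (cv_one _)
    | one_right => exact .inl (cv_one' _)
    | mul_left x y s hx hy hs e1 e2 =>
      rcases e1 with e1 | e1 <;> rcases e2 with e2 | e2 <;>
        simp [cv_mul, e1, e2, mul_assoc, rc (k0 y hy).symm, ri cc]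
    | mul_right x y s hx hy hs e1 e2 =>
      rcases e1 with e1 | e1 <;> rcases e2 with e2 | e2 <;>
        simp [cv_cv, cv_mul, e1, e2, mul_assoc, cv_of' (k0 y hy), ri cc]
    | inv_left x s hx hs e =>
      exact e.imp (fun e => by rw [cv_inv, e]) fun e => by
        rw [cv_inv, e, mul_inv_rev, (ri cc).1, (k0 x hx).inv_left.eq]
    | inv_right x s hx hs e =>
      refine e.imp cv_inv_of fun e => cv_inv_of ?_
      rw [cv_mul, e, cv_of' (k0 s hs), mul_assoc, cc, mul_one]
  intro x hx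
  induction hx using closure_induction with
  | mem x hx => exact h1 x hx
  | one => exact .inl (mul_one 1)
  | mul x y hx hy e1 e2 =>
    have : x * y * (x * y) = x * x * (cv y x * y) := by simp [cv, mul_assoc]
    rcases e1 with e1 | e1 <;> rcases e2 with e2 | e2 <;> rcases k1 y hy x hx with e | e <;>
      simp [this, e, e1, mul_assoc, rc (k0 y hy).symm, rs e2, ri cc]
  | inv x hx e => exact e.imp (fun e => by rw [← mul_inv_rev, e, inv_one]) fun e => by
                    rw [← mul_inv_rev, e, (ri cc).1]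

end

section

variable {G : Type u} [Group G] (p : Pre G)

theorem z_eq : p.z = p.a⁻¹ * cn p.a p.b := by rw [p.ab, inv_mul_cancel_left]

theorem cz {x : G} (ha : Commute x p.a) (hb : Commute x p.b) : Commute x p.z := by
  rw [z_eq]
  exact ha.inv_right.mul_right ((hb.inv_right.mul_right ha).mul_right hb)

theorem zL : p.z ∈ p.L := (p.LiT.ge (by rw [z_eq, cn]; memc)).1

theorem b1 : B1 p.t p.z 1 p.a p.b :=
  ⟨p.tt, p.zz, mul_one 1, p.aa, p.bb, (cz p p.ta p.tb).symm, Commute.one_left _, p.ta.symm, p.tb,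
    Commute.one_left _, p.za.symm, p.zb, Commute.one_right _, Commute.one_left _,
    p.ab.trans p.za.eq.symm⟩

end

theorem c2 (he : EStmt.{u}) : C2Stmt.{u} := by
  intro G _ _ p
  refine p.ff'.resolve_right fun ff => ?_
  have B := b1 p
  have zt : p.z ≠ p.t := fun e => p.tL (e ▸ zL p)
  have fT : ∀ w ∈ p.T, Commute w p.f := fun w hw => mem_centralizer_singleton_iff.1
    ((p.hT.le.trans ((closure_le (centralizer {p.f})).2 (by
      rw [he G p]
      rintro _ (rfl | rfl | rfl | rfl | rfl) <;> refine mem_centralizer_singleton_iff.2 ?_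
      exacts [p.tf, rfl, p.fa.symm, p.fb.symm, Commute.one_left _]))) hw)
  have sT : closure {p.t, 1, p.a, p.b} ≤ p.T := p.hT ▸ (closure_le _).2 (by
    rintro _ (rfl | rfl | rfl | rfl) <;> simp only [SetLike.mem_coe] <;> memc)
  have dec : ∀ u ∈ p.T, ∃ w ∈ closure {p.t, 1, p.a, p.b},
      u = w ∨ (u = p.f * w ∧ u * u = p.t * (w * w)) := fun u hu => by
    have : p.T ≤ closure (insert p.f {p.t, 1, p.a, p.b}) := p.hT.le.trans ((closure_le _).2 (by
      rw [he G p]
      rintro _ (rfl | rfl | rfl | rfl | rfl) <;> simp only [SetLike.mem_coe] <;> memc))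
    rcases mem_ins (by rw [ff]; memc) (fun s hs => by
      rw [cv_of (fT s (sT (subset_closure hs)))]; exact subset_closure hs) (this hu) with
      h | ⟨w, h, rfl⟩
    · exact ⟨u, h, .inl rfl⟩
    · exact ⟨w, h, .inr ⟨rfl, by rw [← ff, mul_assoc, mul_assoc, (rc (fT w (sT h))).2]⟩⟩
  obtain ⟨u, hu, ut, hc⟩ := zs G p.toBase p.T p.syl
  have uu : u * u = 1 := by
    obtain ⟨g, rfl⟩ := isConj_iff.1 hc
    rw [conj_mul, p.tt, mul_one, mul_inv_cancel]
  obtain ⟨c, hc1, hc2⟩ : ∃ c, (c = 1 ∨ c = p.t) ∧ IsConj p.t (c * p.z) := by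
    obtain ⟨w, hw, rfl | ⟨-, e⟩⟩ := dec u hu
    · obtain ⟨-, c, h1, h2⟩ := (enum B p.z1 hw).resolve_left fun e => p.z1 (e.1.symm.trans uu)
      have k : ∀ {g x y : G}, Commute g p.t → cn x g = y → IsConj (c * y) (c * x) :=
        fun {g x y} e1 e2 => by
        have : cv c g = c := by rcases h1 with rfl | rfl; exacts [cv_one g, cv_of' e1]
        exact (show cv (c * x) g = c * y by rw [cv_mul, this]; exact congrArg _ e2) ▸
          (isConj_cv _ g).symm
      refine ⟨c, h1, hc.trans ?_⟩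
      rcases h2 with rfl | rfl | rfl | rfl | rfl | rfl
      · exact absurd (h1.resolve_right ut) fun e => p.t1 (isConj_one_left.1 (e ▸ hc))
      exacts [IsConj.refl _, k p.rt p.zr, (k p.rt p.ar).trans (k p.rt p.zr), k p.st p.zs,
        (k p.st p.bs).trans (k p.st p.zs)]
    · rw [uu] at e
      rcases enum B p.z1 hw with h | h <;> rw [h.1] at e
      · exact absurd (by rw [eq_comm, mul_eq_one_iff_eq_inv, (ri p.zz).1] at e; exact e.symm) zt
      · exact absurd (by rw [mul_one] at e; exact e.symm) p.t1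
  obtain ⟨g, hg⟩ := isConj_iff.1 hc2
  have S := p.syl.cj g
  rw [← centralizer_closure, ← zpowers_eq_closure, cj_centralizer, cj_zpowers, zpowers_eq_closure,
    centralizer_closure, hg] at S
  obtain ⟨k, hk, le⟩ := S.exists_le_cj p.syl.isPGroup (fun w hw =>
    mem_centralizer_singleton_iff.2 (Commute.mul_right (by
      rcases hc1 with rfl | rfl
      exacts [Commute.one_right _, mem_centralizer_singleton_iff.1 (p.syl.le hw)])
      (mem_centralizer_singleton_iff.1 ((p.hT.le.trans ((closure_le (centralizer {p.z})).2 (by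
        rw [he G p]
        rintro _ (rfl | rfl | rfl | rfl | rfl) <;> refine mem_centralizer_singleton_iff.2 ?_
        exacts [B.zt.symm, cz p p.fa p.fb, B.az, B.zb.symm, Commute.one_left _]))) hw))))
  rw [← cj_mul] at le
  have eq := eq_of_le_of_card_ge le (card_cj _ _).le
  have f2 : k * g * p.f * (k * g)⁻¹ * (k * g * p.f * (k * g)⁻¹) = c * p.z := by
    rw [conj_mul, ff, mul_inv_rev, mul_assoc k, mul_assoc k, ← mul_assoc (g * p.t), hg, ← mul_assoc,
      mem_centralizer_singleton_iff.1 hk, mul_inv_cancel_right]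
  have fa : Commute (k * g * p.f * (k * g)⁻¹) p.a := by
    have := (fT _ (mem_cj.1 (le (sT m3)))).symm.map (MulAut.conj (k * g))
    simpa [mul_assoc] using this
  obtain ⟨w, hw, e | ⟨e, e'⟩⟩ := dec _ (eq.ge (conj_mem_cj (p.hT.ge m2)))
  · rw [e] at f2 fa
    rw [((enum B p.z1 hw).resolve_left fun e => e.2 fa).1] at f2
    rcases hc1 with rfl | rfl
    · exact p.z1 (by rw [f2, one_mul])
    · exact zt (by rw [eq_comm, mul_eq_one_iff_eq_inv, (ri p.zz).1] at f2; exact f2.symm)
  · rw [e] at fa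
    rw [e', ((enum B p.z1 hw).resolve_left fun e => e.2 (by
      simpa using p.fa.inv_left.mul_left fa)).1, mul_one] at f2
    rcases hc1 with rfl | rfl
    · exact zt (by rw [f2, one_mul])
    · exact p.z1 (left_eq_mul.1 f2)

theorem xx (n3 : N3Stmt.{u}) : XXStmt.{u} := by
  intro G _ _ h
  have fz := cz h.toPre h.fa h.fb
  have e1 : cn h.t (h.y * h.Y) = h.t * h.z := by
    change cv _ _ = _
    rw [cv_cv, show cv h.t h.y = _ from h.ty, cv_mul, show cv h.t h.Y = _ from h.tY, cv_of' h.Yf,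
      mul_assoc, mul_assoc, ← fz.eq, ← mul_assoc h.f, h.ff, one_mul]
  have e2 : cn h.z (h.y * h.Y) = h.z := cv_of' (h.yz.mul_left h.Yz)
  refine (n3 G h.toHyp).elim (fun e => e (ccx e1 e2 ?_)) fun e => e (ccx e1 e2 ?_) <;>
    change cv _ _ = _
  · rw [cv_cv, cv_of' h.ya]; exact h.aY
  · rw [cv_cv, show cv h.b h.y = _ from h.by, cv_mul, cv_mul, cv_of' h.Yb, cv_of' h.Yf, cv_of' h.Yz]

theorem tq (hk : KitStmt.{u}) : TQStmt.{u} := by
  intro G _ _ h
  have K := hk G h.toHyp
  have fz := cz h.toPre h.fa h.fb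
  have tz := cz h.toPre h.ta h.tb
  have zl := zL h.toPre
  have cm : ∀ {x g c : G}, cn x g = x * c → c ∈ h.X := fun {x g c} e => by
    have := K.cmX x g
    rwa [mul_assoc, mul_assoc, ← mul_assoc g⁻¹, show g⁻¹ * x * g = _ from e, inv_mul_cancel_left]
      at this
  have fX := cm h.ty
  have yX := cm h.an
  have ty : cv h.t h.y = _ := h.ty
  have tY : cv h.t h.Y = _ := h.tY
  have τX : h.t * h.Y ∈ h.X := by
    have := cm (h.bm.trans (by rw [mul_assoc, mul_assoc]))
    rwa [(rl ty).2, mul_mem_cancel_left yX, mul_assoc, ← h.Yf.eq, ← mul_assoc,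
      mul_mem_cancel_right fX] at this
  have zn : cv h.z h.n = h.f := h.zn
  have fn : cv h.f h.n = h.z := by rw [← zn, cv_sq h.nn]
  have cc : h.z * h.f * (h.z * h.f) = 1 := by simp [mul_assoc, rc fz, ri h.zz, ri h.ff]
  have sw : ∀ {x s : G}, Commute x (h.z * h.f) → cv x s = x * (h.z * h.f) →
      cv s x = s * (h.z * h.f) := fun {x s} c e => by
    rw [cv, mul_assoc, inv_mul_eq_iff_eq_mul, ← mul_assoc x, (rl e).1, mul_assoc, mul_assoc, cc,
      mul_one]
  have c1 : Commute h.n (h.z * h.f) := (cm_of (by rw [cv_mul, zn, fn, fz.eq])).symm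
  have c2 : Commute (h.t * h.Y) h.z := tz.mul_left h.Yz
  have c3 : Commute (h.t * h.Y) h.f := h.tf.mul_left h.Yf
  have c4 : Commute (h.t * h.Y) h.b := h.tb.mul_left h.Yb
  have c5 : Commute h.y (h.t * h.Y) := cm_of (by
    have : cv h.y h.t = h.y * h.f := by
      rw [cv, (ri h.tt).1, (rl ty).1, mul_assoc, mul_assoc, ← h.tf.eq, (ri h.tt).2.2]
    rw [cv_cv, this, cv_mul, show cv h.y h.Y = _ from h.yY, cv_of' h.Yf, mul_assoc, h.ff, mul_one])
  have d1 : cv h.z h.n = h.z * (h.z * h.f) := by rw [zn, (ri h.zz).2.2]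
  have d2 : cv h.f h.n = h.f * (h.z * h.f) := by rw [fn, ← fz.eq, (ri h.ff).2.2]
  have d3 : cv h.b h.y = h.b * (h.z * h.f) := h.by.trans (by rw [mul_assoc, fz.eq])
  have d4 : cv (h.t * h.Y) h.n = h.t * h.Y * (h.z * h.f) := by
    rw [cv_mul, show cv h.t h.n = _ from h.tn, show cv h.Y h.n = _ from h.Yn,
      (c2.mul_right c3).eq, mul_assoc _ h.b, ← h.tb.eq, mul_assoc, mul_assoc h.t, (ri h.bb).2.2]
  have := h.fb; have := h.zb; have := h.yf; have := h.yz; have := h.nb; have := h.ny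
  have h0 : ∀ s ∈ ({h.n, h.t * h.Y, h.y, h.b, h.f, h.z} : Set G), Commute s (h.z * h.f) := by
    rintro _ (rfl | rfl | rfl | rfl | rfl | rfl)
    exacts [c1, c2.mul_right c3, h.yz.mul_right h.yf, h.zb.symm.mul_right h.fb.symm,
      fz.mul_right (Commute.refl _), (Commute.refl _).mul_right fz.symm]
  have sq := sq_mem cc h0 (by
    rintro _ (rfl | rfl | rfl | rfl | rfl | rfl)
    exacts [.inl h.nn, .inr (by
      rw [mul_assoc, (rl tY).1, (ri h.YY).2.2, mul_assoc, (ri h.tt).2.2, fz.eq]),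
      .inl h.yy, .inl h.bb, .inl h.ff, .inl h.zz]) (by
    rintro _ (rfl | rfl | rfl | rfl | rfl | rfl) _ (rfl | rfl | rfl | rfl | rfl | rfl) <;> first
      | exact .inl (cv_self _)
      | exact .inl (cv_of ‹_›)
      | exact .inl (cv_of' ‹_›)
      | exact .inr ‹_›
      | exact .inr (sw (h0 _ (by simp)) ‹_›))
  have HX : closure {h.n, h.t * h.Y, h.y, h.b, h.f, h.z} ≤ h.X := (closure_le _).2 (by
    rintro _ (rfl | rfl | rfl | rfl | rfl | rfl)
    exacts [h.nX, τX, yX, K.aX.2.1, fX, K.aX.2.2])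
  have le := H69.secLE_of_sectional h.X4 ((closure {h.n, h.t * h.Y, h.y, h.b, h.f, h.z}).subgroupOf _)
    ((zpowers (h.z * h.f)).subgroupOf _) fun x hx => by
      rw [mem_subgroupOf, coe_pow, pow_two]
      rcases sq x hx with e | e <;> rw [e]
      exacts [one_mem _, mem_zpowers _]
  rw [relIndex_subgroupOf HX] at le
  have e1 := ((zpowers (h.z * h.f)).subgroupOf
    (closure {h.n, h.t * h.Y, h.y, h.b, h.f, h.z})).card_mul_index
  have e2 : Nat.card ((zpowers (h.z * h.f)).subgroupOf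
      (closure {h.n, h.t * h.Y, h.y, h.b, h.f, h.z})) ≤ 2 := by
    rw [Nat.card_congr (subgroupOfEquivOfLe ((zpowers_le).2 (by memc))).toEquiv, Nat.card_zpowers]
    exact orderOf_le_of_pow_eq_one two_pos ((pow_two _).trans cc)
  have e3 := Nat.mul_le_mul e2 le
  have cs : ∀ {x y : G}, Commute x y → x ∈ centralizer ({y} : Set G) :=
    mem_centralizer_singleton_iff.2
  have k1 := dbl (S := ∅) (P := ⊥) (fun _ e => e.elim) h.z1
  have k2 := dbl (S := {h.z}) (fun _ e => e ▸ zl) h.fL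
  have k3 := dbl (S := {h.f, h.z}) (P := centralizer {h.a}) (g := h.b)
    (by rintro _ (rfl | rfl); exacts [cs h.fa, cs h.za]) fun e =>
      h.z1 (mul_eq_left.1 (h.ab.symm.trans (cv_of' (mem_centralizer_singleton_iff.1 e))))
  have k4 := dbl (S := {h.b, h.f, h.z}) (P := centralizer {h.t}) (g := h.y)
    (by rintro _ (rfl | rfl | rfl); exacts [cs h.tb.symm, cs h.tf.symm, cs tz.symm]) fun e =>
      h.fL ((mul_eq_left.1 (ty.symm.trans (cv_of' (mem_centralizer_singleton_iff.1 e)))) ▸ one_mem _)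
  have k5 := dbl (S := {h.y, h.b, h.f, h.z}) (g := h.t * h.Y)
    (P := normalizer ((closure {h.t, h.f} : Subgroup G) : Set G)) (by
      rintro _ (rfl | rfl | rfl | rfl) <;> refine nrm_of fun _ => cv_closure ?_ <;>
        rintro _ (rfl | rfl) <;>
        simp only [ty, cv_self, cv_of h.tb, cv_of h.tf, cv_of tz, cv_of fz, cv_of h.fb,
          cv_of' h.yf] <;> memc) fun e => by
      have := cv_nrm m1 e
      rw [cv_cv, cv_self, tY, mul_mem_cancel_left (by memc)] at this
      rcases mem_ins (h.tt ▸ one_mem _) (by rintro _ rfl; rw [cv_of' h.tf]; memc) this with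
        e | ⟨w, e, e'⟩ <;> rcases mem_one h.ff e with e | e
      exacts [h.z1 e, h.fL (e ▸ zl), h.tL (by rwa [e', e, mul_one] at zl), h.tfL (e ▸ e' ▸ zl)]
  have k6 := dbl (S := {h.t * h.Y, h.y, h.b, h.f, h.z}) (P := centralizer {h.z}) (g := h.n)
    (by rintro _ (rfl | rfl | rfl | rfl | rfl)
        exacts [cs c2, cs h.yz, cs h.zb.symm, cs fz, cs (Commute.refl _)]) fun e =>
      h.fL ((zn.symm.trans (cv_of' (mem_centralizer_singleton_iff.1 e))) ▸ zl)
  rw [Subgroup.closure_empty, card_bot, insert_empty_eq] at k1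
  rw [relIndex, e1] at e3
  omega

end Cfsg.Agent.H3.N7
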