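import Cfsg.Agent.H54.O84Defs

/-! Additive functions on the roots in the eigenspace of `w` modulo five. -/

set_option autoImplicit false
set_option maxRecDepth 100000

namespace Cfsg.Agent.H3.O84Lin

open Cfsg.Agent.H54.O84 Equiv Cfsg.Lie H37 H40 H34 H29
open scoped Matrix

/-- The coefficients of the projection. -/
def cM : List (List ℤ) := [[1, 1, 4, 4], [4, 1, 3, 4], [3, 3, 4, 2], [0, 0, 1, 3], [3, 3, 3, 0],
  [1, 1, 2, 4], [0, 1, 3, 4], [0, 1, 4, 0]]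

theorem tab : ∀ r < 240, ∀ j < 8, (3 * rcN r j + 4 * rcN (piF 0 r) j - (gt cM j 0 * (mF r 0 : ℤ) +
    gt cM j 1 * (mF r 1 : ℤ) + gt cM j 2 * (mF r 2 : ℤ) + gt cM j 3 * (mF r 3 : ℤ))) % 5 = 0 := by
  decide +kernel

theorem coef (r : Rt) (j : Ix) :
    3 * (C8.R.rc r j : ZMod 5) + 4 * (C8.R.rc (w r) j : ZMod 5) =
      (fun k : Fin 4 => ((gt cM j k : ℤ) : ZMod 5)) ⬝ᵥ m r := by
  have h := (ZMod.intCast_zmod_eq_zero_iff_dvd _ 5).mpr (Int.dvd_of_emod_eq_zero (tab r r.2 j j.2))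
  rw [rc_val, rc_val, w_val]
  simp only [dotProduct, Fin.sum_univ_four, m_val]
  push_cast at h
  exact sub_eq_zero.mp h

theorem lin : LinStmt := by
  intro f hf hw
  refine ⟨∑ j : Ix, (f (C8.R.simple j) : ZMod 5) • fun k : Fin 4 => ((gt cM j k : ℤ) : ZMod 5),
    fun r => ?_⟩
  have e5 : (5 : ZMod 5) = 0 := rfl
  have e : (f r : ZMod 5) = 3 * f r + 4 * f (w r) := by
    rw [hw]; linear_combination (-2 * (f r : ZMod 5)) * e5
  rw [e, hf r, hf (w r), sum_dotProduct]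
  push_cast
  rw [Finset.mul_sum, Finset.mul_sum, ← Finset.sum_add_distrib]
  refine Finset.sum_congr rfl fun j _ => ?_
  rw [smul_dotProduct, ← coef, smul_eq_mul]
  ring

end Cfsg.Agent.H3.O84Lin
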