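import Cfsg.Agent.H71.P3Defs

/-! Sets of pairwise non-perpendicular points of a symplectic space. -/

set_option autoImplicit false

namespace Cfsg.Agent.H3.P3B1

open Cfsg.Agent.H71.P3 Module Finset

theorem fib {A C : Type} [Fintype C] [Nonempty C] (O : Finset A) (R : A → C → Prop)
    [∀ a, DecidablePred (R · a)] (h : ∀ y ∈ O, ∃! a, R y a) :
    O.card = ∑ a, (O.filter (R · a)).card := by
  classical
  choose! f hf hu using h
  rw [card_eq_sum_card_fiberwise (f := f) (t := univ) (by simp)]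
  exact sum_congr rfl fun a _ => congrArg _
    (filter_congr fun y hy => ⟨fun e => e ▸ hf y hy, fun e => (hu y hy a e).symm⟩)

variable {F V : Type} [Field F] [AddCommGroup V] [Module F V]

theorem pt {y : Submodule F V} (h : dm y = 1) : ∃ v, v ≠ 0 ∧ y = F ∙ v := by
  obtain ⟨v, v0, hv⟩ := finrank_eq_one_iff'.1 h
  refine ⟨v, fun e => v0 (Subtype.ext e), le_antisymm (fun x hx => ?_) ?_⟩
  · obtain ⟨c, hc⟩ := hv ⟨x, hx⟩
    exact Submodule.mem_span_singleton.2 ⟨c, congrArg Subtype.val hc⟩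
  · exact (Submodule.span_singleton_le_iff_mem _ _).2 v.2

theorem perp (S : Sp F V) {v z : V} : (∀ x ∈ F ∙ v, S.B x z = 0) ↔ S.B v z = 0 :=
  ⟨fun h => h v (Submodule.mem_span_singleton_self v), fun h x hx => by
    obtain ⟨c, rfl⟩ := Submodule.mem_span_singleton.1 hx
    simp [h]⟩

theorem one [Finite V] (S : Sp F V) {s : Submodule F V → Prop} (h : ∀ L, S.IsLn L → cnt s L ≤ 1)
    {v z : V} (v0 : v ≠ 0) (z0 : z ≠ 0) (sv : s (F ∙ v)) (sz : s (F ∙ z)) (e : S.B v z = 0) :
    (F ∙ v) = F ∙ z := by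
  by_contra n
  have : Finite (Submodule F V) := Finite.of_injective _ SetLike.coe_injective
  have d1 : dm (F ∙ v) = 1 := finrank_span_singleton v0
  have d2 : dm (F ∙ z) = 1 := finrank_span_singleton z0
  have h1 := Submodule.finrank_sup_add_finrank_inf_eq (F ∙ v) (F ∙ z)
  have h2 : finrank F ((F ∙ v) ⊓ (F ∙ z) : Submodule F V) < 1 := d1 ▸
    Submodule.finrank_lt_finrank_of_lt (inf_lt_left.2 fun c =>
      n (Submodule.eq_of_le_of_finrank_eq c (d1.trans d2.symm)))
  refine absurd (h ((F ∙ v) ⊔ (F ∙ z)) ⟨by unfold dm at *; omega, fun a ha b hb => ?_⟩)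
    (not_le.2 ((Set.one_lt_ncard).2 ⟨_, ⟨d1, le_sup_left, sv⟩, _, ⟨d2, le_sup_right, sz⟩, n⟩))
  rw [← Submodule.span_insert, Submodule.mem_span_pair] at ha hb
  obtain ⟨a, a', rfl⟩ := ha
  obtain ⟨b, b', rfl⟩ := hb
  simp [e, S.alt.self_eq_zero, S.alt.isRefl _ _ e]

theorem b1 : B1Stmt := fun {F V} _ _ _ _ _ S s n ⟨x, hx, sx⟩ h hn => by
  classical
  have : Finite (Submodule F V) := Finite.of_injective _ SetLike.coe_injective
  have := Fintype.ofFinite (Submodule F V)
  have := Fintype.ofFinite F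
  obtain ⟨u, u0, rfl⟩ := pt hx
  let O := univ.filter fun y : Submodule F V => dm y = 1 ∧ s y ∧ y ≠ F ∙ u
  let c := fun z : V => (O.filter fun y => ∀ v ∈ y, S.B v z = 0).card
  have key : ∀ w, O.card = ∑ a : F, c (w + a • u) := fun w => fib O _ fun y hy => by
    obtain ⟨h1, h2, h3⟩ := (mem_filter.1 hy).2
    obtain ⟨v, v0, rfl⟩ := pt h1
    have h4 : S.B v u ≠ 0 := fun e => h3 (one S h v0 u0 h2 sx e)
    refine ⟨-S.B v w / S.B v u, (perp S).2 (by simp [h4]), fun a ha => ?_⟩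
    have := (perp S).1 ha
    rw [map_add, map_smul, smul_eq_mul] at this
    rw [eq_div_iff h4]
    linear_combination this
  have uu := S.alt.self_eq_zero u
  obtain ⟨w, hw, wu⟩ : ∃ w, S.B u w = 0 ∧ w ∉ F ∙ u := by
    by_contra! k
    have h1 := Submodule.finrank_mono (show LinearMap.ker (S.B u) ≤ F ∙ u from k)
    have h2 := (S.B u).finrank_range_add_finrank_ker
    have h3 := Submodule.finrank_le (LinearMap.range (S.B u))
    have := S.hk
    rw [finrank_span_singleton u0] at h1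
    rw [finrank_self] at h3
    rw [S.dim] at h2
    omega
  have c1 : ∀ a : F, c (w + a • u) + 1 = n := fun a => by
    have h1 : w + a • u ∉ F ∙ u := fun e => wu (by
      simpa using sub_mem e (Submodule.smul_mem _ a (Submodule.mem_span_singleton_self u)))
    have h2 : w + a • u ≠ 0 := fun e => h1 (e ▸ zero_mem _)
    have h3 : S.B u (w + a • u) = 0 := by simp [hw, uu]
    rw [← hn _ h2 fun e => h1 (one S h u0 h2 sx e h3 ▸ Submodule.mem_span_singleton_self _),
      ← card_insert_of_notMem (a := F ∙ u) (by simp [O]), ← Set.ncard_coe_finset]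
    congr 1
    ext y
    simp only [O, coe_insert, coe_filter, mem_filter, mem_univ, true_and, Set.mem_insert_iff,
      Set.mem_ofPred_eq]
    refine ⟨?_, fun k => (em _).imp_right fun e => ⟨⟨k.1, k.2.1, e⟩, k.2.2⟩⟩
    rintro (rfl | k)
    exacts [⟨hx, sx, (perp S).2 h3⟩, ⟨k.1.1, k.1.2.1, k.2⟩]
  obtain ⟨m, rfl⟩ : ∃ m, n = m + 1 := ⟨_, (c1 0).symm⟩
  have hO : O.card = Fintype.card F * m := by
    rw [key w, sum_congr rfl fun a _ => Nat.add_right_cancel (c1 a)]; simp
  have nz : ∀ z, S.B u z = 1 → z ≠ 0 := fun z e k => by simp [k] at e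
  have c2 : ∀ z, S.B u z = 1 → ¬ s (F ∙ z) → c z = m + 1 := fun z e k => by
    rw [← hn _ (nz z e) k]
    refine (Set.ncard_coe_finset _).symm.trans ?_
    congr 1
    ext y
    simp only [O, coe_filter, mem_filter, mem_univ, true_and, Set.mem_ofPred_eq]
    refine ⟨fun k => ⟨k.1.1, k.1.2.1, k.2⟩, fun k => ⟨⟨k.1, k.2.1, ?_⟩, k.2.2⟩⟩
    rintro rfl
    exact one_ne_zero (e.symm.trans ((perp S).1 k.2.2))
  have c3 : ∀ z, S.B u z = 1 → s (F ∙ z) → c z ≤ 1 := fun z e k => by
    refine (card_le_card (t := {F ∙ z}) fun y hy => ?_).trans (card_singleton _).le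
    obtain ⟨h0, h4⟩ := mem_filter.1 hy
    obtain ⟨h1, h2, -⟩ := (mem_filter.1 h0).2
    obtain ⟨v, v0, rfl⟩ := pt h1
    exact mem_singleton.2 (one S h v0 (nz z e) h2 k ((perp S).1 h4))
  have b1 : ∀ z (a : F), S.B u z = 1 → S.B u (z + a • u) = 1 := fun z a e => by simp [e, uu]
  have q2 : 1 < Fintype.card F := Fintype.one_lt_card
  have ex : ∀ z, S.B u z = 1 → ∃ a : F, s (F ∙ (z + a • u)) := fun z e => by
    by_contra! k
    rw [key z, sum_congr rfl fun a _ => c2 _ (b1 z a e) (k a)] at hO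
    simp at hO
  obtain ⟨z, hz⟩ : ∃ z, S.B u z = 1 := by
    by_contra! k
    refine u0 (S.nd.1 u fun v => by_contra fun e => k ((S.B u v)⁻¹ • v) ?_)
    simp [e]
  have hm : m ≤ Fintype.card F := by
    obtain ⟨a, ha⟩ := ex z hz
    have h1 := sum_le_card_nsmul (univ.erase a) (fun b : F => c (z + b • u)) (m + 1) fun b _ =>
      (em _).elim (fun k => (c3 _ (b1 z b hz) k).trans (by omega)) fun k => (c2 _ (b1 z b hz) k).le
    have h2 := c3 _ (b1 z a hz) ha
    rw [key z, ← add_sum_erase _ _ (mem_univ a)] at hO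
    rw [card_erase_of_mem (mem_univ a), card_univ, smul_eq_mul] at h1
    obtain ⟨r, hr⟩ : ∃ r, Fintype.card F = r + 1 := ⟨_, (Nat.succ_pred_eq_of_pos (by omega)).symm⟩
    rw [hr] at hO h1 ⊢
    rw [Nat.add_sub_cancel] at h1
    nlinarith
  choose! f hf using ex
  have b2 : ∀ v, S.B u (v + (1 - S.B u v) • z) = 1 := fun v => by simp [hz]
  have h5 := Nat.card_le_card_of_injective (fun v : V => ((⟨F ∙ (v + (1 - S.B u v) • z +
      f (v + (1 - S.B u v) • z) • u), by
    refine mem_filter.2 ⟨mem_univ _, finrank_span_singleton (nz _ (b1 _ _ (b2 v))), hf _ (b2 v),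
      fun e => ?_⟩
    exact one_ne_zero ((b1 _ _ (b2 v)).symm.trans (S.alt.isRefl _ _
      ((perp S).1 (e ▸ (perp S).2 uu))))⟩ : O), f (v + (1 - S.B u v) • z), S.B u v)) fun v v' e => by
    simp only [Prod.mk.injEq, Subtype.mk.injEq] at e
    obtain ⟨e1, e2, e3⟩ := e
    obtain ⟨t, ht⟩ := Submodule.mem_span_singleton.1 (e1.le (Submodule.mem_span_singleton_self _))
    have h6 := congrArg (S.B u) ht
    rw [map_smul, b1 _ _ (b2 v), b1 _ _ (b2 v'), smul_eq_mul, mul_one] at h6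
    rw [h6, one_smul, ← e2, ← e3] at ht
    exact (add_right_cancel (add_right_cancel ht)).symm
  rw [natCard_eq_pow_finrank (K := F), S.dim, Nat.card_prod, Nat.card_prod, Nat.card_eq_fintype_card,
    Nat.card_eq_fintype_card, Fintype.card_coe, hO] at h5
  have h7 := Nat.pow_lt_pow_right q2 (show 4 < 2 * S.k by have := S.hk; omega)
  refine absurd (h5.trans ?_) h7.not_ge
  calc _ ≤ Fintype.card F * Fintype.card F * (Fintype.card F * Fintype.card F) := by gcongr
    _ = _ := by ring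

end Cfsg.Agent.H3.P3B1
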