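import Cfsg.Agent.H63.PSKit
import Cfsg.Agent.H39.TI

/-! Project PS, piece NUM: index counting. -/

set_option autoImplicit false

namespace Cfsg.Agent.H3.PS

open Subgroup Cfsg.Agent.H63.PS

universe u

theorem io_eq {G : Type u} [Group G] (p : ℕ) (b : G) : io p b = (OO p (CC b)).relIndex (CC b) := by
  rw [io, relIndex, subgroupOf, comap_map_eq_self_of_injective (subtype_injective _)]

theorem kk_eq {G : Type u} [Group G] (A : Subgroup G) (b : G) :
    kk A b = {x | x ∈ A ∧ IsConj b x}.ncard := (Nat.card_coe_set_eq _ :)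

theorem num (hk : KitStmt.{u}) : NumStmt.{u} := by
  intro p hp G _ _ P z h hz hc l hN
  have zA : z ∈ AA P z := mem_AA hc.1 (IsConj.refl z)
  have z1 : z ≠ 1 := fun e => hp.out.ne_one (by rw [← hz, e, orderOf_one])
  have pA : IsPGroup p (AA P z) := P.isPGroup'.to_le (AA_le _ _)
  have sol := fun c (c1 : c ≠ 1) => h.proper _ (cc_ne_top h.simple h.ncomm c1)
  have AC : AA P z ≤ CC z := fun a ha => mem_centralizer_singleton_iff.2 (l.comm a ha z zA)
  refine ⟨fun b hb b1 => ?_, ?_⟩
  · have k1 : kk (AA P z) z ≤ (CC z).relIndex (normalizer (AA P z : Set G)) := by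
      rw [H39.relIndex_centralizer_eq_ncard, kk_eq]
      exact Set.ncard_le_ncard fun x hx => l.fus x hx.1 hx.2
    have k2 : (CC b).relIndex (normalizer (AA P z : Set G)) ≤ kk (AA P z) b := by
      rw [H39.relIndex_centralizer_eq_ncard, kk_eq]
      refine Set.ncard_le_ncard ?_
      rintro _ ⟨m, hm, rfl⟩
      exact ⟨(mem_normalizer_iff.1 hm b).1 hb, isConj_iff.2 ⟨m, rfl⟩⟩
    have k3 : io p z = (OO p (CC z)).relIndex (CC z ⊓ normalizer (AA P z : Set G)) := by
      rw [← relIndex_subgroupOf (inf_le_left : _ ≤ CC z), subgroupOf,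
        comap_map_eq_self_of_injective (subtype_injective _), ← relIndex_sup_left, io,
        ← relIndex_top_right]
      congr 1
      refine (eq_top_iff.2 fun c _ => ?_).symm
      obtain ⟨_, ⟨o, ho, rfl⟩, e⟩ := (hN _ (sol z z1) AC).2 c c.2
      rw [← mul_inv_cancel_left o c]
      exact mul_mem (mem_sup_left ho) (mem_sup_right ⟨(o⁻¹ * c).2, e⟩)
    have k4 : (OO p (CC b)).relIndex (CC b ⊓ normalizer (AA P z : Set G)) ≤ io p b :=
      io_eq p b ▸ relIndex_le_of_le_right inf_le_left index_ne_zero_of_finite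
    refine (Nat.mul_le_mul_right _ k1).trans (le_trans ?_ (Nat.mul_le_mul k2 k4))
    rw [k3, mul_comm, relIndex_inf_mul_relIndex, mul_comm, relIndex_inf_mul_relIndex,
      inf_eq_left.2 (OO_le _), inf_eq_left.2 (OO_le _), ← inf_relIndex_right (OO p (CC b))]
    refine relIndex_le_of_le_left (le_trans ?_ (oM_le pA l.comm hN zA (sol z z1)))
      index_ne_zero_of_finite
    refine (hk p G _ (h.proper _ (norm_ne_top h.simple h.ncomm zA z1 l.comm))).2 b _
      (le_normalizer hb) ((IsPGroup.iff_orderOf.1 pA ⟨b, hb⟩).imp fun k e => by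
        rwa [← orderOf_coe] at e) (le_inf inf_le_right (inf_le_left.trans (OO_le _)))
      ((OO_coprime _).coprime_dvd_left (card_dvd_of_le inf_le_left))
      (le_trans (le_inf (inf_le_right.trans (le_norm_OO _)) (inf_le_left.trans le_normalizer))
        inf_normalizer_le_normalizer_inf)
  · obtain ⟨n, hn⟩ := IsPGroup.iff_card.1 pA
    rw [io_eq, ← relIndex_bot_left, ← (disjoint_of_coprime_natCard
      (hn ▸ (OO_coprime (CC z)).pow_right n)).eq_bot, inf_relIndex_right]
    exact relIndex_le_of_le_right AC index_ne_zero_of_finite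

end Cfsg.Agent.H3.PS
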