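import Cfsg.Agent.H79.RbDefs

/-! Project RB (S4578): Sylow 2-subgroups of symmetric groups (pieces Sylp, Cen2). -/

set_option autoImplicit false

open Cfsg Equiv Finset

namespace Cfsg.Agent.H3.RbCen2

open Cfsg.Agent.H79.RB

section
variable {ι : Type} [DecidableEq ι]

/-- the transposition of the pair `i` -/
def tt (i : ι) : Perm (ι × Bool) := swap (i, false) (i, true)

/-- the swap of the pairs `i`, `j` -/
def yy (i j : ι) : Perm (ι × Bool) := swap (i, false) (j, false) * swap (i, true) (j, true)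

theorem tt_apply (i k : ι) (b : Bool) : tt i (k, b) = if k = i then (k, !b) else (k, b) := by
  unfold tt
  by_cases h : k = i
  · subst h; cases b <;> simp
  · cases b <;> simp [swap_apply_def, h]

theorem yy_apply (i j k : ι) (b : Bool) : yy i j (k, b) = (swap i j k, b) := by
  unfold yy
  by_cases h : k = i
  · subst h; cases b <;> simp [swap_apply_def]
  · by_cases h' : k = j
    · subst h'; cases b <;> simp [swap_apply_def, h]
    · cases b <;> simp [swap_apply_def, h, h']

omit [DecidableEq ι] in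
theorem fst_apply {τ : Perm (ι × Bool)} (h : ∀ x, (τ x).1 = x.1) (i : ι) (b : Bool) :
    τ (i, b) = (i, xor b (τ (i, false)).2) := by
  cases b
  · exact Prod.ext (h _) (by simp)
  · refine Prod.ext (h _) ?_
    have : (τ (i, true)).2 ≠ (τ (i, false)).2 := fun e => by
      have := τ.injective (Prod.ext ((h (i, true)).trans (h (i, false)).symm) e)
      simp at this
    revert this
    cases (τ (i, true)).2 <;> cases (τ (i, false)).2 <;> simp

/-- a `2`-group -/
def P0 (i j : ι) : Subgroup (Perm (ι × Bool)) where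
  carrier := {σ | (∀ x, (σ x).1 = x.1) ∨ ∀ x, (σ x).1 = swap i j x.1}
  one_mem' := .inl fun _ => rfl
  mul_mem' := by
    rintro σ τ (h | h) (h' | h')
    · exact .inl fun x => by rw [Perm.mul_apply, h, h']
    · exact .inr fun x => by rw [Perm.mul_apply, h, h']
    · exact .inr fun x => by rw [Perm.mul_apply, h, h']
    · exact .inl fun x => by rw [Perm.mul_apply, h, h', swap_apply_self]
  inv_mem' := by
    rintro σ (h | h)
    · exact .inl fun x => by simpa using (h (σ⁻¹ x)).symm
    · refine .inr fun x => ?_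
      have := h (σ⁻¹ x)
      rw [Perm.coe_inv, apply_symm_apply] at this
      rw [this, swap_apply_self]; rfl

theorem P0_two (i j : ι) : IsPGroup 2 (P0 i j) := by
  rintro ⟨σ, hσ⟩
  refine ⟨2, Subtype.ext ?_⟩
  have h : ∀ x, ((σ * σ) x).1 = x.1 := fun x => by
    rcases hσ with h | h
    · rw [Perm.mul_apply, h, h]
    · rw [Perm.mul_apply, h, h, swap_apply_self]
  show σ ^ (2 * 2) = 1
  rw [pow_mul, pow_two σ, pow_two]
  refine Equiv.ext fun ⟨k, b⟩ => ?_
  rw [Perm.mul_apply, fst_apply h k b, fst_apply h k]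
  simp

end

theorem sylpStmt : SylpStmt := by
  intro v Q
  obtain ⟨Q', hQ'⟩ := (P0_two (0 : Fin (v + 2)) 1).exists_le_sylow
  obtain ⟨e, rfl⟩ := MulAction.exists_smul_eq (Perm (Fin (v + 2) × Bool)) Q' Q
  have key : ∀ s ∈ P0 (0 : Fin (v + 2)) 1, e * s * e⁻¹ ∈ ((e • Q' : Sylow 2 _) : Subgroup _) :=
    fun s hs => Subgroup.smul_mem_pointwise_smul s (MulAut.conj e) _ (hQ' hs)
  refine ⟨e, fun i => ?_, ?_⟩
  · rw [swap_apply_apply]
    refine key (tt i) (.inl fun ⟨k, b⟩ => ?_)
    rw [tt_apply]; split_ifs <;> rfl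
  · rw [swap_apply_apply, swap_apply_apply, conj_mul]
    exact key (yy 0 1) (.inr fun ⟨k, b⟩ => by rw [yy_apply])

theorem cen2Stmt : Cen2Stmt := by
  intro w Q R hR
  have hc : 1 ≤ w → 2 * Nat.card R = 2 ^ (w + w.factorial.factorization 2) := fun h => by
    haveI : Nonempty (Fin w) := ⟨⟨0, h⟩⟩
    rw [hR, H19.two_mul_card_inf_alt, H19.card_sylow_perm Q (w := w) (by simp [mul_comm])]
  refine ⟨fun h => ?_, fun h => ?_, fun h => ?_⟩
  · obtain rfl | rfl : w = 0 ∨ w = 1 := by omega
    · exact (Subgroup.eq_bot_iff_forall _).2 fun x _ => Subsingleton.elim _ _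
    · have := hc le_rfl
      simp only [Nat.factorial_one, Nat.factorization_one, Finsupp.coe_zero, Pi.zero_apply] at this
      exact Subgroup.card_eq_one.1 (by omega)
  · subst h
    have := hc one_le_two
    rw [Nat.factorial_two, Nat.prime_two.factorization_self] at this
    omega
  obtain ⟨v, rfl⟩ : ∃ v, w = v + 1 + 2 := ⟨w - 3, by omega⟩
  obtain ⟨e, h1, h2⟩ := sylpStmt (v + 1) Q
  have st : ∀ i : Fin (v + 1 + 2), Perm.sign (tt i) = -1 := fun i => Perm.sign_swap (by simp)
  have mt : ∀ i j, e * (tt i * tt j) * e⁻¹ ∈ R := fun i j => by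
    rw [hR]
    refine ⟨?_, by simp [st]⟩
    rw [← conj_mul, tt, tt, ← swap_apply_apply, ← swap_apply_apply]
    exact mul_mem (h1 i) (h1 j)
  have my : e * yy 0 1 * e⁻¹ ∈ R := by
    rw [hR]
    refine ⟨?_, by simp [yy]⟩
    rw [yy, ← conj_mul, ← swap_apply_apply, ← swap_apply_apply]
    exact h2
  have n01 : (0 : Fin (v + 1 + 2)) ≠ 1 := by simp
  have v2 : ((2 : Fin (v + 1 + 2)) : ℕ) = 2 := rfl
  have n02 : (0 : Fin (v + 1 + 2)) ≠ 2 := fun e => by
    have := congrArg Fin.val e
    rw [v2] at this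
    simp at this
  have n12 : (1 : Fin (v + 1 + 2)) ≠ 2 := fun e => by
    have := congrArg Fin.val e
    rw [v2] at this
    simp at this
  refine ⟨fun hm => ?_, ?_⟩
  · have := congrArg Subtype.val (hm.1.1 ⟨_, mt 0 2⟩ ⟨_, my⟩)
    simp only [Subgroup.coe_mul, conj_mul, mul_left_inj, mul_right_inj] at this
    have := congrArg (· (0, false)) this
    simp [tt_apply, yy_apply, n01.symm, n12, n02] at this
  have cm : ∀ x : Subgroup.center R, ∀ s, e * s * e⁻¹ ∈ R → ∀ p,
      s ((e⁻¹ * x.1.1 * e) p) = (e⁻¹ * x.1.1 * e) (s p) := fun x s hs p => by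
    have := congrArg Subtype.val (Subgroup.mem_center_iff.1 x.2 ⟨_, hs⟩)
    simp only [Subgroup.coe_mul] at this
    rw [← Perm.mul_apply, ← Perm.mul_apply]
    congr 1
    calc s * (e⁻¹ * x.1.1 * e) = e⁻¹ * (e * s * e⁻¹ * x.1.1) * e := by group
      _ = _ := by rw [this]; group
  have fx : ∀ x : Subgroup.center R, ∀ p, ((e⁻¹ * x.1.1 * e) p).1 = p.1 := fun x ⟨i, b⟩ => by
    have k : ∀ j, j ≠ i → ((e⁻¹ * x.1.1 * e) (i, b)).1 = i ∨ ((e⁻¹ * x.1.1 * e) (i, b)).1 = j :=
      fun j hj => by
        by_contra n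
        push Not at n
        have := cm x _ (mt i j) (i, b)
        generalize e⁻¹ * x.1.1 * e = σ at n this
        have e1 : (tt i * tt j) (σ (i, b)) = σ (i, b) := by
          rw [Perm.mul_apply, ← Prod.mk.eta (p := σ (i, b)), tt_apply j, if_neg n.2, tt_apply,
            if_neg n.1]
        rw [e1, σ.injective.eq_iff, Perm.mul_apply, tt_apply j, if_neg hj.symm, tt_apply,
          if_pos rfl] at this
        simp at this
    by_contra n
    by_cases i0 : i = 0
    · subst i0
      exact n12 (((k 1 n01.symm).resolve_left n).symm.trans ((k 2 n02.symm).resolve_left n))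
    by_cases i1 : i = 1
    · subst i1
      exact n02 (((k 0 n01).resolve_left n).symm.trans ((k 2 n12.symm).resolve_left n))
    · exact n01 (((k 0 (Ne.symm i0)).resolve_left n).symm.trans
        ((k 1 (Ne.symm i1)).resolve_left n))
  have f01 : ∀ x : Subgroup.center R,
      ((e⁻¹ * x.1.1 * e) (0, false)).2 = ((e⁻¹ * x.1.1 * e) (1, false)).2 := fun x => by
    have := congrArg Prod.snd (cm x _ my (0, false))
    rwa [yy_apply 0 1 0, swap_apply_left, yy_apply] at this
  let g : Subgroup.center R → Fin (v + 2) → Bool := fun x i => ((e⁻¹ * x.1.1 * e) (i.succ, false)).2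
  have ext : ∀ (x : Subgroup.center R) (σ : Perm (Fin (v + 1 + 2) × Bool)), (∀ p, (σ p).1 = p.1) →
      (σ (0, false)).2 = (σ (1, false)).2 → (∀ i, g x i = (σ (i.succ, false)).2) →
      e⁻¹ * x.1.1 * e = σ := fun x σ a b c => by
    refine Equiv.ext fun ⟨i, d⟩ => ?_
    rw [fst_apply (fx x), fst_apply a]
    congr 2
    refine Fin.cases ?_ (fun i => c i) i
    rw [f01, b]
    exact c 0
  have inj : Function.Injective g := fun x x' h => by
    have := ext x _ (fx x') (f01 x') fun i => congrFun h i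
    exact Subtype.ext (Subtype.ext (by simpa using this))
  have ns : ¬ Function.Surjective g := fun h => by
    obtain ⟨x, hx⟩ := h fun i => (tt 2 (i.succ, false)).2
    have := ext x (tt 2) (fun ⟨k, b⟩ => by rw [tt_apply]; split_ifs <;> rfl)
      (by rw [tt_apply, tt_apply, if_neg n02, if_neg n12]) fun i => congrFun hx i
    have s := congrArg Perm.sign this
    have sx : Perm.sign x.1.1 = 1 := (hR.le x.1.2).2
    simp [st, sx] at s
  haveI := Fintype.ofFinite (Subgroup.center R)
  have := Fintype.card_lt_of_injective_not_surjective g inj ns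
  rw [Nat.card_eq_fintype_card]
  simpa using this

end Cfsg.Agent.H3.RbCen2
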