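import Cfsg.Agent.H79.RbDefs
import Cfsg.Agent.H77.CharAux

/-! Project RB (S4578): the Parseval identity for the characteristic map (piece Pars). -/

set_option autoImplicit false

open Cfsg Equiv Finset

namespace Cfsg.Agent.H3.RbPars

open Cfsg.Agent.H79.RB
open scoped ComplexConjugate

theorem dich {G : Type} [Group G] [Finite G] {θ : G → ℂ} (hθ : IsIrrCharacter G θ) {z : G}
    (hz : z ∈ Subgroup.center G) (zz : z * z = 1) :
    (∀ g, θ (z * g) = θ g) ∨ ∀ g, θ (z * g) = -θ g := by
  have h1 := H11.irr_apply_one_ne_zero hθ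
  have e := H77.irr_center_mul hθ hz z
  rw [zz] at e
  rcases mul_self_eq_mul_self_iff.1 e.symm with k | k
  · exact .inl fun g => mul_right_cancel₀ h1 (by rw [H77.irr_center_mul hθ hz, k, mul_comm])
  · exact .inr fun g => mul_right_cancel₀ h1 (by rw [H77.irr_center_mul hθ hz, k]; ring)

open Classical in
theorem spin_sum (hC : ClassStmt) (F : SpinFam) (n : ℕ) [Fintype (IrrCharacter (F.G n))]
    (g : F.G n) {g' : F.G n} (hg' : OddT (F.π n g')) :
    2 * ∑ θ ∈ univ.filter (fun θ : IrrCharacter (F.G n) => F.Spin (θ : F.G n → ℂ)),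
      (θ : F.G n → ℂ) g * (θ : F.G n → ℂ) g' =
    ∑ θ : IrrCharacter (F.G n), (θ : F.G n → ℂ) g * conj ((θ : F.G n → ℂ) g') -
      ∑ θ : IrrCharacter (F.G n), (θ : F.G n → ℂ) (F.z n * g) * conj ((θ : F.G n → ℂ) g') := by
  obtain ⟨zc, zz, -, hx⟩ := hC F n
  obtain ⟨h, hh⟩ := (hx g').2.2.1 hg'
  rw [← sum_sub_distrib, sum_filter, mul_sum]
  refine sum_congr rfl fun θ _ => ?_
  have cf := H11.isClassFunction_of_irr θ.2
  rw [H11.conj_apply (H11.isCharacter_of_irr θ.2), ← hh, cf]
  split_ifs with s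
  · rw [s.2]; ring
  · rw [(dich θ.2 zc zz).resolve_right fun k => s ⟨cf, k⟩]; ring

open Classical in
theorem key (hC : ClassStmt) (hM : MonStmt) (hV : ValStmt) (F : SpinFam) (n : ℕ)
    [Fintype (IrrCharacter (F.G n))] {m m' : ℕ →₀ ℕ} (hm : wt m = n) (hm' : wt m' = n) :
    ∑ θ ∈ univ.filter (fun θ : IrrCharacter (F.G n) => F.Spin (θ : F.G n → ℂ)),
      ip (MvPolynomial.monomial m 1) (F.ch (θ : F.G n → ℂ)) *
        ip (MvPolynomial.monomial m' 1) (F.ch (θ : F.G n → ℂ)) = if m = m' then nrm m else 0 := by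
  obtain ⟨σ, hg, rfl⟩ := hM.2.1 n m hm
  obtain ⟨g, rfl⟩ := F.surj n σ
  have red : ∀ g', OddT (F.π n g') →
      2 * ∑ θ ∈ univ.filter (fun θ : IrrCharacter (F.G n) => F.Spin (θ : F.G n → ℂ)),
        ip (MvPolynomial.monomial (mon (F.π n g)) 1) (F.ch (θ : F.G n → ℂ)) *
          ip (MvPolynomial.monomial (mon (F.π n g')) 1) (F.ch (θ : F.G n → ℂ)) =
      s2 ^ n / 2 ^ Multiset.card (H19.typ (F.π n g)) * F.τ n g *
        (s2 ^ n / 2 ^ Multiset.card (H19.typ (F.π n g')) * F.τ n g') *
        (∑ θ : IrrCharacter (F.G n), (θ : F.G n → ℂ) g * conj ((θ : F.G n → ℂ) g') -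
          ∑ θ : IrrCharacter (F.G n), (θ : F.G n → ℂ) (F.z n * g) * conj ((θ : F.G n → ℂ) g')) :=
    fun g' hg' => by
      rw [← spin_sum hC F n g hg', mul_left_comm, mul_sum _ _ (_ * _)]
      congr 1
      refine sum_congr rfl fun θ hθ => ?_
      have s := (mem_filter.1 hθ).2
      rw [(hV F n _).2.1 s g hg, (hV F n _).2.1 s g' hg']
      ring
  have πz : F.π n (F.z n * g) = F.π n g := by rw [map_mul, (F.ker n _).2 (.inr rfl), one_mul]
  obtain ⟨zc, zz, cG, hx⟩ := hC F n
  refine mul_left_cancel₀ (two_ne_zero (α := ℂ)) ?_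
  split_ifs with e
  · rw [← e, red g hg, H11.column_orthogonality_of_isConj (IsConj.refl g),
      H11.column_orthogonality_of_not_isConj (g := F.z n * g) fun c => ?_]
    · have e1 : Subgroup.centralizer {g} = (Subgroup.centralizer {F.π n g}).comap (F.π n) := by
        ext h
        rw [Subgroup.mem_comap, Subgroup.mem_centralizer_singleton_iff,
          Subgroup.mem_centralizer_singleton_iff]
        exact ⟨fun k => by rw [← map_mul, k, map_mul], (hx g).2.2.2 hg h⟩
      have e2 := (Subgroup.centralizer {g}).card_mul_index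
      have e3 := (Subgroup.centralizer {F.π n g}).card_mul_index
      rw [cG, e1, Subgroup.index_comap_of_surjective _ (F.surj n), ← e1] at e2
      rw [Nat.card_perm, Nat.card_eq_fintype_card (α := Fin n), Fintype.card_fin] at e3
      have e4 : Nat.card (Subgroup.centralizer {g}) = 2 * H19.zM (H19.typ (F.π n g)) := by
        rw [H19.zM_typ]
        refine Nat.eq_of_mul_eq_mul_right
          (Nat.pos_of_ne_zero (Subgroup.centralizer {F.π n g}).index_ne_zero_of_finite) ?_
        rw [e2, mul_assoc, e3]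
      have e5 := (hM.1 n _ hg).2.1
      have e6 := F.τ_sq n g hg
      have e7 : s2 ^ n * s2 ^ n = 2 ^ n := by rw [← mul_pow, s2_mul_self]
      rw [e4, sub_zero, Nat.cast_mul, ← e5]
      have e8 : (2 : ℂ) ^ Multiset.card (H19.typ (F.π n g)) ≠ 0 := pow_ne_zero _ two_ne_zero
      generalize (2 : ℂ) ^ Multiset.card (H19.typ (F.π n g)) = l at e6 e8
      field_simp
      push_cast
      linear_combination (2 * nrm (mon (F.π n g)) * F.τ n g ^ 2) * e7 +
        (2 * nrm (mon (F.π n g))) * e6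
    · obtain ⟨h, hh⟩ := isConj_iff.1 c.symm
      have k := (hx g).2.2.2 hg h (by
        rw [← mul_inv_eq_iff_eq_mul, ← map_inv, ← map_mul, ← map_mul, hh, πz])
      rw [k, mul_inv_cancel_right] at hh
      exact F.z_ne n (mul_eq_right.1 hh.symm)
  · obtain ⟨σ', hg', rfl⟩ := hM.2.1 n m' hm'
    obtain ⟨g', rfl⟩ := F.surj n σ'
    have nc : ∀ x, F.π n x = F.π n g → ¬ IsConj x g' := fun x ex c => e (by
      rw [mon, mon, ← ex, H19.typ_eq_iff.2 ((F.π n).map_isConj c)])
    rw [red g' hg', H11.column_orthogonality_of_not_isConj (nc g rfl),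
      H11.column_orthogonality_of_not_isConj (nc _ πz)]
    simp

theorem parsStmt (hC : ClassStmt) (hM : MonStmt) (hV : ValStmt) : ParsStmt := by
  classical
  intro F n _ P hP
  ext m
  by_cases hm : wt m = n
  · refine mul_left_cancel₀ (nrm_ne_zero m) ?_
    rw [← ip_monomial m (∑ _ ∈ _, _), map_sum]
    have e : ∀ R, ip P R = ∑ m' ∈ P.support,
        MvPolynomial.coeff m' P * ip (MvPolynomial.monomial m' 1) R := fun R => by
      conv_lhs => rw [P.as_sum, map_sum, LinearMap.sum_apply]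
      exact sum_congr rfl fun m' _ => by rw [ip_monomial', ip_monomial]
    simp only [map_smul, smul_eq_mul, e, sum_mul, mul_assoc]
    rw [sum_comm]
    simp only [← mul_sum]
    rw [sum_congr rfl fun m' h => by
      rw [key hC hM hV F n (hP m' (MvPolynomial.mem_support_iff.1 h)) hm]]
    simp only [mul_ite, mul_zero, sum_ite_eq']
    split_ifs with s
    · exact mul_comm _ _
    · rw [MvPolynomial.notMem_support_iff.1 s, mul_zero]
  · rw [MvPolynomial.coeff_sum, not_not.1 fun k => hm (hP m k)]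
    refine (sum_eq_zero fun θ _ => ?_).symm
    rw [MvPolynomial.coeff_smul, not_not.1 fun k => hm ((hV F n _).1 m k), smul_zero]

end Cfsg.Agent.H3.RbPars
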