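import Cfsg.Agent.H35.S4Defs

/-!
# Standard subgroups of type `Sp₄(q)`: the defect vanishes (piece F0B)
-/

set_option autoImplicit false

namespace Cfsg.Agent.H3.S4F0b

open Cfsg Cfsg.Agent.H63 Cfsg.Agent.H63.SL Cfsg.Agent.H35.S4 Subgroup
open scoped commutatorElement

universe u v

theorem cj_eq {G : Type u} [Group G] {a b c : G} (h : ⁅a, b⁆ = c) : a * b * a⁻¹ = c * b := by
  rw [← h, commutatorElement_def]; group

theorem f0b : F0bStmt.{u, v} := by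
  intro F _ _ G _ _ L x t hC A _ j σ y Yh S P R W2 W4 E f T hW D hn
  have ds := T.ds
  have q := ds.quad
  have two := q.two
  have σj : ∀ u, σ (j u) = j u := fun u => (q.fix _).2 ⟨u, rfl⟩
  have y0 : y 3 0 = 1 := by
    have := ds.add 3 (by decide) 0 0
    rwa [add_zero, left_eq_mul] at this
  have jinj : ∀ u, j u = 0 → u = 0 := fun u e =>
    hC.mod.pin.inj 3 u (by rw [← ds.res 3 (by decide), e, y0])
  have yadd := ds.add 3 (by decide)
  have m2 : ∀ s ν, Hz σ s ν → E 2 s ν ∈ W2 := fun s ν h =>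
    (hW _).2 ((D.mem 2 (by decide) _).2 ⟨s, ν, h, rfl⟩)
  have w42 : ∀ s ν, Hz σ s ν → n2 x 1 * E 4 s ν * (n2 x 1)⁻¹ = E 2 s ν := fun s ν h =>
    D.wey 1 4 (by decide) s ν h
  have w24 : ∀ s ν, Hz σ s ν → n2 x 1 * E 2 s ν * (n2 x 1)⁻¹ = E 4 s ν := fun s ν h =>
    D.wey 1 2 (by decide) s ν h
  have w15 : ∀ a, n2 x 1 * y 1 a * (n2 x 1)⁻¹ = y 5 (σ a) := fun a => ds.wey 1 1 (by decide) a
  have w33 : ∀ a, n2 x 1 * y 3 a * (n2 x 1)⁻¹ = y 3 (σ a) := fun a => ds.wey 1 3 (by decide) a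
  have m4 : ∀ s ν, Hz σ s ν → E 4 s ν ∈ W4 := fun s ν h =>
    (T.l3.sw _).2 (w42 s ν h ▸ m2 s ν h)
  have c21 : ∀ e ∈ W2, ∀ a, Commute e (y 1 a) := fun e he a =>
    ((hW e).1 he).2.2.1 _ (.inl ((ds.hat 1 (by decide) _).2 ⟨a, rfl⟩))
  have c23 : ∀ e ∈ W2, ∀ a, Commute e (y 3 a) := fun e he a =>
    ((hW e).1 he).2.2.1 _ (.inr ((ds.hat 3 (by decide) _).2 ⟨a, rfl⟩))
  have c43 : ∀ s ν, Hz σ s ν → ∀ a, Commute (E 4 s ν) (y 3 a) := fun s ν h a =>
    ((D.mem 4 (by decide) _).2 ⟨s, ν, h, rfl⟩).2.2.1 _ (.inl ((ds.hat 3 (by decide) _).2 ⟨a, rfl⟩))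
  have c45 : ∀ s ν, Hz σ s ν → ∀ a, Commute (E 4 s ν) (y 5 a) := fun s ν h a =>
    ((D.mem 4 (by decide) _).2 ⟨s, ν, h, rfl⟩).2.2.1 _ (.inr ((ds.hat 5 (by decide) _).2 ⟨a, rfl⟩))
  have hz : ∀ a s ν c, Hz σ s ν → Hz σ (a * s) (a * σ a * ν + j c) := fun a s ν c h => by
    unfold Hz at h ⊢
    simp only [map_add, map_mul, σj, q.sq]
    linear_combination (a * σ a) * h + j c * two
  obtain ⟨ω, hω⟩ := q.tr
  have unit : ∀ a a', a * a' = 1 → ∀ s, f a s = 0 := fun a a' aa s => by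
    have hν : Hz σ s (ω * (s * σ s)) := by
      unfold Hz
      simp only [map_mul, q.sq, hω]
      linear_combination (ω * s * σ s) * two
    generalize ω * (s * σ s) = ν at hν
    have hμ := hz a s ν (f a s) hν
    have s1 := cj_eq (D.l3 a s ν hν)
    have l3 := D.l3 a' _ _ hμ
    have hμ' := hz a' _ _ (f a' (a * s)) hμ
    have eb : σ (σ a' * (a * σ a * ν + j (f a s))) + σ a * ν + σ (a * s) * (a' * (a * s)) =
        a' * j (f a s) := by
      unfold Hz at hν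
      simp only [map_add, map_mul, σj, q.sq]
      linear_combination (σ a * σ ν + σ a * σ s * s) * aa + σ a * hν + (σ a * s * σ s) * two
    generalize a * σ a * ν + j (f a s) = μ at hμ s1 l3 hμ' eb
    generalize a' * σ a' * μ + j (f a' (a * s)) = μ' at l3 hμ'
    have s2 : y 5 (σ a') * E 2 (a * s) μ * (y 5 (σ a'))⁻¹ =
        E 4 (a' * (a * s)) μ' * y 3 (σ (σ a' * μ)) * E 2 (a * s) μ := by
      refine cj_eq ?_
      rw [← w15, ← w42 _ _ hμ, ← w24 _ _ hμ', ← w33, conj_mul, ← l3]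
      simp only [commutatorElement_def]; group
    obtain ⟨n, hn'⟩ := (q.fix (σ a * ν * σ a' + σ (σ a * ν * σ a'))).1 (by
      rw [map_add, q.sq, add_comm])
    have h0 : Hz σ 0 (j n) := by
      unfold Hz
      rw [σj]; linear_combination j n * two
    have s3 : y 5 (σ a') * y 3 (σ a * ν) * (y 5 (σ a'))⁻¹ = y 3 (σ a * ν) * (E 4 0 (j n))⁻¹ := by
      have e : ⁅y 3 (σ a * ν), y 5 (σ a')⁆ = x 4 n := ds.s2 3 (by decide) _ _ n hn'.symm
      rw [← (c43 _ _ h0 _).inv_left.eq, D.res 4 (by decide), ← e]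
      simp only [commutatorElement_def]; group
    have l2 := D.l2 _ _ _ _ hμ hμ'
    have m := hn a a' aa _ (m4 s ν hν)
    have e1 : y 1 a * y 5 (σ a') * y 1 a * E 4 s ν * (y 1 a * y 5 (σ a') * y 1 a)⁻¹ =
        y 5 (σ a') * (y 1 a * E 4 s ν * (y 1 a)⁻¹) * (y 5 (σ a'))⁻¹ := by
      have c := (c21 _ m a).eq
      calc _ = (y 1 a)⁻¹ * (y 1 a * (y 1 a * y 5 (σ a') * y 1 a * E 4 s ν *
            (y 1 a * y 5 (σ a') * y 1 a)⁻¹)) := by group
        _ = _ := by rw [← c]; group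
    rw [e1, s1, ← conj_mul, ← conj_mul, s2, s3, ← (c45 _ _ hν _).eq, mul_inv_cancel_right] at m
    have e2 : E 4 (a' * (a * s)) μ' * E 2 (a * s) μ =
        E 2 (a * s) μ * y 3 (σ (a * s) * (a' * (a * s))) * E 4 (a' * (a * s)) μ' := by
      have yy : y 3 (σ (a * s) * (a' * (a * s))) * y 3 (σ (a * s) * (a' * (a * s))) = 1 := by
        rw [← yadd, ← two_mul, two, zero_mul, y0]
      rw [(c23 _ (m2 _ _ hμ) _).eq, mul_assoc (y 3 _), mul_inv_eq_iff_eq_mul.1 (cj_eq l2),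
        ← mul_assoc (y 3 _), ← mul_assoc (y 3 _), yy, one_mul]
    have e3 : E 4 (a' * (a * s)) μ' * y 3 (σ (σ a' * μ)) * E 2 (a * s) μ *
        (y 3 (σ a * ν) * (E 4 0 (j n))⁻¹) * E 4 s ν =
        E 2 (a * s) μ * y 3 (a' * j (f a s)) *
          (E 4 (a' * (a * s)) μ' * (E 4 0 (j n))⁻¹ * E 4 s ν) := by
      rw [← eb, yadd, yadd, (c43 _ _ hμ' _).eq, mul_assoc (y 3 _), e2]
      have k1 := (c23 _ (m2 _ _ hμ) (σ (σ a' * μ))).eq
      have k2 := (c43 _ _ hμ' (σ a * ν)).eq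
      have k3 : y 3 (σ (a * s) * (a' * (a * s))) * y 3 (σ a * ν) =
          y 3 (σ a * ν) * y 3 (σ (a * s) * (a' * (a * s))) := by rw [← yadd, ← yadd, add_comm]
      calc _ = y 3 (σ (σ a' * μ)) * E 2 (a * s) μ * y 3 (σ (a * s) * (a' * (a * s))) *
            (E 4 (a' * (a * s)) μ' * y 3 (σ a * ν)) * (E 4 0 (j n))⁻¹ * E 4 s ν := by group
        _ = E 2 (a * s) μ * y 3 (σ (σ a' * μ)) * (y 3 (σ (a * s) * (a' * (a * s))) *
            y 3 (σ a * ν)) * E 4 (a' * (a * s)) μ' * (E 4 0 (j n))⁻¹ * E 4 s ν := by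
              rw [← k1, k2]; group
        _ = _ := by rw [k3]; group
    rw [e3] at m
    have := (T.l3.uniq _ (mul_mem (inv_mem m) (m2 _ _ hμ)) (a' * j (f a s)) _
      (mul_mem (mul_mem (m4 _ _ hμ') (inv_mem (m4 _ _ h0))) (m4 _ _ hν)) (by group)).2.1
    refine jinj _ ?_
    rw [← one_mul (j _), ← aa, mul_assoc, this, mul_zero]
  have ex : ∃ b m, m ≠ 0 ∧ b * σ b = j m ∧ σ b = b + 1 := by
    obtain ⟨n, hn'⟩ := (q.fix (ω * σ ω)).1 (by rw [map_mul, q.sq, mul_comm])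
    by_cases n0 : n = 0
    · obtain ⟨γ, γ1, -⟩ := hC.kb.ne1
      refine ⟨ω + j γ, γ * (γ + 1), mul_ne_zero γ.ne_zero fun e => γ1 (Units.ext ?_), ?_, ?_⟩
      · have := hC.mod.pin.two
        rw [Units.val_one]
        linear_combination e - this
      · rw [n0, map_zero, hω] at hn'
        rw [map_add, σj, hω, map_mul, map_add, map_one]
        linear_combination hn' + (ω * j γ) * two
      · rw [map_add, σj, hω]; ring
    · exact ⟨ω, n, n0, hn', hω⟩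
  obtain ⟨b, m, m0, hb, hb'⟩ := ex
  intro a s
  obtain ⟨a1, h1⟩ := (q.fix (a + σ a)).1 (by rw [map_add, q.sq, add_comm])
  obtain ⟨a0, h0⟩ := (q.fix (a + j a1 * b)).1 (by
    rw [map_add, map_mul, σj, hb']
    linear_combination -h1 + σ a * two)
  have e : a = j a0 * 1 + j a1 * b := by linear_combination h0 - (j a1 * b) * two
  rw [e, D.fadd, D.fsc, D.fsc, unit 1 1 (one_mul 1), unit b (σ b * j m⁻¹) (by
    rw [← mul_assoc, hb, ← map_mul, mul_inv_cancel₀ m0, map_one])]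
  simp

end Cfsg.Agent.H3.S4F0b
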