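import Cfsg.Agent.H3.S94QM

/-! The Sylow `2`-subgroup of an extension of `2³` by `L₃(2)` with involutions outside. -/

set_option autoImplicit false

namespace Cfsg.Agent.H3.S94Q

open Subgroup Cfsg.Agent.H8
open scoped Pointwise

local notation "C[" A "]" => Subgroup.centralizer (SetLike.coe A)
local notation "N[" A "]" => Subgroup.normalizer (SetLike.coe A)

variable {G : Type*} [Group G] {K : Subgroup G} {t : G} {e : B →* G}

/-- `x` induces `g` -/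
def Ind (e : B →* G) (x : G) (g : B → B) : Prop := ∀ b, x * e b * x⁻¹ = e (g b)

theorem Ind.mul {x y : G} {g h : B → B} (a : Ind e x g) (b : Ind e y h) :
    Ind e (x * y) (fun c => g (h c)) := fun c => by
  rw [← a, ← b]; group

theorem Ind.cent {x : G} {g : B → B} (a : Ind e x g) (h : ∀ b, g b = b) : x ∈ C[e.range] := by
  rintro _ ⟨b, rfl⟩
  exact (mul_inv_eq_iff_eq_mul.1 ((a b).trans (congrArg e (h b)))).symm

theorem Ind.eq (hi : Function.Injective e) {x : G} {g h : B → B} (a : Ind e x g) (b : Ind e x h)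
    (c : B) : g c = h c := hi ((a c).symm.trans (b c))

theorem ind_of_cent {x : G} (h : x ∈ C[e.range]) : Ind e x id := fun b =>
  mul_inv_eq_iff_eq_mul.2 (h _ ⟨b, rfl⟩).symm

theorem ind_e (c : B) : Ind e (e c) id := fun b => by
  rw [← map_inv, ← map_mul, ← map_mul, (by decide : ∀ c b : B, c * b * c⁻¹ = b)]; rfl

theorem ind_f {f : M →* G} (h : ∀ b, f (κ b) = e b) (m : M) : Ind e (f m) (act m) := fun b => by
  rw [← h, ← h, ← d7, map_mul, map_mul, map_inv]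

/-- the hypotheses -/
structure Hy (K : Subgroup G) (t : G) (e : B →* G) : Prop where
  inj : Function.Injective e
  ex : ∀ τ : MulAut B, τ * τ = 1 → τ ≠ 1 → ∃ j ∈ K, j * j = 1 ∧ Ind e j τ
  VK : ∀ b, e b ∈ K
  inv : ∀ a ∈ K, ∀ b ∈ K, a * a = 1 → b * b = 1 → a * b ∈ C[e.range] → a * b ∈ e.range
  tK : ∀ k ∈ K, t * k * t⁻¹ ∈ K
  tV : t ∈ C[e.range]
  ct : ∀ x ∈ K, x * t = t * x → x * x ∈ C[e.range] → x ∈ C[e.range]

theorem conj_sq {x : G} (h : x * x = 1) (g : G) : g * x * g⁻¹ * (g * x * g⁻¹) = 1 := by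
  rw [conj_mul, h, mul_one, mul_inv_cancel]

theorem Hy.exists_f (h : Hy K t e) : ∃ f : M →* G, Function.Injective f ∧ (∀ b, f (κ b) = e b) ∧
    f.range ≤ K := by
  obtain ⟨j, hj, jj, ij⟩ := h.ex τ1 (by decide +kernel) (by decide +kernel)
  obtain ⟨k, hk, kk, ik⟩ := h.ex τ2 (by decide +kernel) (by decide +kernel)
  have ji := inv_eq_of_mul_eq_one_right jj
  have z1 : e bz ≠ 1 := fun c => absurd (h.inj (c.trans e.map_one.symm)) (by decide)
  have key : ∀ k ∈ K, k * k = 1 → Ind e k τ2 → Commute j k → ∃ f : M →* G, Function.Injective f ∧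
      (∀ b, f (κ b) = e b) ∧ f.range ≤ K := fun k hk kk ik c => by
    obtain ⟨f, h1, h2, h3, h4⟩ := S94Q.exists_f e z1 jj kk c ij ik
    refine ⟨f, h1, h2, ?_⟩
    rintro _ ⟨m, rfl⟩
    obtain ⟨b, rfl | rfl | rfl | rfl⟩ := d9 m <;> simp only [map_mul, h2, h3, h4]
    exacts [h.VK b, mul_mem hj (h.VK b), mul_mem hk (h.VK b), mul_mem (mul_mem hj hk) (h.VK b)]
  have ki := inv_eq_of_mul_eq_one_right kk
  obtain ⟨b, hb⟩ := h.inv j hj (k * j * k⁻¹) (mul_mem (mul_mem hk hj) (inv_mem hk)) jj (conj_sq jj k)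
    (by rw [ki]; exact (ij.mul ((ik.mul ij).mul ik)).cent (by decide +kernel))
  rw [ki] at hb
  have sq : ∀ b, e b * e b = 1 := fun b => by rw [← map_mul, (by decide : ∀ b : B, b * b = 1), map_one]
  have j2 : ∀ x, j * (j * x) = x := fun x => by rw [← mul_assoc, jj, one_mul]
  have k2 : ∀ x, k * (k * x) = x := fun x => by rw [← mul_assoc, kk, one_mul]
  have h0 : k * (j * (k * j)) = e b := by
    rw [← inv_eq_of_mul_eq_one_right (sq b), eq_inv_iff_mul_eq_one, hb]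
    simp only [mul_assoc, j2, k2, kk]
  have a1 : τ1 b = b := h.inj (by rw [← ij, ji, ← h0, h0, hb]; simp only [mul_assoc, j2]; rw [h0, hb]; simp only [mul_assoc])
  have a2 : τ2 b = b := h.inj (by rw [← ik, ki, ← h0]; simp only [mul_assoc, k2]; rw [h0, hb]; simp only [mul_assoc])
  have h1 : j * k = e b * (k * j) := by rw [hb]; simp only [mul_assoc, k2, jj, mul_one]
  rcases (by decide +kernel : ∀ b, τ1 b = b → τ2 b = b → b = 1 ∨ b = bz) b a1 a2 with rfl | rfl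
  · exact key k hk kk ik (by rwa [map_one, one_mul] at h1)
  have c1 : k * e bu = e bu * k := mul_inv_eq_iff_eq_mul.1 (ik bu)
  have c2 : k * e bz = e bz * k := mul_inv_eq_iff_eq_mul.1 (ik bz)
  have c3 : j * e bu = e bz * e bu * j := by
    rw [← map_mul]; exact mul_inv_eq_iff_eq_mul.1 (ij bu)
  refine key (k * e bu) (mul_mem hk (h.VK _)) ?_ (ik.mul (ind_e bu)) ?_
  · rw [mul_assoc, ← mul_assoc (e bu), ← c1, mul_assoc, sq, mul_one, kk]
  · show j * (k * e bu) = k * e bu * j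
    rw [← mul_assoc, h1, mul_assoc, mul_assoc, c3, ← mul_assoc, ← c2, mul_assoc, mul_assoc,
      ← mul_assoc (e bz), sq, one_mul, mul_assoc]

theorem Hy.same (h : Hy K t e) {f : M →* G} (h2 : ∀ b, f (κ b) = e b) (h3 : f.range ≤ K) {a : G}
    (ha : a ∈ K) (aa : a * a = 1) {g : B → B} (ia : Ind e a g) {m : M} (mm : m * m = 1)
    (hg : ∀ b, g (act m b) = b) : ∃ b, a = f (κ b * m) := by
  have h4 : f m * f m = 1 := by rw [← map_mul, mm, map_one]
  obtain ⟨b, hb⟩ := h.inv a ha _ (h3 ⟨m, rfl⟩) aa h4 ((ia.mul (ind_f h2 m)).cent hg)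
  exact ⟨b, by rw [map_mul, h2, hb, mul_assoc, h4, mul_one]⟩

theorem norm_of [Finite G] {f : M →* G} (h2 : ∀ b, f (κ b) = e b) {x : G} {g : B → B} (ix : Ind e x g)
    (a1 : x * f m1 * x⁻¹ ∈ f.range) (a2 : x * f m2 * x⁻¹ ∈ f.range) : x ∈ N[f.range] := by
  refine mem_normalizer_fintype ?_
  rintro _ ⟨m, rfl⟩
  have a3 : ∀ b, x * f (κ b) * x⁻¹ ∈ f.range := fun b => ⟨κ (g b), by rw [h2, h2, ix]⟩
  obtain ⟨b, rfl | rfl | rfl | rfl⟩ := d9 m
  · exact a3 b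
  all_goals simp only [map_mul, ← conj_mul]
  exacts [mul_mem a1 (a3 b), mul_mem a2 (a3 b), mul_mem (mul_mem a1 a2) (a3 b)]

theorem card_q {f : M →* G} (h1 : Function.Injective f) {ι : QuaternionGroup 2 →* M}
    (hι : Function.Injective ι) : Nat.card (f.comp ι).range = 8 := by
  rw [← Nat.card_congr (MonoidHom.ofInjective (f := f.comp ι) (h1.comp hι)).toEquiv,
    Nat.card_eq_fintype_card, QuaternionGroup.card]

theorem swap [Finite G] {f : M →* G} (h1 : Function.Injective f) {ι : QuaternionGroup 2 →* M}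
    (hι : Function.Injective ι) {x : G} (hx : x ∈ N[f.range]) :
    MulAut.conj x • (f.comp ι).range = (f.comp ι1).range ∨
      MulAut.conj x • (f.comp ι).range = (f.comp ι2).range := by
  obtain ⟨a, ha⟩ := (mem_normalizer_iff.1 hx _).1 ⟨ι (.a 1), rfl⟩
  obtain ⟨b, hb⟩ := (mem_normalizer_iff.1 hx _).1 ⟨ι (.xa 0), rfl⟩
  have k1 : ∀ {p q : QuaternionGroup 2}, x * f (ι p) * x⁻¹ = x * f (ι q) * x⁻¹ → p = q := fun e =>
    hι (h1 (by simpa using e))
  have key : ∀ ι' : QuaternionGroup 2 →* M, Function.Injective ι' → (∃ p, ι' p = a) → (∃ p, ι' p = b) →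
      MulAut.conj x • (f.comp ι).range = (f.comp ι').range := fun ι' hi ⟨p, hp⟩ ⟨q, hq⟩ => by
    refine eq_of_le_of_card_ge ?_ (by rw [card_conj_smul, card_q h1 hι, card_q h1 hi])
    rintro _ ⟨_, ⟨r, rfl⟩, rfl⟩
    show x * f (ι r) * x⁻¹ ∈ _
    obtain ⟨n, rfl | rfl⟩ := d8 r
    · exact ⟨p ^ n.1, by simp only [MonoidHom.comp_apply, map_pow, hp, ha, conj_pow]⟩
    · exact ⟨q * p ^ n.1, by
        simp only [MonoidHom.comp_apply, map_mul, map_pow, hp, hq, ha, hb, conj_pow, conj_mul]⟩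
  refine (d4 a b (fun c => ?_) (fun c => ?_) fun c => ?_).imp (fun c => key _ ι1_inj c.1 c.2)
    fun c => key _ ι2_inj c.1 c.2
  · refine absurd (k1 (p := .a 1 * .a 1) (q := 1) ?_) (by decide)
    rw [map_mul, map_mul, ← conj_mul, ← ha, ← map_mul, c]; simp
  · refine absurd (k1 (p := .xa 0 * .xa 0) (q := 1) ?_) (by decide)
    rw [map_mul, map_mul, ← conj_mul, ← hb, ← map_mul, c]; simp
  · refine absurd (k1 (p := .a 1 * .xa 0) (q := .xa 0 * .a 1) ?_) (by decide)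
    rw [map_mul, map_mul, map_mul, map_mul, ← conj_mul, ← conj_mul, ← ha, ← hb, ← map_mul, c, map_mul]

theorem sup_eq (f : M →* G) : (f.comp ι1).range ⊔ (f.comp ι2).range = f.range := by
  refine le_antisymm (sup_le ?_ ?_) ?_
  · rintro _ ⟨p, rfl⟩; exact ⟨_, rfl⟩
  · rintro _ ⟨p, rfl⟩; exact ⟨_, rfl⟩
  · rintro _ ⟨m, rfl⟩
    obtain ⟨p, q, rfl⟩ := d3 m
    rw [map_mul]
    exact mul_mem (mem_sup_left ⟨p, rfl⟩) (mem_sup_right ⟨q, rfl⟩)

theorem zp {z : G} (h : z * z = 1) {x : G} (hx : x ∈ zpowers z) : x = 1 ∨ x = z := by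
  obtain ⟨n, rfl⟩ := hx
  show z ^ n = 1 ∨ z ^ n = z
  have h2 : ∀ k : ℤ, z ^ (2 * k) = 1 := fun k => by rw [zpow_mul, zpow_two, h, one_zpow]
  rcases Int.even_or_odd' n with ⟨k, rfl | rfl⟩
  · exact .inl (h2 k)
  · exact .inr (by rw [zpow_add, h2, one_mul, zpow_one])

theorem Hy.core [Finite G] (h : Hy K t e) (tt : t * t = 1) : ∃ (s : G) (Q1 Q2 : Subgroup G),
    Nonempty (Q1 ≃* QuaternionGroup 2) ∧ Nonempty (Q2 ≃* QuaternionGroup 2) ∧ Q1 ≤ C[Q2] ∧
    Q1 ⊓ Q2 = zpowers (e bz) ∧ s * s = 1 ∧ s ∉ Q1 ⊔ Q2 ∧ s ∈ N[(Q1 ⊔ Q2 : Subgroup G)] ∧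
    Q1 ⊔ Q2 ⊔ zpowers s ≤ K ∧ Nat.card (Q1 ⊔ Q2 : Subgroup G) = 32 ∧ MulAut.conj t • Q1 = Q2 ∧
    ((s ∈ N[Q1] ∧ ∃ x ∈ Q1, s * x * s⁻¹ * x⁻¹ ∉ zpowers (e bz)) ∧
      (s ∈ N[Q2] ∧ ∃ x ∈ Q2, s * x * s⁻¹ * x⁻¹ ∉ zpowers (e bz)) ∨ MulAut.conj s • Q1 = Q2) := by
  obtain ⟨f, h1, h2, h3⟩ := h.exists_f
  obtain ⟨s, hs, ss, is⟩ := h.ex τ3 (by decide +kernel) (by decide +kernel)
  have si := inv_eq_of_mul_eq_one_right ss
  have ti := inv_eq_of_mul_eq_one_right tt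
  have it := ind_of_cent h.tV
  have zz : e bz * e bz = 1 := by rw [← map_mul]; exact e.map_one
  have fsq : ∀ {m : M}, m * m = 1 → f m * f m = 1 := fun c => by rw [← map_mul, c, map_one]
  have sN : s ∈ N[f.range] := by
    have key : ∀ m m' : M, m * m = 1 → m' * m' = 1 → (∀ b, τ3 (act m (τ3 (act m' b))) = b) →
        s * f m * s⁻¹ ∈ f.range := fun m m' c c' c'' => by
      obtain ⟨b, hb⟩ := h.same h2 h3 (mul_mem (mul_mem hs (h3 ⟨m, rfl⟩)) (inv_mem hs))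
        (conj_sq (fsq c) s) (by rw [si]; exact (is.mul (ind_f h2 m)).mul is) c' c''
      exact ⟨_, hb.symm⟩
    exact norm_of h2 is (key m1 (m1 * m2) (by decide +kernel) (by decide +kernel) (by decide +kernel))
      (key m2 m2 (by decide +kernel) (by decide +kernel) (by decide +kernel))
  have tm : ∀ m : M, m * m = 1 → ∃ b, t * f m * t⁻¹ = f (κ b * m) := fun m c =>
    h.same h2 h3 (h.tK _ (h3 ⟨m, rfl⟩)) (conj_sq (fsq c) t)
      (by rw [ti]; exact (it.mul (ind_f h2 m)).mul it) c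
      ((by decide +kernel : ∀ m b, act m (act m b) = b) m)
  have tN : t ∈ N[f.range] := norm_of h2 it
    ((tm m1 (by decide +kernel)).imp' _ fun _ c => c.symm) ((tm m2 (by decide +kernel)).imp' _ fun _ c => c.symm)
  have ne : (f.comp ι1).range ≠ (f.comp ι2).range := fun c => by
    obtain ⟨q, hq⟩ := c.le ⟨.a 1, rfl⟩
    exact absurd (d2 _ _ (h1 hq).symm) (by decide +kernel)
  have out : ∀ m : M, (∃ b, τ3 (act m (τ3 b)) ≠ act m b) →
      s * f m * s⁻¹ * (f m)⁻¹ ∉ zpowers (e bz) := fun m ⟨b, hb⟩ c => by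
    obtain ⟨d, hd⟩ : ∃ d, s * f m * s = e d * f m := by
      rcases zp zz c with c | c
      exacts [⟨1, by rw [map_one, ← c, si]; group⟩, ⟨bz, by rw [← c, si]; group⟩]
    exact hb (Ind.eq h.inj ((is.mul (ind_f h2 m)).mul is) (hd ▸ (ind_e d).mul (ind_f h2 m)) b)
  refine ⟨s, (f.comp ι1).range, (f.comp ι2).range,
    ⟨(MonoidHom.ofInjective (f := f.comp ι1) (h1.comp ι1_inj)).symm⟩,
    ⟨(MonoidHom.ofInjective (f := f.comp ι2) (h1.comp ι2_inj)).symm⟩, ?_, le_antisymm ?_ ?_, ss, ?_,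
    by rwa [sup_eq], ?_, ?_, ?_, ?_⟩
  · rintro _ ⟨p, rfl⟩ _ ⟨q, rfl⟩
    show f _ * f _ = f _ * f _
    rw [← map_mul, d1, map_mul]
  · rintro _ ⟨⟨p, rfl⟩, q, hq⟩
    show f (ι1 p) ∈ _
    rcases d2 p q (h1 hq).symm with c | c <;> rw [c]
    · rw [map_one]; exact one_mem _
    · rw [h2]; exact mem_zpowers _
  · rw [zpowers_le, ← h2]
    exact ⟨⟨.a 2, congrArg f d2'.1⟩, .a 2, congrArg f d2'.2⟩
  · rw [sup_eq]
    rintro ⟨m, rfl⟩
    exact absurd (Ind.eq h.inj is (ind_f h2 m) bw) ((by decide +kernel : ∀ m, τ3 bw ≠ act m bw) m)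
  · rw [sup_eq]
    exact sup_le h3 (zpowers_le.2 hs)
  · rw [sup_eq, ← Nat.card_congr (MonoidHom.ofInjective h1).toEquiv, Nat.card_eq_fintype_card]
    rfl
  · refine (swap h1 ι1_inj tN).resolve_left fun c => ?_
    have key : ∀ p, (∃ b, act (ι1 p) b ≠ b) → (∃ b, t * f (ι1 p) * t⁻¹ = e b * f (ι1 p)) →
        t * f (ι1 p) * t⁻¹ = e bz * f (ι1 p) := fun p ⟨b0, h0⟩ ⟨b, hb⟩ => by
      obtain ⟨q, hq⟩ : t * f (ι1 p) * t⁻¹ ∈ (f.comp ι1).range :=
        c.le (conj_mem_conj_smul.2 ⟨p, rfl⟩)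
      have c2 : ι1 (q * p⁻¹) = κ b := h1 (by
        rw [h2, map_mul, map_mul, map_inv, map_inv, eq_comm, eq_mul_inv_iff_mul_eq, ← hb]; exact hq.symm)
      rcases d6 _ _ c2 with rfl | rfl
      · refine absurd (Ind.eq h.inj (ind_f h2 _) (ind_of_cent (h.ct _ (h3 ⟨_, rfl⟩) ?_ ?_)) b0) h0
        · rw [map_one, one_mul, mul_inv_eq_iff_eq_mul] at hb
          exact hb.symm
        · exact ((ind_f h2 _).mul (ind_f h2 _)).cent
            ((by decide +kernel : ∀ m b, act m (act m b) = b) _)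
      · exact hb
    have k0 : ∀ m b, m * m = 1 → ∃ b', t * f (m * κ b) * t⁻¹ = e b' * f (m * κ b) := fun m b c => by
      obtain ⟨b', hb'⟩ := tm m c
      exact ⟨b', by rw [map_mul, ← conj_mul, hb', h2, it, map_mul, h2, mul_assoc]; rfl⟩
    have k1 := key (.a 1) (by decide +kernel) (k0 m2 bw (by decide +kernel))
    have k2 := key (.xa 0) (by decide +kernel) (k0 m1 (bu * bw) (by decide +kernel))
    have k3 := key (.xa 0 * .a 1) (by decide +kernel)
      ⟨1, by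
        rw [map_mul, map_mul, ← conj_mul, k1, k2, ← h2, ← h2, ← map_mul, ← map_mul, ← map_mul, ← map_mul,
          ← map_mul]
        exact congrArg f (by decide +kernel)⟩
    rw [map_mul, map_mul, ← conj_mul, k1, k2, ← h2, ← map_mul, ← map_mul, ← map_mul, ← map_mul,
      ← map_mul] at k3
    exact absurd (h1 k3) (by decide +kernel)
  · refine (swap h1 ι1_inj sN).imp_left fun c => ⟨⟨mem_normalizer_iff_conj_smul_eq.2 c,
      _, ⟨.xa 0, rfl⟩, out _ (by decide +kernel)⟩,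
      mem_normalizer_iff_conj_smul_eq.2 ((swap h1 ι2_inj sN).resolve_left fun c' => ne ?_),
      _, ⟨.a 1, rfl⟩, out _ (by decide +kernel)⟩
    exact smul_left_cancel _ (c.trans c'.symm)

end Cfsg.Agent.H3.S94Q
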