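import Mathlib
import Cfsg.Agent.H8.SylowIn

/-! Models of `2³` and `2^{1+4}_+` and homomorphisms from them. -/

set_option autoImplicit false

namespace Cfsg.Agent.H3.S94Q

open Subgroup Cfsg.Agent.H8
open scoped Pointwise

/-- `2³` -/
def B : Type := Bool × Bool × Bool

instance instDecB : DecidableEq B := inferInstanceAs (DecidableEq (Bool × Bool × Bool))
instance instFinB : Fintype B := inferInstanceAs (Fintype (Bool × Bool × Bool))

instance instGrpB : Group B where
  mul x y := (xor x.1 y.1, xor x.2.1 y.2.1, xor x.2.2 y.2.2)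
  one := (false, false, false)
  inv x := x
  mul_assoc := by decide +kernel
  one_mul := by decide +kernel
  mul_one := by decide +kernel
  inv_mul_cancel := by decide +kernel

/-- `2^{1+4}_+`, the elements `j₁^a u^b j₂^c w^d z^e` -/
def M : Type := Bool × Bool × Bool × Bool × Bool

instance instDecM : DecidableEq M := inferInstanceAs (DecidableEq (Bool × Bool × Bool × Bool × Bool))
instance instFinM : Fintype M := inferInstanceAs (Fintype (Bool × Bool × Bool × Bool × Bool))

theorem aux : ∀ b d e a' b' c' d' e' a'' c'' e'' : Bool,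
    xor (xor (xor b b' && a'') (xor d d' && c'')) (xor (xor (xor (b && a') (d && c')) (xor e e')) e'') =
    xor (xor (b && xor a' a'') (d && xor c' c'')) (xor e (xor (xor (b' && a'') (d' && c'')) (xor e' e''))) := by
  decide +kernel

instance instGrpM : Group M where
  mul x y := (xor x.1 y.1, xor x.2.1 y.2.1, xor x.2.2.1 y.2.2.1, xor x.2.2.2.1 y.2.2.2.1,
    xor (xor (x.2.1 && y.1) (x.2.2.2.1 && y.2.2.1)) (xor x.2.2.2.2 y.2.2.2.2))
  one := (false, false, false, false, false)
  inv x := (x.1, x.2.1, x.2.2.1, x.2.2.2.1,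
    xor (xor (x.2.1 && x.1) (x.2.2.2.1 && x.2.2.1)) x.2.2.2.2)
  mul_assoc := fun ⟨_, b, _, d, e⟩ ⟨a', b', c', d', e'⟩ ⟨a'', _, c'', _, e''⟩ =>
    Prod.ext (Bool.xor_assoc _ _ _) (Prod.ext (Bool.xor_assoc _ _ _) (Prod.ext (Bool.xor_assoc _ _ _)
      (Prod.ext (Bool.xor_assoc _ _ _) (aux b d e a' b' c' d' e' a'' c'' e''))))
  one_mul := by decide +kernel
  mul_one := by decide +kernel
  inv_mul_cancel := by decide +kernel

/-- basis vectors -/
def bu : B := (true, false, false)
/-- basis vectors -/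
def bw : B := (false, true, false)
/-- basis vectors -/
def bz : B := (false, false, true)

/-- `2³` inside `2^{1+4}` -/
def κ (b : B) : M := (false, b.1, false, b.2.1, b.2.2)

/-- the action on `2³` -/
def act (m : M) (b : B) : B := (b.1, b.2.1, xor b.2.2 (xor (m.1 && b.1) (m.2.2.1 && b.2.1)))

/-- generators -/
def m1 : M := (true, false, false, false, false)
/-- generators -/
def m2 : M := (false, false, true, false, false)

/-- an involutive automorphism of `2³` -/
def mkAut (f : B → B) (h1 : ∀ b, f (f b) = b) (h2 : ∀ a b, f (a * b) = f a * f b) : MulAut B where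
  toFun := f
  invFun := f
  left_inv := h1
  right_inv := h1
  map_mul' := h2

/-- `u ↦ u z` -/
def τ1 : MulAut B := mkAut (act m1) (by decide +kernel) (by decide +kernel)
/-- `w ↦ w z` -/
def τ2 : MulAut B := mkAut (act m2) (by decide +kernel) (by decide +kernel)
/-- `w ↦ w u` -/
def sw (b : B) : B := (xor b.1 b.2.1, b.2.1, b.2.2)
/-- `w ↦ w u` -/
def τ3 : MulAut B := mkAut sw (by decide +kernel) (by decide +kernel)

/-- a quaternion subgroup -/
def iq (x y : M) : QuaternionGroup 2 → M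
  | .a i => x ^ i.val
  | .xa i => y * x ^ i.val

/-- the first quaternion subgroup -/
def ι1 : QuaternionGroup 2 →* M :=
  MonoidHom.mk' (iq (false, false, true, true, false) (true, true, false, true, false)) (by decide +kernel)

/-- the second quaternion subgroup -/
def ι2 : QuaternionGroup 2 →* M :=
  MonoidHom.mk' (iq (true, true, false, false, false) (true, false, true, true, false)) (by decide +kernel)

theorem ι1_inj : Function.Injective ι1 := by decide +kernel
theorem ι2_inj : Function.Injective ι2 := by decide +kernel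
theorem d1 : ∀ p q, ι2 q * ι1 p = ι1 p * ι2 q := by decide +kernel
theorem d2 : ∀ p q, ι1 p = ι2 q → ι1 p = 1 ∨ ι1 p = κ bz := by decide +kernel
theorem d2' : ι1 (.a 2) = κ bz ∧ ι2 (.a 2) = κ bz := by decide +kernel
theorem d3 : ∀ m, ∃ p q, m = ι1 p * ι2 q := by decide +kernel
theorem d4 : ∀ x y : M, x * x ≠ 1 → y * y ≠ 1 → x * y ≠ y * x →
    ((∃ p, ι1 p = x) ∧ ∃ p, ι1 p = y) ∨ ((∃ p, ι2 p = x) ∧ ∃ p, ι2 p = y) := by decide +kernel
theorem d5 : ∀ m : M, m = 1 ∨ m = κ bz ∨ ∃ n, m * n * m⁻¹ * n⁻¹ = κ bz := by decide +kernel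
theorem d6 : ∀ p b, ι1 p = κ b → b = 1 ∨ b = bz := by decide +kernel
theorem d7 : ∀ m b, m * κ b * m⁻¹ = κ (act m b) := by decide +kernel
theorem d8 : ∀ q : QuaternionGroup 2, ∃ n : Fin 4, q = .a 1 ^ n.1 ∨ q = .xa 0 * .a 1 ^ n.1 := by
  decide +kernel
theorem d9 : ∀ m : M, ∃ b, m = κ b ∨ m = m1 * κ b ∨ m = m2 * κ b ∨ m = m1 * m2 * κ b := by
  decide +kernel

variable {G : Type*} [Group G]

/-- a power with exponent in `Bool` -/
def pw (x : G) (b : Bool) : G := if b = true then x else 1

theorem pw_xor {x : G} (h : x * x = 1) (a b : Bool) : pw x (xor a b) = pw x a * pw x b := by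
  cases a <;> cases b <;> simp [pw, h]

theorem pw_comm {x y : G} (h : Commute x y) (a : Bool) : Commute (pw x a) y := by
  cases a <;> simp [pw, h]

theorem pw_comm' {x y : G} (h : Commute x y) (a b : Bool) : Commute (pw x a) (pw y b) :=
  pw_comm (pw_comm h.symm b).symm a

theorem exists_e {V : Subgroup G} (hV : ∀ v ∈ V, v * v = 1) (hc : Nat.card V = 8) {z : G}
    (hz : z ∈ V) (z1 : z ≠ 1) :
    ∃ e : B →* G, Function.Injective e ∧ e.range = V ∧ e bz = z := by
  classical
  have : Finite V := Nat.finite_of_card_ne_zero (by omega)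
  have cm : ∀ a ∈ V, ∀ b ∈ V, Commute a b := fun a ha b hb => by
    have := hV _ (mul_mem ha hb)
    rw [Commute, SemiconjBy, ← inv_eq_of_mul_eq_one_right this, mul_inv_rev,
      inv_eq_of_mul_eq_one_right (hV a ha), inv_eq_of_mul_eq_one_right (hV b hb)]
  have ex : ∀ S : Finset G, S.card < 8 → ∃ v ∈ V, v ∉ S := fun S hS => by
    by_contra! h
    have := Set.ncard_le_ncard (s := (V : Set G)) (t := S) h
    rw [Set.ncard_coe_finset, ← Nat.card_coe_set_eq] at this
    exact absurd (hc ▸ this : 8 ≤ S.card) (by omega)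
  obtain ⟨u, hu, h1⟩ := ex {1, z} (Finset.card_le_two.trans_lt (by norm_num))
  obtain ⟨w, hw, h2⟩ := ex {1, z, u, u * z} (Finset.card_le_four.trans_lt (by norm_num))
  simp only [Finset.mem_insert, Finset.mem_singleton, not_or] at h1 h2
  let e : B →* G := MonoidHom.mk' (fun b => pw u b.1 * pw w b.2.1 * pw z b.2.2) fun x y => by
    show pw u (xor x.1 y.1) * pw w (xor x.2.1 y.2.1) * pw z (xor x.2.2 y.2.2) = _
    rw [pw_xor (hV u hu), pw_xor (hV w hw), pw_xor (hV z hz),
      (pw_comm' (cm u hu w hw) _ _).mul_mul_mul_comm, Commute.mul_mul_mul_comm]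
    exact (pw_comm' (cm u hu z hz) _ _).mul_left (pw_comm' (cm w hw z hz) _ _)
  have hi : Function.Injective e := (injective_iff_map_eq_one e).2 fun ⟨a, b, c⟩ h => by
    change pw u a * pw w b * pw z c = 1 at h
    have i := fun v hv => inv_eq_of_mul_eq_one_right (hV v hv)
    cases a <;> cases b <;> cases c <;>
      simp only [pw, if_true, Bool.false_eq_true, if_false, one_mul, mul_one, mul_eq_one_iff_eq_inv,
        i z hz, i w hw] at h
    · rfl
    · exact absurd h z1
    · exact absurd h h2.1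
    · exact absurd h h2.2.1
    · exact absurd h h1.1
    · exact absurd h h1.2
    · exact absurd h.symm h2.2.2.1
    · exact absurd (by rw [← h, ← mul_assoc, hV u hu, one_mul]) h2.2.2.2
  have pm : ∀ x ∈ V, ∀ b, pw x b ∈ V := fun x hx b => by cases b <;> simp [pw, hx]
  refine ⟨e, hi, eq_of_le_of_card_ge ?_ ?_, by simp [e, bz, pw]⟩
  · rintro _ ⟨b, rfl⟩
    exact mul_mem (mul_mem (pm u hu _) (pm w hw _)) (pm z hz _)
  · rw [hc, ← Nat.card_congr (MonoidHom.ofInjective hi).toEquiv, Nat.card_eq_fintype_card]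
    rfl

theorem dmul {x y z : G} (hx : x * x = 1) (hy : y * y = 1) (h : y * x = x * y * z)
    (hz : Commute z y) (a b a' b' : Bool) :
    pw x (xor a a') * pw y (xor b b') * pw z (b && a') = pw x a * pw y b * (pw x a' * pw y b') := by
  rw [pw_xor hx, pw_xor hy]
  have : pw y b * pw x a' = pw x a' * pw y b * pw z (b && a') := by
    cases b <;> cases a' <;> simp [pw, h]
  rw [mul_assoc (pw x a) (pw y b), ← mul_assoc (pw y b) (pw x a'), this, mul_assoc _ (pw z _),
    (pw_comm' hz _ _).eq]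
  simp only [mul_assoc]

theorem exists_f (e : B →* G) (hz : e bz ≠ 1) {j k : G} (jj : j * j = 1) (kk : k * k = 1)
    (jk : Commute j k) (hj : ∀ b, j * e b * j⁻¹ = e (τ1 b)) (hk : ∀ b, k * e b * k⁻¹ = e (τ2 b)) :
    ∃ f : M →* G, Function.Injective f ∧ (∀ b, f (κ b) = e b) ∧ f m1 = j ∧ f m2 = k := by
  have sq : ∀ b, e b * e b = 1 := fun b => by rw [← map_mul, (by decide : ∀ b : B, b * b = 1), map_one]
  have ce : ∀ a b, Commute (e a) (e b) := fun a b => by
    rw [Commute, SemiconjBy, ← map_mul, (by decide : ∀ a b : B, a * b = b * a), map_mul]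
  have c1 : ∀ b, τ1 b = b → Commute j (e b) := fun b h =>
    mul_inv_eq_iff_eq_mul.1 ((hj b).trans (congrArg e h))
  have c2 : ∀ b, τ2 b = b → Commute k (e b) := fun b h =>
    mul_inv_eq_iff_eq_mul.1 ((hk b).trans (congrArg e h))
  have r : ∀ {x : G} {b : B}, x * x = 1 → x * e b * x⁻¹ = e (b * bz) → e b * x = x * e b * e bz :=
    fun {x b} xx h => by
      rw [mul_assoc, ← map_mul, ← h, inv_eq_of_mul_eq_one_right xx, ← mul_assoc, ← mul_assoc, xx, one_mul]
  have z1 : ∀ a b c, Commute (pw (e bz) c) (pw j a * pw (e bu) b) := fun a b c =>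
    (pw_comm' (c1 _ (by decide)).symm _ _).mul_right (pw_comm' (ce _ _) _ _)
  have z2 : ∀ a b c, Commute (pw (e bz) c) (pw k a * pw (e bw) b) := fun a b c =>
    (pw_comm' (c2 _ (by decide)).symm _ _).mul_right (pw_comm' (ce _ _) _ _)
  have z3 : ∀ a b c d, Commute (pw k a * pw (e bw) b) (pw j c * pw (e bu) d) := fun a b c d =>
    ((pw_comm' jk.symm _ _).mul_right (pw_comm' (c2 _ (by decide)) _ _)).mul_left
      ((pw_comm' (c1 _ (by decide)).symm _ _).mul_right (pw_comm' (ce _ _) _ _))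
  let f : M →* G := MonoidHom.mk' (fun m => pw j m.1 * pw (e bu) m.2.1 *
      (pw k m.2.2.1 * pw (e bw) m.2.2.2.1) * pw (e bz) m.2.2.2.2) fun x y => by
    show pw j (xor x.1 y.1) * pw (e bu) (xor x.2.1 y.2.1) * (pw k (xor x.2.2.1 y.2.2.1) *
      pw (e bw) (xor x.2.2.2.1 y.2.2.2.1)) * pw (e bz)
        (xor (xor (x.2.1 && y.1) (x.2.2.2.1 && y.2.2.1)) (xor x.2.2.2.2 y.2.2.2.2)) = _
    rw [((z1 _ _ _).mul_right (z2 _ _ _)).mul_mul_mul_comm, (z3 _ _ _ _).mul_mul_mul_comm,
      ← dmul jj (sq bu) (r jj (hj bu)) (ce _ _), ← dmul kk (sq bw) (r kk (hk bw)) (ce _ _),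
      (z2 _ _ _).mul_mul_mul_comm, pw_xor (sq bz), pw_xor (sq bz), pw_xor (sq bz),
      ← mul_assoc _ (_ * _)]
  have hκ : ∀ b, f (κ b) = e b := fun ⟨a, b, c⟩ => by
    change pw j false * pw (e bu) a * (pw k false * pw (e bw) b) * pw (e bz) c = _
    cases a <;> cases b <;> cases c <;>
      simp only [pw, if_true, Bool.false_eq_true, if_false, one_mul, mul_one, ← map_mul] <;>
      first | rfl | exact e.map_one.symm
  refine ⟨f, (injective_iff_map_eq_one f).2 fun m h => ?_, hκ, by simp [f, m1, pw], by simp [f, m2, pw]⟩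
  rcases d5 m with h1 | rfl | ⟨n, h1⟩
  · exact h1
  · exact absurd (by rw [← hκ, h]) hz
  · exact absurd (by rw [← hκ, ← h1]; simp [h]) hz

end Cfsg.Agent.H3.S94Q
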