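import Mathlib
import Cfsg.Agent.H58.SWDefs

/-! Stabilisers of block systems lie in the point stabiliser. -/

set_option autoImplicit false
set_option linter.unusedSectionVars false
open Matrix Cfsg

namespace Cfsg.Agent.H58.SW

namespace Stabx

variable {F : Type} [Field F] [Fintype F] [DecidableEq F] {n : ℕ}

theorem cj_mul (s t : Gl n F) (x : Mt n F) : cj (s * t) x = cj s (cj t x) := by
  simp only [cj, _root_.mul_inv_rev, Units.val_mul, Matrix.mul_assoc]

theorem cj_one (x : Mt n F) : cj 1 x = x := by simp [cj]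

theorem cj_inv (s : Gl n F) (x : Mt n F) : cj s⁻¹ (cj s x) = x := by
  rw [← cj_mul, inv_mul_cancel, cj_one]

theorem cj_inj (s : Gl n F) : Function.Injective (cj s) :=
  Function.LeftInverse.injective (cj_inv s)

theorem cj_eq {s : Gl n F} {x y : Mt n F} : cj s x = y ↔ (s : Mt n F) * x = y * s :=
  Units.mul_inv_eq_iff_eq_mul s

theorem cj_frame {a g : Gl n F} {x y : Mt n F} :
    cj (a * g * a⁻¹) (cj a x) = cj a y ↔ (g : Mt n F) * x = y * g := by
  rw [cj_mul, cj_inv, cj_mul, (cj_inj a).eq_iff, cj_eq]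

/-- The stabiliser of a finite set of matrices. -/
def Stb (E : Finset (Mt n F)) : Subgroup (Gl n F) where
  carrier := {s | ∀ e ∈ E, cj s e ∈ E}
  one_mem' e he := by rwa [cj_one]
  mul_mem' hs ht e he := by rw [cj_mul]; exact hs _ (ht e he)
  inv_mem' := fun {s} hs e he => by
    obtain ⟨f, hf, rfl⟩ := Finset.surjOn_of_injOn_of_card_le (cj s) hs (cj_inj s).injOn le_rfl he
    rwa [cj_inv]

/-- The pointwise stabiliser. -/
def Fxr (E : Finset (Mt n F)) : Subgroup (Gl n F) where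
  carrier := {s | ∀ e ∈ E, cj s e = e}
  one_mem' e _ := cj_one e
  mul_mem' hs ht e he := by rw [cj_mul, ht e he, hs e he]
  inv_mem' := fun {s} hs e he => by
    conv_lhs => rw [← hs e he, cj_inv]

variable {c : Cl F n}

theorem z_fx (ka : KA c) (E : Finset (Mt n F)) : c.Z ≤ Fxr E := fun z hz e _ => by
  obtain ⟨a, -, h⟩ := (ka.mem_Z z).1 hz
  rw [cj_eq, h]; simp

theorem conj_S (ka : KA c) {a g : Gl n F} (ha : a ∈ c.St) (hg : g ∈ c.S) : a * g * a⁻¹ ∈ c.S := by
  rw [ka.mem_S] at hg ⊢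
  refine ⟨mul_mem (mul_mem ha hg.1) (inv_mem ha), ?_⟩
  rw [Units.val_mul, Units.val_mul, det_units_conj, hg.2]

theorem ex_gl (P : Mt n F) (h : P.det = 1) : ∃ g : Gl n F, (g : Mt n F) = P :=
  ⟨GeneralLinearGroup.mkOfDetNeZero P (by rw [h]; exact one_ne_zero), rfl⟩

theorem mono_apply (σ : Equiv.Perm (Fin n)) (d : Fin n → F) (i j : Fin n) :
    (σ.permMatrix F * diagonal d) i j = if σ i = j then d j else 0 := by
  simp [mul_diagonal, Equiv.Perm.permMatrix, PEquiv.toMatrix_apply]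

theorem mono_mem (ka : KA c) (σ : Equiv.Perm (Fin n)) (d : Fin n → F)
    (hd : c.u = true → ∀ i, d i ^ c.q * d i = 1)
    (h : ((Equiv.Perm.sign σ : ℤ) : F) * ∏ i, d i = 1) :
    ∃ g ∈ c.S, ∀ i j, (g : Mt n F) i j = if σ i = j then d j else 0 := by
  have h1 : (σ.permMatrix F * diagonal d).det = 1 := by
    rw [det_mul, det_permutation, det_diagonal, h]
  obtain ⟨g, hg⟩ := ex_gl _ h1
  have h2 : ∀ i j, (g : Mt n F) i j = if σ i = j then d j else 0 := fun i j => by
    rw [hg, mono_apply]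
  refine ⟨g, (ka.mem_S g).2 ⟨(ka.mem_St g).2 fun hu => ?_, hg ▸ h1⟩, h2⟩
  have q0 : c.q ≠ 0 := by have := ka.two_le; omega
  ext i j
  obtain ⟨i, rfl⟩ := σ.surjective i
  rw [mul_apply, Finset.sum_eq_single i]
  · simp only [Cl.st, transpose_apply, map_apply, h2, if_true, one_apply]
    split_ifs with e
    · rw [← e]; exact hd hu _
    · exact mul_zero _
  · intro k _ hk
    simp only [Cl.st, transpose_apply, map_apply, h2]
    rw [if_neg (σ.injective.ne hk), zero_pow q0, zero_mul]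
  · simp

theorem mono_dg {g : Gl n F} {σ : Equiv.Perm (Fin n)} {d : Fin n → F}
    (hg : ∀ i j, (g : Mt n F) i j = if σ i = j then d j else 0) {β : Fin n → Mt n F}
    {e f : Mt n F} (h : ∀ i, β (σ i) = e ↔ β i = f) : (g : Mt n F) * dg β e = dg β f * g := by
  ext i j
  simp only [dg, mul_diagonal, diagonal_mul, hg]
  by_cases e1 : σ i = j
  · subst e1
    simp only [h, mul_comm]
  · simp [e1]

theorem ex_idx {a : Gl n F} {β : Fin n → Mt n F} {e : Mt n F} (h : e = cj a (dg β e))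
    (h0 : e ≠ 0) : ∃ i, β i = e := by
  by_contra hn
  push Not at hn
  apply h0
  rw [h]
  simp [cj, dg, hn]

theorem not_le (ka : KA c) (ki : KI c) (fr : FrameStmt) {E : Finset (Mt n F)} (hf : Fam E)
    (sf : c.SF E) (two : 2 ≤ E.card) : ¬ c.S ≤ Stb E := by
  intro hle
  obtain ⟨a, ha, β, hβ, hE⟩ := fr F n c E hf sf
  obtain ⟨e1, h1, e2, h2, ne⟩ := Finset.one_lt_card.1 two
  cases hu : c.u
  · obtain ⟨i, hi⟩ := ex_idx (hE e1 h1).1 (hf.ne0 e1 h1)
    obtain ⟨j, hj⟩ := ex_idx (hE e2 h2).1 (hf.ne0 e2 h2)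
    have ij : i ≠ j := fun e => ne (by rw [← hi, ← hj, e])
    obtain ⟨g, hg⟩ := ex_gl (transvection i j (1 : F)) (det_transvection_of_ne i j ij 1)
    have gS : g ∈ c.S := (ka.mem_S g).2 ⟨(ka.mem_St g).2 fun h => by simp [hu] at h,
      by rw [hg, det_transvection_of_ne i j ij]⟩
    have m := hle (conj_S ka ha gS) e1 h1
    have e := (hE _ m).1
    generalize hf' : cj (a * g * a⁻¹) e1 = f at e
    rw [(hE e1 h1).1, e, cj_frame, hg] at hf'
    have a1 := congrFun (congrFun hf' i) i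
    have a2 := congrFun (congrFun hf' i) j
    simp only [dg, mul_diagonal, diagonal_mul] at a1 a2
    rw [if_pos hi] at a1
    rw [if_neg (hj ▸ ne.symm)] at a2
    simp [transvection, ij, ij.symm] at a1 a2
    exact a2 a1
  · have n3 : 3 ≤ n := by
      have := c.hn
      have h2 := c.hn2
      by_contra h
      have := (h2 (by omega)).1
      simp [hu] at this
    have q0 := ka.two_le
    haveI : Nontrivial {a : F // c.ZV a} := Finite.one_lt_card_iff_nontrivial.1 (by
      rw [ka.card_ZV, Cl.zc, if_pos hu]; omega)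
    obtain ⟨⟨l, l0, l1⟩, hl⟩ := exists_ne (⟨1, one_ne_zero, fun _ => one_pow _⟩ : {a : F // c.ZV a})
    have hl' : l ≠ 1 := fun e => hl (Subtype.ext e)
    have l2 : l ^ c.q * l = 1 := by rw [← pow_succ, l1 hu]
    obtain ⟨g, gS, hg⟩ := mono_mem ka 1
      (fun k => (if k = ⟨0, by omega⟩ then l else 1) * if k = ⟨1, by omega⟩ then l⁻¹ else 1)
      (fun _ k => by
        split_ifs
        · rw [mul_inv_cancel₀ l0]; simp
        · rwa [mul_one]
        · rw [one_mul, inv_pow, ← _root_.mul_inv, l2, inv_one]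
        · simp)
      (by rw [Finset.prod_mul_distrib, Finset.prod_ite_eq', Finset.prod_ite_eq']; simp [l0])
    have gF : a * g * a⁻¹ ∈ Fxr E := fun e he => by
      rw [(hE e he).1, cj_frame]
      exact mono_dg hg fun _ => Iff.rfl
    rcases ki.simp (c.S ⊓ Fxr E) inf_le_left (fun s hs x hx =>
      ⟨c.S.mul_mem (c.S.mul_mem hs hx.1) (c.S.inv_mem hs), fun e he => by
        rw [cj_mul, cj_mul, hx.2 _ (hle (inv_mem hs) e he), ← cj_mul, mul_inv_cancel, cj_one]⟩)
      with h | h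
    · have hz := h ⟨conj_S ka ha gS, gF⟩
      have e : g = a * g * a⁻¹ := by
        have := (ka.zcomm _ hz a).eq
        rw [inv_mul_cancel_right] at this
        exact mul_left_cancel this
      rw [← e] at hz
      obtain ⟨b, -, hb⟩ := (ka.mem_Z _).1 hz
      have a1 := hg ⟨0, by omega⟩ ⟨0, by omega⟩
      have a2 := hg ⟨2, by omega⟩ ⟨2, by omega⟩
      rw [hb] at a1 a2
      simp at a1 a2
      exact hl' (a1.symm.trans a2)
    · have h3 : c.S ≤ Fxr E := h.trans (sup_le inf_le_right (z_fx ka E))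
      obtain ⟨b1, hb1⟩ := ki.cs e1 fun s hs => (cj_eq.1 (h3 hs e1 h1)).symm
      have := hf.orth e1 h1 e2 h2 ne
      rw [hb1, smul_mul, Matrix.one_mul, smul_eq_zero] at this
      rcases this with e | e
      · exact hf.ne0 e1 h1 (by rw [hb1, e, zero_smul])
      · exact hf.ne0 e2 h2 e

end Stabx

open Stabx

theorem stab (hKA : KAStmt) (hKT : KTStmt) (hI : IrrStmt) (fr : FrameStmt) : StabStmt := by
  intro F _ _ _ n c r H Q L E B s hs h
  have ka := hKA F n c
  have kt := hKT F n c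
  refine L.maxP (c.S ⊓ Stb E) inf_le_left (fun ψ hψ y hy => ?_) (fun hle => ?_) ⟨hs, h⟩
  · obtain ⟨t, ht⟩ := L.std ψ hψ
    refine ⟨(kt.pres ψ ⟨t, ht⟩ y).2.1.2 hy.1, fun e he => ?_⟩
    obtain ⟨f, hf, rfl⟩ := kt.surj H _ B.inv ψ hψ t ht e he
    have key : cj (ψ y) (t.ap f) = t.ap (cj y f) := by
      rw [cj, cj, ← map_inv, ht.2.2, ht.2.2]
      cases hn : t.neg
      · simp only [Bool.false_eq_true, if_false, kt.mul t hn]
      · simp only [if_true, kt.mul' t hn, inv_inv, Matrix.mul_assoc]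
    rw [key]
    exact B.inv ψ hψ t ht _ (hy.2 f hf)
  · exact not_le ka (hI F n c) fr B.fam B.sf B.two (hle.trans (sup_le inf_le_right
      fun z hz e he => by rwa [z_fx ka E hz e he]))

theorem swap (hKA : KAStmt) (hKT : KTStmt) (fr : FrameStmt) (st : StabStmt) : SwapStmt := by
  intro F _ _ _ n c r H Q L e ee se inv e0 e1 hr
  have ka := hKA F n c
  have kt := hKT F n c
  have o1 : e * (1 - e) = 0 := by rw [Matrix.mul_sub, Matrix.mul_one, ee, sub_self]
  have o2 : (1 - e) * e = 0 := by rw [Matrix.sub_mul, Matrix.one_mul, ee, sub_self]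
  have ne : e ≠ 1 - e := fun h => e0 (by rw [← ee, ← o1, ← h])
  have B : Blk c H {e, 1 - e} := by
    refine ⟨⟨?_, ?_, ?_, ?_⟩, fun hu => ?_, fun ψ hψ t ht => ?_, (Finset.card_pair ne).ge⟩
    · simp only [Finset.mem_insert, Finset.mem_singleton, forall_eq_or_imp, forall_eq]
      exact ⟨ee, by rw [Matrix.mul_sub, Matrix.mul_one, o2, sub_zero]⟩
    · simp only [Finset.mem_insert, Finset.mem_singleton, forall_eq_or_imp, forall_eq]
      exact ⟨e0, sub_ne_zero.2 e1.symm⟩
    · simp only [Finset.mem_insert, Finset.mem_singleton, forall_eq_or_imp, forall_eq]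
      exact ⟨⟨fun h => absurd rfl h, fun _ => o1⟩, fun _ => o2, fun h => absurd rfl h⟩
    · rw [Finset.sum_pair ne, add_sub_cancel]
    · simp only [Finset.mem_insert, Finset.mem_singleton, forall_eq_or_imp, forall_eq]
      exact ⟨se hu, by rw [ka.st_sub hu, ka.st_one, se hu]⟩
    · have h : t.ap e = e := inv ψ hψ t ht e rfl
      simp only [Finset.coe_insert, Finset.coe_singleton, Set.mem_insert_iff,
        Set.mem_singleton_iff, forall_eq_or_imp, forall_eq]
      exact ⟨Or.inl h, Or.inr (by rw [kt.sub, kt.one, h])⟩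
  obtain ⟨a, ha, β, hβ, hE⟩ := fr F n c _ B.fam B.sf
  have m1 : e ∈ ({e, 1 - e} : Finset (Mt n F)) := by simp
  have m2 : 1 - e ∈ ({e, 1 - e} : Finset (Mt n F)) := by simp
  have hb : ∀ i, β i = 1 - e ↔ ¬ β i = e := fun i =>
    ⟨fun h h' => ne (h'.symm.trans h), fun h => by simpa [h] using hβ i⟩
  obtain ⟨φ⟩ : Nonempty ({i // β i = e} ≃ {i // ¬ β i = e}) := by
    rw [← Fintype.card_eq, Fintype.card_subtype, Fintype.card_subtype, (hE e m1).2, hr,
      ← (hE _ m2).2]
    simp only [hb]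
  have s1 : ∀ i, β (φ.extendSubtype i) = e ↔ β i = 1 - e := fun i => by
    rw [hb]
    exact ⟨fun h h' => φ.extendSubtype_mem i h' h, fun h => not_not.1 (φ.extendSubtype_not_mem i h)⟩
  have s2 : ∀ i, β (φ.extendSubtype i) = 1 - e ↔ β i = e := fun i => by
    rw [hb, s1, hb, not_not]
  generalize φ.extendSubtype = σ at s1 s2
  have n0 : 0 < n := by have := c.hn; omega
  have sg : ((Equiv.Perm.sign σ : ℤ) : F) = 1 ∨ ((Equiv.Perm.sign σ : ℤ) : F) = -1 := by
    rcases Int.units_eq_one_or (Equiv.Perm.sign σ) with h | h <;> simp [h]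
  obtain ⟨g, gS, hg⟩ := mono_mem ka σ
    (fun k => if k = ⟨0, n0⟩ then ((Equiv.Perm.sign σ : ℤ) : F) else 1)
    (fun hu k => by
      have q0 : c.q ≠ 0 := by have := ka.two_le; omega
      have h := ka.fr_add hu 1 (-1)
      rw [add_neg_cancel, zero_pow q0, one_pow, eq_comm, add_eq_zero_iff_neg_eq] at h
      split_ifs
      · rcases sg with h1 | h1 <;> rw [h1]
        · simp
        · rw [← h]; simp
      · simp)
    (by
      rw [Finset.prod_ite_eq', if_pos (Finset.mem_univ _)]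
      rcases sg with h1 | h1 <;> rw [h1] <;> simp)
  have c1 : cj (a * g * a⁻¹) e = 1 - e := by
    have := cj_frame (a := a) |>.2 (mono_dg hg s1)
    rwa [← (hE e m1).1, ← (hE _ m2).1] at this
  have c2 : cj (a * g * a⁻¹) (1 - e) = e := by
    have := cj_frame (a := a) |>.2 (mono_dg hg s2)
    rwa [← (hE e m1).1, ← (hE _ m2).1] at this
  have hh := st F n c r H Q L _ B _ (conj_S ka ha gS) (by
    simp only [Finset.mem_insert, Finset.mem_singleton, forall_eq_or_imp, forall_eq]
    exact ⟨Or.inr c1, Or.inl c2⟩)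
  exact ne ((kt.hatM H _ inv _ hh e rfl).symm.trans c1)

end Cfsg.Agent.H58.SW
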