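import Cfsg.Agent.H79.SqDefs

/-! Project SQ, piece COL: column orthogonality at an element of `C(P)`. -/

set_option autoImplicit false

namespace Cfsg.Agent.H3.SqCol

open MulAction Subgroup Cfsg Cfsg.Agent.H58 Cfsg.Agent.H79.Sq
open scoped ComplexConjugate

universe w

theorem lemL {K : Type*} [Group K] [Fintype K] (hK : ∀ a b : K, a * b = b * a) {f : K → ℂ}
    (hf : IsGeneralizedCharacter K f) {a : ℤ} (ha : f 1 = a) :
    (Nat.card K : ℝ) * a ≤ ∑ g, ‖f g‖ ^ 2 := by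
  have := Fintype.ofFinite (IrrCharacter K)
  obtain ⟨m, h1, h2⟩ := H11.exists_eq_sum_int hf
  have h3 := H11.card_mul_classInner f f
  rw [H11.classInner_self_eq_sum_int (H11.isClassFunction_of_isGen hf) m h1] at h3
  simp only [Complex.mul_conj, Complex.normSq_eq_norm_sq] at h3
  have h4 : a = ∑ ψ, m ψ := by
    have := congrFun h2 1
    simp only [Finset.sum_apply, Pi.smul_apply, smul_eq_mul, H11.irr_apply_one_of_comm hK (Subtype.prop _),
      mul_one, ha] at this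
    exact_mod_cast this
  have h5 : (Nat.card K : ℝ) * (∑ ψ, m ψ ^ 2 : ℤ) = ∑ g, ‖f g‖ ^ 2 := by exact_mod_cast h3
  rw [← h5, h4]
  refine mul_le_mul_of_nonneg_left ?_ (Nat.cast_nonneg _)
  exact_mod_cast Finset.sum_le_sum fun ψ _ => Int.le_self_sq (m ψ)

variable {G : Type*} [Group G] [Fintype G] {p : ℕ} [hp : Fact p.Prime]

open Classical in
theorem one {P : Subgroup G} (hP : Nat.card P = p) {y : G} (hy : y ∈ centralizer (P : Set G))
    (hr : (orderOf y).Prime) {χ : G → ℂ} (hχ : IsCharacter G χ) {s : ℤ} {d : ℕ}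
    (h1 : χ 1 - s = p * d) (hd : ¬ orderOf y ∣ d)
    (h0 : ∀ x ∈ P, x ≠ 1 → ∀ b ∈ zpowers y, χ (x * b) = s) :
    (p : ℝ) ^ 2 * (orderOf y - 1) ≤ ∑ b ∈ Finset.univ.erase (1 : zpowers y), ‖χ b - s‖ ^ 2 := by
  have cy := isCyclic_of_prime_card hP
  let φ : P × zpowers y →* G := P.subtype.noncommCoprod (zpowers y).subtype fun a b =>
    mem_centralizer_iff.1 (zpowers_le.2 hy b.2) a a.2
  have hc : Nat.card (P × zpowers y) = p * orderOf y := by rw [Nat.card_prod, hP, Nat.card_zpowers]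
  obtain ⟨q, ρ, hq, h2, h3⟩ : ∃ q ρ, d = orderOf y * q + ρ ∧ 0 < ρ ∧ ρ < orderOf y :=
    ⟨_, _, (Nat.div_add_mod d _).symm, Nat.pos_of_ne_zero fun e => hd (Nat.dvd_of_mod_eq_zero e),
      Nat.mod_lt _ hr.pos⟩
  let f : P × zpowers y → ℂ := (fun k => χ (φ k)) - (s : ℂ) • (fun _ => 1) -
    (q : ℂ) • H11.regChar (P × zpowers y)
  have e : ∀ a b, f (a, b) = χ (a * b) - s - q * H11.regChar (P × zpowers y) (a, b) :=
    fun a b => by simp only [f, Pi.sub_apply, Pi.smul_apply, smul_eq_mul, mul_one]; rfl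
  have e1 : f 1 = (p * ρ : ℤ) := by
    refine (e 1 1).trans ?_
    rw [Prod.mk_one_one, H11.regChar_one, hc, OneMemClass.coe_one, OneMemClass.coe_one, mul_one, h1,
      hq]
    push_cast; ring
  have h4 := lemL (f := f) (fun a b => Prod.ext (cy.commGroup.mul_comm _ _)
    ((inferInstance : IsCyclic (zpowers y)).commGroup.mul_comm _ _))
    (H11.isGen_sub (H11.isGen_sub (H11.isGen_comp (H11.isGen_of_isCharacter hχ) φ)
      (H11.isGen_intCast_smul H11.isGen_one s))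
      (H11.isGen_natCast_smul (H11.isGen_of_isCharacter H11.isCharacter_regChar) q)) e1
  rw [Fintype.sum_prod_type, Finset.sum_eq_single 1 (fun a _ ha => Finset.sum_eq_zero fun b _ => by
    rw [e, h0 a a.2 (fun k => ha (Subtype.ext k)) b b.2,
      H11.regChar_of_ne_one fun k => ha (congrArg Prod.fst k)]; simp) (by simp),
    ← Finset.add_sum_erase _ _ (Finset.mem_univ 1), Prod.mk_one_one, e1, hc,
    Finset.sum_congr rfl (g := fun b : zpowers y => ‖χ b - s‖ ^ 2) fun b hb => by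
      rw [e, H11.regChar_of_ne_one fun k => (Finset.mem_erase.1 hb).1 (congrArg Prod.snd k)]
      simp, Complex.norm_intCast, sq_abs] at h4
  push_cast at h4
  have k1 : (1 : ℝ) ≤ ρ := by exact_mod_cast h2
  have k2 : (ρ : ℝ) + 1 ≤ orderOf y := by exact_mod_cast h3
  nlinarith [mul_nonneg (sq_nonneg (p : ℝ)) (mul_nonneg (sub_nonneg.2 k1) (sub_nonneg.2 k2))]

omit hp in
theorem at_pt {P : Subgroup G} {e t : ℕ} (D : BrPre G p P e t) (ht : 0 < t) {b : G}
    (hb : ¬ p ∣ orderOf b) : t * ∑ χ ∈ D.X, ‖χ.1 b - D.sg χ‖ ^ 2 ≤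
      t * (Nat.card (centralizer ({b} : Set G)) : ℝ) + (e * t + 1) := by
  classical
  have := Fintype.ofFinite (IrrCharacter G)
  obtain ⟨θ, hθ⟩ : D.Y.Nonempty := Finset.card_pos.1 (D.cardY.symm ▸ ht)
  have h1 := congrArg Complex.re (D.rel θ hθ b hb)
  have h2 : ∑ χ ∈ D.X, ‖χ.1 b - D.sg χ‖ ^ 2 =
      ∑ χ ∈ D.X, ‖χ.1 b‖ ^ 2 - 2 * (D.ε * θ.1 b).re + e := by
    rw [h1, Complex.re_sum, Finset.mul_sum, ← Finset.sum_sub_distrib,
      ← congrArg (Nat.cast (R := ℝ)) D.cardX,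
      Finset.card_eq_sum_ones, Nat.cast_sum, ← Finset.sum_add_distrib]
    refine Finset.sum_congr rfl fun χ hχ => ?_
    rcases D.sg_pm χ hχ with k | k <;> simp [k, Complex.sq_norm, Complex.normSq_apply] <;> ring
  have h3 : ∑ χ ∈ D.X, ‖χ.1 b‖ ^ 2 + t * ‖θ.1 b‖ ^ 2 ≤
      (Nat.card (centralizer ({b} : Set G)) : ℝ) := by
    rw [← H11.sum_norm_sq_apply, ← congrArg (Nat.cast (R := ℝ)) D.cardY, ← nsmul_eq_mul, ← Finset.sum_const,
      Finset.sum_congr (s₁ := D.Y) rfl (g := fun χ => ‖χ.1 b‖ ^ 2) fun χ hχ => by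
        rw [D.Y_eq hθ hχ hb], ← Finset.sum_union (Finset.disjoint_left.2 D.disj)]
    exact Finset.sum_le_sum_of_subset_of_nonneg (Finset.subset_univ _) fun _ _ _ => sq_nonneg _
  have h4 : 0 ≤ (t : ℝ) ^ 2 * ‖θ.1 b‖ ^ 2 + 2 * t * (D.ε * θ.1 b).re + 1 := by
    rcases D.eps_pm with k | k <;> simp [k, Complex.sq_norm, Complex.normSq_apply] <;>
      nlinarith [sq_nonneg (t * (θ.1 b).re + 1), sq_nonneg (t * (θ.1 b).re - 1),
        sq_nonneg (t * (θ.1 b).im)]
  rw [h2]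
  nlinarith [mul_le_mul_of_nonneg_left h3 (Nat.cast_nonneg (α := ℝ) t)]

theorem col : ColStmt.{w} := by
  intro G _ _ p hp P u m e t D y hy hr hrp hfix
  classical
  have := Fact.mk hr
  have hn : orderOf y ∣ u * (m + 1) + 1 := by
    have h1 := (IsPGroup.of_card (p := orderOf y) (G := zpowers y) (n := 1) (by
      rw [Nat.card_zpowers, pow_one])).card_modEq_card_fixedPoints (Sylow p G)
    rw [D.hn, show fixedPoints (zpowers y) (Sylow p G) = {P} from Set.eq_singleton_iff_unique_mem.2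
      ⟨fun b => smul_eq_of_mem_centralizer P (zpowers_le.2 hy b.2),
        fun Q hQ => hfix Q (hQ ⟨y, mem_zpowers y⟩)⟩, Nat.card_unique] at h1
    have h2 := (Nat.modEq_iff_dvd' (Nat.le_add_right _ _)).1 h1.symm
    rw [Nat.add_sub_cancel_left] at h2
    exact ((Nat.coprime_primes hr hp.out).2 hrp).dvd_of_dvd_mul_right h2
  have pb : ∀ b ∈ zpowers y, ¬ p ∣ orderOf b := fun b hb k => hrp
    ((Nat.prime_dvd_prime_iff_eq hp.out hr).1 (k.trans (orderOf_dvd_of_mem_zpowers hb))).symm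
  have k1 : ∀ χ ∈ D.A2 ∪ D.B2, χ ∈ D.X ∧ (p : ℝ) ^ 2 * (orderOf y - 1) ≤
      ∑ b ∈ Finset.univ.erase (1 : zpowers y), ‖χ.1 b - D.sg χ‖ ^ 2 := fun χ hχ => by
    obtain ⟨hX, d, h1, h2⟩ : χ ∈ D.X ∧ ∃ d : ℕ, χ.1 1 - D.sg χ = p * d ∧ ¬ orderOf y ∣ d := by
      rcases Finset.mem_union.1 hχ with k | k
      · obtain ⟨k1, k2⟩ := D.mem_A2.1 k
        obtain ⟨k3, -, k4⟩ := D.mem_A.1 k1
        refine ⟨k3, u, by rw [← H21.cast_deg, k2, k4]; push_cast; ring, fun k => hr.one_lt.ne' ?_⟩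
        exact Nat.dvd_one.1 ((Nat.dvd_add_right (k.mul_right _)).1 hn)
      · obtain ⟨k1, k2⟩ := D.mem_B2.1 k
        obtain ⟨k3, k4⟩ := (D.mem_B D.hP).1 k1
        refine ⟨k3, m + 1, ?_, fun k => hr.one_lt.ne' ?_⟩
        · rw [← H21.cast_deg, k4, mul_comm, ← Nat.cast_mul, ← k2]; push_cast; ring
        · exact Nat.dvd_one.1 ((Nat.dvd_add_right (k.mul_left _)).1 hn)
    exact ⟨hX, one D.hP hy hr (H11.irr_isCharacter χ) h1 h2 fun x hx x1 b hb =>
      D.valX χ hX x hx x1 b (zpowers_le.2 hy hb) (pb b hb)⟩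
  have k2 : Nat.card (centralizer ({y} : Set G)) ≤ e *
      Nat.card ↥(centralizer ({y} : Set G) ⊓ centralizer ((P : Subgroup G) : Set G)) := by
    have hle : centralizer ({y} : Set G) ≤ normalizer ((P : Subgroup G) : Set G) := fun g hg =>
      (smul_eq_iff P g).1 (hfix _ (by
        rw [← mul_smul, ← mem_centralizer_singleton_iff.1 hg, mul_smul,
          smul_eq_of_mem_centralizer P hy]))
    rw [H8.card_eq_card_mul_relIndex (inf_le_left (a := centralizer ({y} : Set G))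
      (b := centralizer ((P : Subgroup G) : Set G))), mul_comm, inf_relIndex_left, ← D.he]
    exact Nat.mul_le_mul_right _ (relIndex_le_of_le_right hle index_ne_zero_of_finite)
  have k3 : ∀ b ∈ Finset.univ.erase (1 : zpowers y),
      t * ∑ χ ∈ D.A2 ∪ D.B2, ‖χ.1 b - D.sg χ‖ ^ 2 ≤ p + e * t *
        (Nat.card ↥(centralizer ({y} : Set G) ⊓ centralizer ((P : Subgroup G) : Set G)) : ℝ) :=
    fun b hb => by
      have h1 := at_pt D.toBrPre D.t_pos (pb b b.2)
      rw [centralizer_singleton_eq (Nat.card_zpowers y) b.2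
        (fun k => (Finset.mem_erase.1 hb).1 (Subtype.ext k)),
        ← centralizer_singleton_eq (Nat.card_zpowers y) (mem_zpowers y)
          fun k => hr.one_lt.ne' (by rw [k, orderOf_one])] at h1
      have h2 : (e * t + 1 : ℝ) = p := by exact_mod_cast D.het'
      have h3 := Finset.sum_le_sum_of_subset_of_nonneg (fun χ hχ => (k1 χ hχ).1)
        (f := fun χ => ‖χ.1 b - D.sg χ‖ ^ 2) fun _ _ _ => sq_nonneg _
      have h4 := (Nat.cast_le (α := ℝ)).2 k2
      push_cast at h4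
      nlinarith [mul_le_mul_of_nonneg_left h3 (Nat.cast_nonneg (α := ℝ) t),
        mul_le_mul_of_nonneg_left h4 (Nat.cast_nonneg (α := ℝ) t)]
  have k4 := Finset.sum_le_sum k3
  have k5 := Finset.sum_le_sum fun χ hχ => (k1 χ hχ).2
  rw [← Finset.mul_sum, Finset.sum_comm, Finset.sum_const, Finset.card_erase_of_mem
    (Finset.mem_univ _), Finset.card_univ, ← Nat.card_eq_fintype_card, Nat.card_zpowers,
    nsmul_eq_mul, Nat.cast_sub hr.pos, Nat.cast_one] at k4
  rw [Finset.sum_const, Finset.card_union_of_disjoint (Finset.disjoint_left.2 fun χ h1 h2 => by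
    have := (D.mem_A.1 (D.mem_A2.1 h1).1).2.2
    have := ((D.mem_B D.hP).1 (D.mem_B2.1 h2).1).2
    omega), nsmul_eq_mul] at k5
  have k6 : (0 : ℝ) < orderOf y - 1 := sub_pos.2 (by exact_mod_cast hr.one_lt)
  rw [← Nat.cast_le (α := ℝ)]
  push_cast at k5 ⊢
  refine le_of_mul_le_mul_left ?_ k6
  nlinarith [mul_le_mul_of_nonneg_left k5 (Nat.cast_nonneg (α := ℝ) t)]

end Cfsg.Agent.H3.SqCol
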