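import Cfsg.Agent.H53.TCDefs

/-! Project TC, piece LIN: the primitive linear case. -/

set_option autoImplicit false

namespace Cfsg.Agent.H3.TcLin

open MulAction Cfsg.Agent.H12.RO Cfsg.Agent.H53.MW Cfsg.Agent.H53.TC
open scoped commutatorElement

universe u

theorem exk {r N : ℕ} (hr : r.Prime) (hN : Squarefree N) : ∃ k, k ≡ 1 [MOD r] ∧ N ∣ r * k := by
  by_cases h : r ∣ N
  · obtain ⟨m, rfl⟩ := h
    obtain ⟨k, h1, h2⟩ := Nat.chineseRemainder (Nat.squarefree_mul_iff.1 hN).1 1 0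
    exact ⟨k, h1, Nat.mul_dvd_mul_left r ((Nat.modEq_zero_iff_dvd).1 h2)⟩
  · obtain ⟨k, h1, h2⟩ := Nat.chineseRemainder ((Nat.Prime.coprime_iff_not_dvd hr).2 h) 1 0
    exact ⟨k, h1, ((Nat.modEq_zero_iff_dvd).1 h2).mul_left r⟩

theorem sq_lt (e : ℕ) : e ^ 2 < 3 ^ e := by
  induction e with
  | zero => simp
  | succ e ih =>
    have := Nat.lt_pow_self (n := e) (show 1 < 3 by omega)
    rw [pow_succ 3]; nlinarith

section

variable {G L V K W : Type u} [Group G] [Finite G] [Group.IsSolvable G] [Group L] [Finite L]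
  [AddCommGroup V] [Finite V] [Nontrivial V] [DistribMulAction G V] [DistribMulAction L V] [Field K]
  [Finite K] [Module K V] [AddCommGroup W] [Finite W] [DistribMulAction G W] {σ : G →* RingAut K}
  {U To E M : Subgroup G} {π : G → W} {b : W → W → Kˣ} {e : ℕ}
  (h : Pk G V K W σ U To E M π b e)
include h

omit [Finite G] [Group.IsSolvable G] [Finite V] [Nontrivial V] [Finite K] [Finite W] in
theorem dec (w : W) : ∃ a ∈ To, ∃ c ∈ E, w = π a + π c := by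
  obtain ⟨m, hm, rfl⟩ := h.sec.surj w
  have hm' := hm
  rw [h.M_eq] at hm'
  obtain ⟨u, hu, s, hs, rfl⟩ := mem_M h.toStr hm'
  obtain ⟨a, ha, c, hc, rfl⟩ := h.toStr.mem_T hs
  have m1 : To ⊔ E ≤ M := h.M_eq ▸ le_sup_right
  refine ⟨a, ha, c, hc, ?_⟩
  rw [h.sec.mul _ (h.U_le hu) _ (m1 hs), (h.sec.ker _ (h.U_le hu)).2 hu, zero_add,
    h.sec.mul _ (m1 (Subgroup.mem_sup_left ha)) _ (m1 (Subgroup.mem_sup_right hc))]

omit [Finite G] in
theorem core (l : LocStmt.{u}) {n : ℕ} (hn : LC.{u} n) (hi : Irr G V) (hV : Nat.card V ≤ n)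
    (hf : ∀ f : L, (∀ v : V, f • v = v) → f = 1) (ι : G →* L)
    (hι : ∀ (g : G) (v : V), ι g • v = g • v) (hc : Cl2 G L V) (τ : L →* RingAut K)
    (hτ : ∀ (f : L) (c : K) (v : V), f • c • v = τ f c • f • v) {r k : ℕ} (hr : r.Prime)
    (he : r ∣ e) (hk : k ≡ 1 [MOD r]) (hW : ∀ w : W, (r * k) • w = 0) (T : Subgroup G)
    (Tn : T.Normal) (TM : T ≤ M) (T1 : ∀ t ∈ T, r • π t = 0)
    (T2 : ∀ w : W, ∃ t ∈ T, π t = k • w) (T3 : r ≠ 2 → ∀ t ∈ T, t ^ r = 1)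
    (T4 : r = 2 → T ≤ E) : SolvOn L V := by
  classical
  have inj : Function.Injective ι := (injective_iff_map_eq_one ι).2 fun g hg =>
    h.faith g fun v => by rw [← hι, hg, one_smul]
  have τι : ∀ g, τ (ι g) = σ g := fun g => RingEquiv.ext fun c => by
    obtain ⟨v, hv⟩ := exists_ne (0 : V)
    have := hτ (ι g) c v
    rw [hι, hι, h.semi] at this
    exact (smul_left_injective K ((smul_ne_zero_iff_ne g).2 hv) this).symm
  let R : AddSubgroup W := (nsmulAddMonoidHom r).ker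
  have mR : ∀ {w : W}, w ∈ R ↔ r • w = 0 := Iff.rfl
  have kR : ∀ w ∈ R, k • w = w := fun w hw => by
    obtain ⟨j, hj⟩ : ∃ j, k = 1 + r * j := by
      have := (Nat.modEq_iff_dvd' (show 1 ≤ k from Nat.pos_of_ne_zero fun e => hr.one_lt.ne'
        (Nat.dvd_one.1 ((Nat.modEq_zero_iff_dvd).1 (e ▸ hk).symm)))).1 hk.symm
      obtain ⟨j, hj⟩ := this
      exact ⟨j, by
        have : k ≠ 0 := fun e => hr.one_lt.ne'
          (Nat.dvd_one.1 ((Nat.modEq_zero_iff_dvd).1 (e ▸ hk).symm))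
        omega⟩
    rw [hj, add_nsmul, one_nsmul, mul_nsmul, mR.1 hw, nsmul_zero, add_zero]
  let π' : L → R := fun f =>
    if e : π (Function.invFun ι f) ∈ R then ⟨_, e⟩ else 0
  have p : ∀ t ∈ T, (π' (ι t) : W) = π t := fun t ht => by
    have e := Function.leftInverse_invFun inj t
    simp only [π']
    rw [dif_pos (by rw [e]; exact T1 t ht)]
    exact congrArg π e
  have alt : Alt b := ⟨h.b_add_left, h.b_add_right, h.b_self, h.b_nd⟩
  have := Fact.mk hr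
  refine l n hn L V K R τ ι.range (T.map ι) π' (fun x y => b x y) r ⟨hf, hτ, fun f x y => ?_, ?_,
    ?_, hr, ?_, fun w => ?_, ?_, ?_, ⟨fun x y z => alt.l _ _ _, fun x y z => alt.r _ _ _,
    fun x => alt.self _, fun x hx => Subtype.ext (alt.nd _ fun y => ?_)⟩, ?_,
    fun w => Subtype.ext w.2, ?_, ?_⟩
    (Group.isSolvable_of_surjective ι.rangeRestrict_surjective)
    (fun A hA => hi A fun g v hv => hι g v ▸ hA (ι.rangeRestrict g) v hv) hV ?_
  · obtain ⟨g, h1, h2⟩ := hc f x y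
    exact ⟨ι g, ⟨g, rfl⟩, by rwa [hι], by rwa [hι]⟩
  · rintro _ ⟨g, rfl⟩ _ ⟨t, ht, rfl⟩
    exact ⟨_, Tn.conj_mem t ht g, by simp⟩
  · rintro _ ⟨t, ht, rfl⟩
    rw [τι, h.σM t (TM ht)]
  · rintro _ ⟨s, hs, rfl⟩ _ ⟨t, ht, rfl⟩
    refine Subtype.ext ?_
    rw [← map_mul, AddSubgroup.coe_add, p _ (T.mul_mem hs ht), p s hs, p t ht,
      h.sec.mul _ (TM hs) _ (TM ht)]
  · obtain ⟨t, ht, e⟩ := T2 w
    exact ⟨_, ⟨t, ht, rfl⟩, Subtype.ext (by rw [p t ht, e, kR _ w.2])⟩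
  · rintro _ ⟨t, ht, rfl⟩
    rw [Subtype.ext_iff, p t ht, ZeroMemClass.coe_zero, h.sec.ker t (TM ht)]
    simp only [hι]
    exact ⟨h.Usc t, h.scal t⟩
  · rintro _ ⟨s, hs, rfl⟩ _ ⟨t, ht, rfl⟩ v
    simp only [hι]
    rw [p s hs, p t ht, ← h.hb s (TM hs) t (TM ht)]
    simp [commutatorElement_def, mul_smul]
  · have := hx ⟨k • y, by rw [mR, ← mul_nsmul', hW]⟩
    change b x (k • y) = 1 at this
    rwa [← inv_inv (b _ _), ← alt.swap, alt.nsmul_left, ← inv_pow, ← alt.swap, ← alt.nsmul_left,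
      kR _ x.2] at this
  · obtain ⟨w, hw⟩ := exists_prime_addOrderOf_dvd_card' (G := W) r (by
      rw [h.card]; exact he.trans (dvd_pow_self e two_ne_zero))
    refine ⟨⟨w, by rw [mR, ← hw, addOrderOf_nsmul_eq_zero]⟩, fun e => hr.one_lt.ne' ?_⟩
    rw [← hw, show w = 0 from congrArg Subtype.val e, addOrderOf_zero]
  · rintro e _ ⟨t, ht, rfl⟩
    rw [← map_pow, T3 e t ht, map_one]
  · rintro e _ ⟨t, ht, rfl⟩ k
    rw [Subtype.ext_iff, p t ht, ZeroMemClass.coe_zero, h.sec.ker t (TM ht)] at k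
    rw [← map_pow, h.EU t (T4 e ht) k, map_one]
  · have h1 : Nat.card R ≤ e ^ 2 := h.card ▸ AddSubgroup.card_le_card_addGroup R
    have h2 := Nat.le_of_dvd (Nat.sub_pos_of_lt (Finite.one_lt_card (α := K)))
      ((h.dvd r hr he).trans h.U_dvd)
    have h3 := hr.two_le
    have h4 : Nat.card V = Nat.card K ^ Module.finrank K V := Module.natCard_eq_pow_finrank
    have h5 : 3 ^ e ≤ Nat.card K ^ Module.finrank K V :=
      (Nat.pow_le_pow_right (by omega) h.le).trans (Nat.pow_le_pow_left (by omega) _)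
    have := sq_lt e
    omega

end

theorem lin (l : LocStmt.{u}) : H53.TC.LinStmt.{u} := by
  intro n hn G L V K W _ _ _ _ _ _ _ _ _ _ _ _ _ _ _ _ σ U To E M π b e h hi hV hf ι hι hc hs
  obtain ⟨v₀, hv₀⟩ := exists_ne (0 : V)
  choose τ₀ h₀ using hs
  have ext : ∀ (f : L) (ρ : RingAut K), (∀ c, f • c • v₀ = ρ c • f • v₀) → τ₀ f = ρ :=
    fun f ρ e => RingEquiv.ext fun c =>
      smul_left_injective K ((smul_ne_zero_iff_ne f).2 hv₀) ((h₀ f c v₀).symm.trans (e c))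
  let τ : L →* RingAut K := MonoidHom.mk' τ₀ fun f g => ext _ _ fun c => by
    rw [mul_smul, h₀, h₀, mul_smul]; rfl
  have hτ : ∀ (f : L) (c : K) (v : V), f • c • v = τ f c • f • v := h₀
  rcases h.pos.nat_succ_le.eq_or_lt with he | he
  · have hW : Subsingleton W := (Nat.card_eq_one_iff_unique.1 (by rw [h.card, ← he]; rfl)).1
    obtain ⟨θ, hθ⟩ := exists_gen K
    have k1 : der (⊤ : Subgroup L) 1 ≤ τ.ker := Subgroup.commutator_le.2 fun f _ g _ => by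
      rw [MonoidHom.mem_ker, map_commutatorElement, commutatorElement_eq_one_iff_mul_comm,
        H73.ringAut_mul_comm]
    have k2 : ∀ f ∈ τ.ker, ∀ v : V, ∃ c : K, f • v = c • v := fun f hf v => by
      by_cases hv : v = 0
      · exact ⟨0, by simp [hv]⟩
      obtain ⟨g, e1, e2⟩ := hc f v (θ • v)
      rw [hτ, MonoidHom.mem_ker.1 hf, h.semi, ← e1] at e2
      have e3 := h.kerW g (hθ _ (smul_left_injective K ((smul_ne_zero_iff_ne g).2 hv) e2))
        fun w => Subsingleton.elim _ _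
      obtain ⟨c, e4⟩ := h.Usc g ((h.sec.ker g e3).1 (Subsingleton.elim _ _))
      exact ⟨c, e1 ▸ e4 v⟩
    refine ⟨1 + 1, ?_⟩
    rw [der_add]
    refine triv_der_one fun f hf g hg v => ?_
    obtain ⟨c, e1⟩ := k2 f (k1 hf) v
    obtain ⟨d, e2⟩ := k2 g (k1 hg) v
    rw [e1, e2, hτ, hτ, MonoidHom.mem_ker.1 (k1 hf), MonoidHom.mem_ker.1 (k1 hg), e1, e2]
    exact smul_comm d c v
  obtain ⟨r, hr, hre⟩ := Nat.exists_prime_and_dvd he.ne'
  obtain ⟨m, m1, m2, m3⟩ := h.expo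
  have co : (2 : ℕ).Coprime m := Nat.coprime_two_left.2 m1
  obtain ⟨k, k1, k2⟩ := exk hr (N := 2 * m)
    (Nat.squarefree_mul_iff.2 ⟨co, Nat.prime_two.squarefree, m2⟩)
  have mT : To ≤ M := h.M_eq ▸ le_sup_left.trans le_sup_right
  have mE : E ≤ M := h.M_eq ▸ le_sup_right.trans le_sup_right
  have pT : ∀ j, m ∣ j → ∀ a ∈ To, a ^ j = 1 := by
    rintro _ ⟨j, rfl⟩ a ha; rw [pow_mul, m3 a ha, one_pow]
  have nT : ∀ j, m ∣ j → ∀ a ∈ To, j • π a = 0 := fun j hj a ha => by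
    rw [← h.sec.pow (mT ha), pT j hj a ha, h.sec.one]
  have nE : ∀ j, 2 ∣ j → ∀ a ∈ E, j • π a = 0 := by
    rintro _ ⟨j, rfl⟩ a ha
    rw [mul_nsmul, ← h.sec.pow (mE ha), (h.sec.ker _ (mE (E.pow_mem ha 2))).2 (h.sqE a ha),
      nsmul_zero]
  have d1 : 2 ∣ r * k := (Dvd.intro _ rfl).trans k2
  have d2 : m ∣ r * k := (Dvd.intro_left _ rfl).trans k2
  have hW : ∀ w : W, (r * k) • w = 0 := fun w => by
    obtain ⟨a, ha, c, hc, rfl⟩ := dec h w
    rw [nsmul_add, nT _ d2 a ha, nE _ d1 c hc, add_zero]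
  by_cases r2 : r = 2
  · subst r2
    refine core h l hn hi hV hf ι hι hc τ hτ hr hre k1 hW E h.En mE (nE 2 dvd_rfl) (fun w => ?_)
      (fun e => absurd rfl e) fun _ => le_rfl
    obtain ⟨a, ha, c, hc, rfl⟩ := dec h w
    exact ⟨_, E.pow_mem hc k, by
      rw [nsmul_add, nT _ (co.symm.dvd_of_dvd_mul_left d2) a ha, zero_add, h.sec.pow (mE hc)]⟩
  have ro := hr.odd_of_ne_two r2
  let T : Subgroup G :=
    { carrier := {t | t ∈ To ∧ t ^ r = 1}
      one_mem' := ⟨To.one_mem, one_pow r⟩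
      mul_mem' := fun {s t} hs ht => ⟨To.mul_mem hs.1 ht.1, by
        have hu := h.commT t ht.1 s hs.1
        have c1 := h.toStr.comm_U (h.σT s hs.1) hu
        have c2 := h.toStr.comm_U (h.σT t ht.1) hu
        obtain ⟨j, hj⟩ : r ∣ r.choose 2 := hr.dvd_choose_self two_ne_zero
          (lt_of_le_of_ne hr.two_le (Ne.symm r2))
        rw [mul_pow_cls2 (swap_comm c1 c2) c1 c2, hs.2, ht.2, hj, pow_mul,
          comm_pow_eq_one c1 c2 (by rw [ht.2]; exact Commute.one_left _)]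
        simp⟩
      inv_mem' := fun {t} ht => ⟨To.inv_mem ht.1, by rw [inv_pow, ht.2, inv_one]⟩ }
  refine core h l hn hi hV hf ι hι hc τ hτ hr hre k1 hW T
    ⟨fun t ht g => ⟨h.Ton.conj_mem t ht.1 g, by rw [conj_pow, ht.2]; simp⟩⟩ (fun t ht => mT ht.1)
    (fun t ht => by rw [← h.sec.pow (mT ht.1), ht.2, h.sec.one]) (fun w => ?_) (fun _ t ht => ht.2)
    fun e => absurd e r2
  obtain ⟨a, ha, c, hc, rfl⟩ := dec h w
  exact ⟨a ^ k, ⟨To.pow_mem ha k, by rw [← pow_mul, mul_comm, pT _ d2 a ha]⟩, by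
    rw [nsmul_add, nE _ ((Nat.coprime_two_left.2 ro).dvd_of_dvd_mul_left d1) c hc, add_zero,
      h.sec.pow (mT ha)]⟩

end Cfsg.Agent.H3.TcLin
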