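import Cfsg.Agent.H3.UQKL2b

/-! Two elementary abelian subgroups generating a group of class two: a normal abelian subgroup
that is central and commutatorial in a subgroup of the overgroup is elementary. -/

set_option autoImplicit false

namespace Cfsg.Agent.H3.UQI

open Subgroup Cfsg.Agent.H83 Cfsg.Agent.H3.UQK
open Cfsg.Agent.H62 (EA)
open scoped commutatorElement

universe u

variable {G : Type u} [Group G] [Finite G] {U A₁ A₂ Z T Y W : Subgroup G} {a b g s w y : G}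
  (h : Pr2 U A₁ A₂ Z)
include h

theorem not_norm₂ (hg : g ∈ normalizer (U : Set G)) (h1 : g ∉ normalizer (A₁ : Set G)) :
    g ∉ normalizer (A₂ : Set G) := fun e => h1 (h.symm.norm₂ hg e)

theorem mul_iff (ha : a ∈ normalizer (U : Set G)) (hb : b ∈ normalizer (U : Set G)) :
    a * b ∈ normalizer (A₁ : Set G) ↔
      (a ∈ normalizer (A₁ : Set G) ↔ b ∈ normalizer (A₁ : Set G)) := by
  by_cases h1 : a ∈ normalizer (A₁ : Set G)
  · simp [h1, mul_mem_cancel_left h1]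
  by_cases h2 : b ∈ normalizer (A₁ : Set G)
  · simp [h1, h2, mul_mem_cancel_right h2]
  simp only [h1, h2, iff_true]
  rw [← cj_eq_self_iff, cj_mul, (h.swap hb h2).1, (h.swap ha h1).2]

theorem comm_norm (ha : a ∈ normalizer (U : Set G)) (hb : b ∈ normalizer (U : Set G)) :
    ⁅a, b⁆ ∈ normalizer (A₁ : Set G) := by
  rw [commutatorElement_def, mul_assoc, mul_iff h (mul_mem ha hb) (mul_mem (inv_mem ha) (inv_mem hb)),
    mul_iff h ha hb, mul_iff h (inv_mem ha) (inv_mem hb), inv_mem_iff, inv_mem_iff]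

theorem normZ : normalizer (U : Set G) ≤ normalizer (Z : Set G) := fun g hg => by
  rw [← cj_eq_self_iff, ← h.inf, cj_inf]
  by_cases h1 : g ∈ normalizer (A₁ : Set G)
  · rw [cj_eq_self h1, cj_eq_self (h.norm₂ hg h1)]
  · rw [(h.swap hg h1).1, (h.swap hg h1).2, inf_comm]

theorem conj_swap (hs : s ∈ normalizer (U : Set G)) (h1 : s ∉ normalizer (A₁ : Set G))
    (ha : a ∈ A₁) : s * a * s⁻¹ ∈ A₂ := (h.swap hs h1).1 ▸ conj_mem_cj ha

/-- An abelian subgroup normalized by a swapping element meets `A₁` inside `Z`. -/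
theorem inf_le_Z (hs : s ∈ normalizer (U : Set G)) (h1 : s ∉ normalizer (A₁ : Set G))
    (hW : s ∈ normalizer (W : Set G)) (hc : W ≤ centralizer (W : Set G)) (hw : w ∈ W)
    (ha : w ∈ A₁) : w ∈ Z := by
  refine h.memZ ha ?_
  rcases h.nc w ha _ (conj_swap h hs h1 ha) (hc (conj_mem le_rfl hW hw) w hw) with e | e
  · exact e
  · simpa [mul_assoc] using conj_swap h (inv_mem hs) (by rwa [inv_mem_iff]) e

theorem mem_Z_of_comm (hy : y ∈ U) (h2 : y * y ≠ 1) (ha : a ∈ A₁) (e : y * a = a * y) : a ∈ Z := by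
  obtain ⟨c, hc, d, hd, rfl⟩ := h.dec hy
  refine h.memZ ha ((h.nc a ha d hd ?_).resolve_right fun e' => h2 (h.ea₁ _ (mul_mem hc e')))
  rw [← mul_assoc, h.ea₁.comm ha hc, mul_assoc, mul_assoc] at e
  exact (mul_left_cancel e).symm

omit [Finite G] in
theorem comm_cent (hy : y ∈ U) (hg : g ∈ normalizer (U : Set G)) (h1 : g * y = y * g)
    (h2 : ∀ u ∈ U, g * ⁅y, u⁆ = ⁅y, u⁆ * g) (ha : a ∈ U) : y * ⁅g, a⁆ = ⁅g, a⁆ * y := by
  have h3 := conj_mem le_rfl hg ha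
  have h5 : ⁅y, g * a * g⁻¹⁆ = ⁅y, a⁆ := by
    calc _ = ⁅g * y * g⁻¹, g * a * g⁻¹⁆ := by rw [h1, mul_inv_cancel_right]
      _ = g * ⁅y, a⁆ * g⁻¹ := (conjugate_commutatorElement ..).symm
      _ = _ := by rw [h2 a ha, mul_inv_cancel_right]
  rw [← commutatorElement_eq_one_iff_mul_comm, commutatorElement_def g, h.mul_r hy h3 (inv_mem ha),
    h5, ← h.mul_r hy ha (inv_mem ha), mul_inv_cancel, commutatorElement_one_right]

theorem comm_swap (hy : y ∈ U) (h2 : y * y ≠ 1) (hg : g ∈ normalizer (U : Set G))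
    (hn : g ∉ normalizer (A₁ : Set G)) (hc : ∀ u ∈ U, y * ⁅g, u⁆ = ⁅g, u⁆ * y) (hw : w ∈ U)
    (e : y * w = w * y) : ⁅g, w⁆ ∈ Z := by
  obtain ⟨c, hc', d, hd, rfl⟩ := h.dec hw
  have h3 : ⁅g, c⁆ * (c * d) ∈ Z := by
    refine mem_Z_of_comm h.symm hy h2 ?_ (Commute.mul_right (hc c (h.le₁ hc')) e)
    simpa [commutatorElement_def] using mul_mem (conj_swap h hg hn hc') hd
  have h4 : ⁅g, d⁆ * (c * d)⁻¹ ∈ Z := by
    refine mem_Z_of_comm h hy h2 ?_ (Commute.mul_right (hc d (h.symm.le₁ hd)) (Commute.inv_right e))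
    rw [show ⁅g, d⁆ * (c * d)⁻¹ = g * d * g⁻¹ * (d * d)⁻¹ * c⁻¹ by
      simp only [commutatorElement_def]; group, h.ea₂ d hd, inv_one, mul_one]
    exact mul_mem (conj_swap h.symm hg (not_norm₂ h hg hn) hd) (inv_mem hc')
  have h5 := mul_mem (mul_mem h3 (conj_mem' (le_normalizer.trans (normZ h)) (h.symm.le₁ hd) h4))
    (h.cm _ (inv_mem (h.symm.le₁ hd)) _ (h.le₁ hc'))
  convert h5 using 1
  simp only [commutatorElement_def]
  group

/-- A normal subgroup contained in the centre and in the derived group of `Y` is elementary. -/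
theorem ea_of_swap (hU : U ≤ T) (hT : T ≤ normalizer (U : Set G))
    (lin : ∀ g ∈ T, (∀ u ∈ U, ⁅g, u⁆ ∈ Z) → g ∈ U) (hs : s ∈ T)
    (h1 : s ∉ normalizer (A₁ : Set G)) (hY : Y ≤ T) (hW : T ≤ normalizer (W : Set G))
    (h2 : W ≤ ⁅Y, Y⁆) (h3 : W ≤ centralizer (Y : Set G)) : EA W := fun y hy => by
  by_contra h0
  have hWY : W ≤ Y := h2.trans (comm_le_left le_normalizer)
  have hc : W ≤ centralizer (W : Set G) := h3.trans (cent_anti hWY)
  have cW : ∀ u ∈ U, ⁅y, u⁆ ∈ W := fun u hu =>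
    comm_le_left hW (commutator_mem_commutator hy (hU hu))
  have n1 : y ∈ normalizer (A₁ : Set G) :=
    commutator_le.2 (fun a ha b hb => comm_norm h (hT (hY ha)) (hT (hY hb))) (h2 hy)
  have cA : ∀ {A : Subgroup G} {g a : G}, g ∈ normalizer (A : Set G) → a ∈ A → ⁅g, a⁆ ∈ A :=
    fun hg ha => mul_mem (conj_mem le_rfl hg ha) (inv_mem ha)
  have hyU : y ∈ U := lin y (hY (hWY hy)) (h.comm_mem
    (fun a ha => inf_le_Z h (hT hs) h1 (hW hs) hc (cW a (h.le₁ ha)) (cA n1 ha))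
    fun a ha => inf_le_Z h.symm (hT hs) (not_norm₂ h (hT hs) h1) (hW hs) hc (cW a (h.symm.le₁ ha))
      (cA (h.norm₂ (hT (hY (hWY hy))) n1) ha))
  have c1 : ∀ g ∈ Y, ∀ u ∈ U, y * ⁅g, u⁆ = ⁅g, u⁆ * y := fun g hg u hu =>
    comm_cent h hyU (hT (hY hg)) (h3 hy g hg) (fun u hu => h3 (cW u hu) g hg) hu
  have c2 : ∀ g ∈ Y, g ∈ normalizer (A₁ : Set G) → g ∈ U := fun g hg hn => lin g (hY hg) (h.comm_mem
    (fun a ha => mem_Z_of_comm h hyU h0 (cA hn ha) (c1 g hg a (h.le₁ ha)))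
    fun a ha => mem_Z_of_comm h.symm hyU h0 (cA (h.norm₂ (hT (hY hg)) hn) ha)
      (c1 g hg a (h.symm.le₁ ha)))
  have c3 : ∀ g ∈ Y, ∀ w ∈ Y, w ∈ normalizer (A₁ : Set G) → ⁅g, w⁆ ∈ Z := fun g hg w hw hn => by
    by_cases hn' : g ∈ normalizer (A₁ : Set G)
    · exact h.cm g (c2 g hg hn') w (c2 w hw hn)
    · exact comm_swap h hyU h0 (hT (hY hg)) hn' (c1 g hg) (c2 w hw hn) (h3 hy w hw).symm
  refine h0 (h.ea₁ y (h.Z₁ (commutator_le.2 (fun a ha b hb => ?_) (h2 hy))))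
  by_cases ha' : a ∈ normalizer (A₁ : Set G)
  · rw [← commutatorElement_inv]
    exact inv_mem (c3 b hb a ha ha')
  by_cases hb' : b ∈ normalizer (A₁ : Set G)
  · exact c3 a ha b hb hb'
  have := c3 a ha _ (mul_mem hb (inv_mem ha))
    ((mul_iff h (hT (hY hb)) (inv_mem (hT (hY ha)))).2 (by simp [ha', hb']))
  convert this using 1
  simp only [commutatorElement_def]
  group

end Cfsg.Agent.H3.UQI
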