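import Cfsg.Agent.H83.Misc
import Cfsg.Agent.H62.CITLocal
import Cfsg.Agent.H92.FrobAut

/-!
# Elementary abelian `2`-groups of automorphisms of a finite presemifield of even order
-/

set_option autoImplicit false

namespace Cfsg.Agent.H3.UQK

open Subgroup Cfsg.Agent.H83
open Cfsg.Agent.H62 (EA)
open scoped Pointwise commutatorElement

universe u v

/-- Counting along a map which is multiplicative on a subgroup. -/
theorem card_hom {G V : Type*} [Group G] [Group V] [Finite G] {S : Subgroup G} (f : G → V)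
    (hf : ∀ x ∈ S, ∀ y ∈ S, f (x * y) = f x * f y) : ∃ (N : Subgroup G) (C : Subgroup V),
      (∀ x, x ∈ N ↔ x ∈ S ∧ f x = 1) ∧ (∀ v, v ∈ C ↔ ∃ x ∈ S, f x = v) ∧
        Nat.card S = Nat.card C * Nat.card N := by
  let F : S →* V := MonoidHom.mk' (fun x => f x) fun x y => hf x x.2 y y.2
  refine ⟨F.ker.map S.subtype, F.range, fun x => ⟨?_, fun h => ⟨⟨x, h.1⟩, h.2, rfl⟩⟩,
    fun v => ⟨?_, fun ⟨x, hx, e⟩ => ⟨⟨x, hx⟩, e⟩⟩, ?_⟩
  · rintro ⟨y, hy, rfl⟩
    exact ⟨y.2, hy⟩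
  · rintro ⟨y, rfl⟩
    exact ⟨y, y.2, rfl⟩
  · rw [card_map_subtype, ← F.ker.card_mul_index, index_ker, mul_comm]

theorem card_le_of_hom {G V : Type*} [Group G] [Group V] [Finite G] [Finite V] {S N : Subgroup G}
    {C : Subgroup V} (f : G → V) (hf : ∀ x ∈ S, ∀ y ∈ S, f (x * y) = f x * f y)
    (hC : ∀ x ∈ S, f x ∈ C) (hN : ∀ x ∈ S, f x = 1 → x ∈ N) :
    Nat.card S ≤ Nat.card C * Nat.card N := by
  obtain ⟨N', C', h1, h2, e⟩ := card_hom f hf
  refine e ▸ Nat.mul_le_mul (card_le_of_le fun v hv => ?_) (card_le_of_le fun x hx =>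
    hN x ((h1 x).1 hx).1 ((h1 x).1 hx).2)
  obtain ⟨x, hx, rfl⟩ := (h2 v).1 hv
  exact hC x hx

section Semifield

variable {V W : Type*} [Group V] [Group W] (ρ : W →* MulAut V)

/-- The fixed points of a subgroup. -/
def fx (S : Subgroup W) : Subgroup V where
  carrier := {v | ∀ g ∈ S, ρ g v = v}
  one_mem' _ _ := map_one _
  mul_mem' ha hb g hg := by rw [map_mul, ha g hg, hb g hg]
  inv_mem' ha g hg := by rw [map_inv, ha g hg]

/-- The pointwise stabilizer of a subgroup. -/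
def st (C : Subgroup V) : Subgroup W where
  carrier := {g | ∀ v ∈ C, ρ g v = v}
  one_mem' _ _ := by rw [map_one]; rfl
  mul_mem' ha hb v hv := by rw [map_mul, MulAut.mul_apply, hb v hv, ha v hv]
  inv_mem' {g} ha v hv := by rw [map_inv, MulAut.inv_def, MulEquiv.symm_apply_eq, ha v hv]

/-- The fixed points of an element. -/
def f1 (g : W) : Subgroup V := (ρ g).toMonoidHom.eqLocus (MonoidHom.id V)

/-- An action on a presemifield. -/
structure SF (μ : V → V → V) : Prop where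
  sV : ∀ v : V, v * v = 1
  sW : ∀ g : W, g * g = 1
  l : ∀ x x' y, μ (x * x') y = μ x y * μ x' y
  r : ∀ x y y', μ x (y * y') = μ x y * μ x y'
  eqv : ∀ g x y, ρ g (μ x y) = μ (ρ g x) (ρ g y)
  nz : ∀ x y, μ x y = 1 → x = 1 ∨ y = 1

variable {ρ}

theorem mem_f1 {g : W} {v : V} : v ∈ f1 ρ g ↔ ρ g v = v := Iff.rfl

theorem exists_ne_of_notMem {g : W} {C : Subgroup V} (h : g ∉ st ρ C) : ∃ y ∈ C, ρ g y ≠ y := by
  by_contra h5
  push Not at h5
  exact h h5

variable {μ : V → V → V} (h : SF ρ μ) [Finite V] [Finite W]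
include h

omit [Finite V] [Finite W] in
theorem SF.cV (x y : V) : x * y = y * x :=
  EA.comm (A := ⊤) (fun v _ => h.sV v) trivial trivial

omit [Finite V] [Finite W] in
theorem SF.cW (x y : W) : x * y = y * x :=
  EA.comm (A := ⊤) (fun v _ => h.sW v) trivial trivial

omit [Finite V] [Finite W] in
theorem SF.eq_iff {x y : V} : x * y = 1 ↔ x = y :=
  ⟨fun e => mul_right_cancel (e.trans (h.sV y).symm), fun e => e ▸ h.sV x⟩

omit [Finite V] [Finite W] in
theorem SF.mem {S : Subgroup W} {g : W} {v : V} (hv : v ∈ fx ρ S) :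
    ρ g v * v ∈ fx ρ S ⊓ f1 ρ g := by
  refine ⟨mul_mem (fun k hk => ?_) hv, mem_f1.2 ?_⟩
  · rw [← MulAut.mul_apply, ← map_mul, h.cW, map_mul, MulAut.mul_apply, hv k hk]
  · rw [map_mul, ← MulAut.mul_apply, ← map_mul, h.sW, map_one, h.cV]
    rfl

omit [Finite W] in
/-- The involutions are Baer involutions. -/
theorem SF.baer {S : Subgroup W} {g : W} (hg : g ∉ st ρ (fx ρ S)) :
    Nat.card (fx ρ S) = Nat.card ↥(fx ρ S ⊓ f1 ρ g) ^ 2 := by
  obtain ⟨N, C, h1, h2, e⟩ := card_hom (S := fx ρ S) (fun v => ρ g v * v) fun x _ y _ => by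
    rw [map_mul, mul_assoc, mul_assoc, ← mul_assoc (ρ g y), h.cV (ρ g y) x, mul_assoc]
  have h3 : N = fx ρ S ⊓ f1 ρ g := Subgroup.ext fun x =>
    (h1 x).trans (and_congr_right fun _ => h.eq_iff)
  have h4 : C ≤ N := fun v hv => by
    obtain ⟨x, hx, rfl⟩ := (h2 v).1 hv
    exact h3 ▸ h.mem hx
  obtain ⟨y, hy, hy'⟩ := exists_ne_of_notMem hg
  have h5 := card_le_of_hom (S := N) (N := ⊥) (C := C) (fun x => μ x (ρ g y * y))
    (fun x _ x' _ => h.l ..) (fun x hx => (h2 _).2 ⟨μ x y, fun k hk => by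
      rw [h.eqv, (h3.le hx).1 k hk, hy k hk], by rw [h.eqv, mem_f1.1 (h3.le hx).2, h.r]⟩)
    fun x _ e => (h.nz _ _ e).resolve_right fun e => hy' (h.eq_iff.1 e)
  rw [card_bot, mul_one] at h5
  rw [e, ← h3, le_antisymm (card_le_of_le h4) h5, sq]

theorem SF.bound_aux (S : Subgroup W) : st ρ (fx ρ S) ≤ S → S ≠ ⊤ →
    S.index * Nat.card (fx ρ ⊤) ^ 2 < Nat.card (fx ρ S) ^ 2 := by
  induction S using WellFoundedGT.induction with
  | ind S ih =>
  intro h1 h2
  obtain ⟨g, -, hg⟩ := SetLike.exists_of_lt (lt_top_iff_ne_top.2 h2)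
  have hg' : g ∉ st ρ (fx ρ S) := fun e => hg (h1 e)
  set C := fx ρ S ⊓ f1 ρ g with hC
  have h3 : S ≤ st ρ C := fun k hk v hv => hv.1 k hk
  have h4 : g ∈ st ρ C := fun v hv => hv.2
  have h5 : fx ρ (st ρ C) = C := le_antisymm
    (fun v hv => ⟨fun k hk => hv k (h3 hk), hv g h4⟩) fun v hv k hk => hk v hv
  have h6 : (st ρ C).index * Nat.card (fx ρ ⊤) ^ 2 ≤ Nat.card C ^ 2 := by
    by_cases e : st ρ C = ⊤
    · rw [e] at h5
      rw [e, h5, index_top, one_mul]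
    · have := ih _ (lt_of_le_of_ne h3 fun e => hg (e ▸ h4)) (by rw [h5]) e
      rw [h5] at this
      exact this.le
  obtain ⟨y, hy, hy'⟩ := exists_ne_of_notMem hg'
  have h7 : ∀ k ∈ st ρ C, k ∉ S → C = fx ρ S ⊓ f1 ρ k := fun k hk hk' =>
    eq_of_le_of_card_ge (le_inf inf_le_left fun v hv => hk v hv)
      (Nat.pow_left_injective two_ne_zero ((h.baer fun e => hk' (h1 e)).symm.trans
        (h.baer hg'))).le
  have h8 : ∀ k ∈ st ρ C, ρ k y * y ∈ C := fun k hk => by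
    by_cases e : k ∈ S
    · rw [hy k e, h.sV]; exact one_mem _
    · exact (h7 k hk e).ge (h.mem hy)
  have h9 := card_le_of_hom (S := st ρ C) (N := S) (C := C) (fun k => ρ k y * y)
    (fun k hk j hj => by
      have := hk _ (h8 j hj)
      rw [map_mul] at this
      rw [map_mul, MulAut.mul_apply, ← this, h.cV (ρ k y), mul_assoc, h.cV (ρ k (ρ j y)) (ρ k y),
        ← mul_assoc (ρ k y), h.sV, one_mul, h.cV]) h8
    fun k hk e => by
      by_contra e'
      exact hy' ((h7 k hk e').ge ⟨hy, h.eq_iff.1 e⟩).2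
  have h10 : S.index ≤ (st ρ C).index * Nat.card C := by
    refine Nat.le_of_mul_le_mul_left ?_ (Nat.card_pos (α := S))
    rw [S.card_mul_index, ← (st ρ C).card_mul_index]
    nlinarith
  have h11 : Nat.card C < Nat.card (fx ρ S) := not_le.1 fun e =>
    hy' ((eq_of_le_of_card_ge inf_le_left e).ge hy).2
  have h12 := h.baer hg'
  rw [← hC] at h12
  calc _ ≤ (st ρ C).index * Nat.card (fx ρ ⊤) ^ 2 * Nat.card C := by nlinarith
    _ ≤ Nat.card C ^ 2 * Nat.card C := Nat.mul_le_mul_right _ h6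
    _ < _ := by
      rw [← h12, sq]
      exact Nat.mul_lt_mul_of_pos_left h11 Nat.card_pos

theorem SF.bound (h0 : st ρ ⊤ ≠ ⊤) :
    (st ρ ⊤).index * Nat.card (fx ρ ⊤) ^ 2 < Nat.card V ^ 2 := by
  have e : fx ρ (st ρ ⊤) = ⊤ := eq_top_iff.2 fun v hv k hk => hk v hv
  have := h.bound_aux (st ρ ⊤) (by rw [e]) h0
  rwa [e, card_top] at this

end Semifield

/-- The action on a section. -/
theorem exists_sec {G : Type u} [Group G] [Finite G] {Z Y E : Subgroup G} (h : Y ≤ Z)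
    (h0 : Z ≤ normalizer (Y : Set G)) (h1 : E ≤ normalizer (Z : Set G))
    (h2 : E ≤ normalizer (Y : Set G)) :
    ∃ (V : Type u) (_ : Group V) (_ : Finite V) (π : G → V) (ρ : E →* MulAut V),
      (∀ x ∈ Z, ∀ y ∈ Z, π (x * y) = π x * π y) ∧ (∀ x ∈ Z, π x = 1 ↔ x ∈ Y) ∧
      (∀ v, ∃ x ∈ Z, π x = v) ∧ (∀ g : E, ∀ x ∈ Z, π (g * x * (g : G)⁻¹) = ρ g (π x)) ∧
      Nat.card Z = Nat.card V * Nat.card Y := by
  classical
  have : (Y.subgroupOf Z).Normal := (normal_subgroupOf_iff_le_normalizer h).2 h0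
  let φ : E →* MulAut Z := Z.normalizerMonoidHom.comp (inclusion h1)
  refine ⟨Z ⧸ Y.subgroupOf Z, inferInstance, inferInstance,
    fun x => if hx : x ∈ Z then ((⟨x, hx⟩ : Z) : Z ⧸ Y.subgroupOf Z) else 1,
    H92.quoAut φ _ fun a n hn => conj_mem h2 a.2 hn, fun x hx y hy => ?_, fun x hx => ?_,
    fun v => ?_, fun g x hx => ?_, ?_⟩
  · simp only [hx, hy, mul_mem hx hy, dif_pos]
    rfl
  · simp only [hx, dif_pos, QuotientGroup.eq_one_iff, mem_subgroupOf]
  · obtain ⟨x, rfl⟩ := QuotientGroup.mk_surjective v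
    exact ⟨x, x.2, by simp⟩
  · simp only [hx, conj_mem h1 g.2 hx, dif_pos]
    rfl
  · rw [← H83.card_subgroupOf h, ← (Y.subgroupOf Z).card_mul_index, mul_comm]
    rfl

end Cfsg.Agent.H3.UQK
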