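import Cfsg.Agent.H3.UQKL2a
import Cfsg.Agent.H54.Comm

/-!
# Elementary abelian subgroups of a `2`-group over a product of two elementary abelian groups
-/

set_option autoImplicit false

namespace Cfsg.Agent.H3.UQK

open Subgroup Cfsg.Agent.H83
open Cfsg.Agent.H62 (EA)
open scoped Pointwise commutatorElement

universe u v

/-- A group of class two which is the product of two elementary abelian subgroups. -/
structure Pr1 {G : Type u} [Group G] (U A₁ A₂ Z : Subgroup G) : Prop where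
  ea₁ : EA A₁
  ea₂ : EA A₂
  sup : A₁ ⊔ A₂ = U
  inf : A₁ ⊓ A₂ = Z
  cm : ∀ a ∈ U, ∀ b ∈ U, ⁅a, b⁆ ∈ Z

/-- The commutator map has no zero divisors. -/
structure Pr2 {G : Type u} [Group G] (U A₁ A₂ Z : Subgroup G) : Prop extends Pr1 U A₁ A₂ Z where
  nc : ∀ a ∈ A₁, ∀ b ∈ A₂, a * b = b * a → a ∈ A₂ ∨ b ∈ A₁
  card : Nat.card A₂ = Nat.card A₁
  four : 4 * Nat.card Z ≤ Nat.card A₁

/-- The commutator map has no zero divisors modulo `Y`. -/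
structure Pr3 {G : Type u} [Group G] (U A₁ A₂ Z Y : Subgroup G) : Prop extends Pr2 U A₁ A₂ Z where
  le : Y ≤ Z
  nz : ∀ a ∈ A₁, ∀ b ∈ A₂, ⁅a, b⁆ ∈ Y → a ∈ A₂ ∨ b ∈ A₁
  cardY : Nat.card Z * Nat.card Z ≤ Nat.card A₁ * Nat.card Y

variable {G : Type u} [Group G] {U A₁ A₂ Z Y : Subgroup G}

namespace Pr1

variable (h : Pr1 U A₁ A₂ Z)
include h

theorem symm : Pr1 U A₂ A₁ Z where
  ea₁ := h.ea₂
  ea₂ := h.ea₁
  sup := (sup_comm ..).trans h.sup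
  inf := (inf_comm ..).trans h.inf
  cm := h.cm

theorem le₁ : A₁ ≤ U := le_sup_left.trans h.sup.le

theorem Z₁ : Z ≤ A₁ := h.inf.ge.trans inf_le_left

theorem memZ {a : G} (h1 : a ∈ A₁) (h2 : a ∈ A₂) : a ∈ Z := h.inf.le ⟨h1, h2⟩

theorem cen {z u : G} (hz : z ∈ Z) (hu : u ∈ U) : u * z = z * u :=
  mem_centralizer_singleton_iff.1 (sup_le (a := A₁) (b := A₂) (c := centralizer {z})
    (fun _ ha => mem_centralizer_singleton_iff.2 (h.ea₁.comm ha (h.Z₁ hz)))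
    (fun _ ha => mem_centralizer_singleton_iff.2 (h.ea₂.comm ha (h.symm.Z₁ hz))) (h.sup.ge hu))

theorem mul_l {a a' b : G} (ha : a ∈ U) (ha' : a' ∈ U) (hb : b ∈ U) :
    ⁅a * a', b⁆ = ⁅a, b⁆ * ⁅a', b⁆ := by
  rw [show ⁅a * a', b⁆ = a * ⁅a', b⁆ * a⁻¹ * ⁅a, b⁆ by simp only [commutatorElement_def]; group,
    h.cen (h.cm _ ha' _ hb) ha, mul_inv_cancel_right,
    h.cen (h.cm _ ha _ hb) (h.le₁ (h.Z₁ (h.cm _ ha' _ hb)))]

theorem mul_r {a b b' : G} (ha : a ∈ U) (hb : b ∈ U) (hb' : b' ∈ U) :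
    ⁅a, b * b'⁆ = ⁅a, b⁆ * ⁅a, b'⁆ := by
  rw [show ⁅a, b * b'⁆ = ⁅a, b⁆ * (b * ⁅a, b'⁆ * b⁻¹) by simp only [commutatorElement_def]; group,
    h.cen (h.cm _ ha _ hb') hb, mul_inv_cancel_right]

theorem eq_l {a a' b : G} (ha : a ∈ U) (hb : b ∈ U) (e : a' * a⁻¹ ∈ Z) : ⁅a', b⁆ = ⁅a, b⁆ := by
  rw [← inv_mul_cancel_right a' a, h.mul_l (h.le₁ (h.Z₁ e)) ha hb,
    commutatorElement_eq_one_iff_mul_comm.2 (h.cen e hb).symm, one_mul]

theorem eq_r {a b b' : G} (ha : a ∈ U) (hb : b ∈ U) (e : b' * b⁻¹ ∈ Z) : ⁅a, b'⁆ = ⁅a, b⁆ := by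
  rw [← commutatorElement_inv, h.eq_l hb ha e, commutatorElement_inv]

variable [Finite G]

theorem norm₁ : U ≤ normalizer (A₁ : Set G) := fun u hu => mem_normalizer_fintype fun a ha => by
  simpa [commutatorElement_def] using mul_mem (h.Z₁ (h.cm u hu a (h.le₁ ha))) ha

theorem dec {u : G} (hu : u ∈ U) : ∃ a ∈ A₁, ∃ b ∈ A₂, a * b = u :=
  (mem_sup_right_norm (h.le₁.trans h.symm.norm₁)).1 (h.sup.ge hu)

theorem comm_mem {g : G} (h1 : ∀ a ∈ A₁, ⁅g, a⁆ ∈ Z) (h2 : ∀ a ∈ A₂, ⁅g, a⁆ ∈ Z) :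
    ∀ u ∈ U, ⁅g, u⁆ ∈ Z := fun u hu => by
  obtain ⟨a, ha, b, hb, rfl⟩ := h.dec hu
  rw [show ⁅g, a * b⁆ = ⁅g, a⁆ * (a * ⁅g, b⁆ * a⁻¹) by simp only [commutatorElement_def]; group,
    h.cen (h2 b hb) (h.le₁ ha), mul_inv_cancel_right]
  exact mul_mem (h1 a ha) (h2 b hb)

end Pr1

namespace Pr2

variable (h : Pr2 U A₁ A₂ Z)
include h

theorem symm : Pr2 U A₂ A₁ Z where
  toPr1 := h.toPr1.symm
  nc a ha b hb e := (h.nc b hb a ha e.symm).symm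
  card := h.card.symm
  four := h.card ▸ h.four

variable [Finite G]

theorem invol {u : G} (hu : u ∈ U) (h2 : u * u = 1) : u ∈ A₁ ∨ u ∈ A₂ := by
  obtain ⟨a, ha, b, hb, rfl⟩ := h.dec hu
  rcases h.nc a ha b hb (by
    rw [← inv_eq_of_mul_eq_one_right h2, mul_inv_rev, h.ea₁.inv ha, h.ea₂.inv hb]) with e | e
  exacts [Or.inr (mul_mem e hb), Or.inl (mul_mem ha e)]

theorem le_or {B : Subgroup G} (h1 : B ≤ U) (h2 : EA B) : B ≤ A₁ ∨ B ≤ A₂ := by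
  by_contra h0
  obtain ⟨⟨x, hx, hx'⟩, y, hy, hy'⟩ :=
    (not_or.1 h0).imp SetLike.not_le_iff_exists.1 SetLike.not_le_iff_exists.1
  rcases h.invol (h1 (mul_mem hx hy)) (h2 _ (mul_mem hx hy)) with h3 | h3
  · exact hx' ((mul_mem_cancel_right ((h.invol (h1 hy) (h2 y hy)).resolve_right hy')).1 h3)
  · exact hy' ((mul_mem_cancel_left ((h.invol (h1 hx) (h2 x hx)).resolve_left hx')).1 h3)

theorem not_le : ¬ A₁ ≤ A₂ := fun e => by
  have := h.four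
  rw [← h.inf, inf_eq_left.2 e] at this
  have := Nat.card_pos (α := A₁)
  omega

theorem cj_eq {g : G} (hg : g ∈ normalizer (U : Set G)) : cj g A₁ = A₁ ∨ cj g A₁ = A₂ :=
  (h.le_or (cj_le_of_norm h.le₁ hg) (h.ea₁.conj g)).imp
    (fun e => eq_of_le_of_card_ge e (card_cj g A₁).ge)
    fun e => eq_of_le_of_card_ge e (h.card.trans (card_cj g A₁).symm).le

theorem norm₂ {g : G} (hg : g ∈ normalizer (U : Set G)) (h1 : g ∈ normalizer (A₁ : Set G)) :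
    g ∈ normalizer (A₂ : Set G) :=
  cj_eq_self_iff.1 ((h.symm.cj_eq hg).resolve_right fun e =>
    h.not_le (cj_inj.1 (e.trans (cj_eq_self h1).symm)).ge)

theorem swap {g : G} (hg : g ∈ normalizer (U : Set G)) (h1 : g ∉ normalizer (A₁ : Set G)) :
    cj g A₁ = A₂ ∧ cj g A₂ = A₁ :=
  ⟨(h.cj_eq hg).resolve_left fun e => h1 (cj_eq_self_iff.1 e), (h.symm.cj_eq hg).resolve_left
    fun e => h1 (h.symm.norm₂ hg (cj_eq_self_iff.1 e))⟩

/-- An element centralizing `A₁` and normalizing `U` acts trivially modulo `Z`. -/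
theorem comm_of_cent {g : G} (hg : g ∈ normalizer (U : Set G)) (h1 : g ∈ centralizer (A₁ : Set G)) :
    ∀ u ∈ U, ⁅g, u⁆ ∈ Z := by
  have h2 := h.norm₂ hg (centralizer_le_normalizer _ h1)
  refine h.comm_mem (fun a ha => ?_) fun b hb => ?_
  · rw [commutatorElement_eq_one_iff_mul_comm.2 (h1 a ha).symm]
    exact one_mem _
  obtain ⟨a, ha, ha'⟩ := SetLike.not_le_iff_exists.1 h.not_le
  have h3 := conj_mem le_rfl h2 hb
  have h4 : ⁅g, b⁆ ∈ A₂ := mul_mem h3 (inv_mem hb)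
  refine h.memZ ((h.nc a ha _ h4 (commutatorElement_eq_one_iff_mul_comm.1 ?_)).resolve_left ha') h4
  have h5 : ⁅a, g * b * g⁻¹⁆ = ⁅a, b⁆ := by
    have h6 := h1 _ (h.Z₁ (h.cm a (h.le₁ ha) b (h.symm.le₁ hb)))
    calc _ = ⁅g * a * g⁻¹, g * b * g⁻¹⁆ := by rw [← h1 a ha, mul_inv_cancel_right]
      _ = g * ⁅a, b⁆ * g⁻¹ := (conjugate_commutatorElement ..).symm
      _ = _ := by rw [← h6, mul_inv_cancel_right]
  rw [commutatorElement_def g, h.mul_r (h.le₁ ha) (h.symm.le₁ h3) (h.symm.le₁ (inv_mem hb)), h5,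
    ← h.mul_r (h.le₁ ha) (h.symm.le₁ hb) (h.symm.le₁ (inv_mem hb)), mul_inv_cancel,
    commutatorElement_one_right]

/-- The centralizer of `A₁` in an extension by a `2`-group. -/
theorem cent_le {K : Subgroup G} [K.Normal] (hK : PMod 2 ⊤ K) (hU : IsSylowIn 2 U K)
    (hc : K ⊓ centralizer (A₁ : Set G) ≤ A₁)
    (lin : ∀ g ∈ normalizer (U : Set G), (∀ u ∈ U, ⁅g, u⁆ ∈ Z) → g ∈ K) :
    centralizer (A₁ : Set G) ≤ A₁ := fun g hg => by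
  have h1 : IsPGroup 2 (centralizer (A₁ : Set G)) :=
    ((hK.mono le_top le_rfl : PMod 2 (centralizer (A₁ : Set G)) K).inf_left.mono le_rfl
      fun x hx => hc ⟨hx.2, hx.1⟩).isPGroup h.ea₁.isPGroup
  have h2 := hU.max ((U ⊔ centralizer (A₁ : Set G)) ⊓ K) inf_le_right
    ((isPGroup_sup hU.isPGroup h1 (le_norm_cent h.norm₁)).to_le inf_le_left)
    (le_inf le_sup_left hU.le)
  have h3 : g ∈ normalizer (U : Set G) := h2 ▸ le_norm_inf (le_norm_of_le le_sup_right)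
    le_normalizer_of_normal hg
  exact hc ⟨lin g h3 (h.comm_of_cent h3 hg), hg⟩

end Pr2

namespace Pr3

variable (h : Pr3 U A₁ A₂ Z Y)
include h

theorem symm : Pr3 U A₂ A₁ Z Y where
  toPr2 := h.toPr2.symm
  le := h.le
  nz a ha b hb e := (h.nz b hb a ha (by rw [← commutatorElement_inv]; exact inv_mem e)).symm
  cardY := h.card ▸ h.cardY

theorem map {G' : Type u} [Group G'] {f : G →* G'} (hf : Function.Injective f) :
    Pr3 (U.map f) (A₁.map f) (A₂.map f) (Z.map f) (Y.map f) where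
  ea₁ := by
    rintro _ ⟨a, ha, rfl⟩
    rw [← map_mul, h.ea₁ a ha, map_one]
  ea₂ := by
    rintro _ ⟨a, ha, rfl⟩
    rw [← map_mul, h.ea₂ a ha, map_one]
  sup := by rw [← Subgroup.map_sup, h.sup]
  inf := by rw [← map_inf _ _ _ hf, h.inf]
  cm := by
    rintro _ ⟨a, ha, rfl⟩ _ ⟨b, hb, rfl⟩
    exact ⟨_, h.cm a ha b hb, map_commutatorElement ..⟩
  nc := by
    rintro _ ⟨a, ha, rfl⟩ _ ⟨b, hb, rfl⟩ e
    exact (h.nc a ha b hb (hf (by simpa using e))).imp (mem_map_of_mem f) (mem_map_of_mem f)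
  card := by rw [card_map_of_injective hf, card_map_of_injective hf, h.card]
  four := by rw [card_map_of_injective hf, card_map_of_injective hf]; exact h.four
  le := map_mono h.le
  nz := by
    rintro _ ⟨a, ha, rfl⟩ _ ⟨b, hb, rfl⟩ ⟨y, hy, e⟩
    rw [← map_commutatorElement] at e
    exact (h.nz a ha b hb (hf e ▸ hy)).imp (mem_map_of_mem f) (mem_map_of_mem f)
  cardY := by simp only [card_map_of_injective hf]; exact h.cardY

variable [Finite G]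

theorem phi {V : Type u} [Group V] [Finite V] {π : G → V}
    (p1 : ∀ x ∈ Z, ∀ y ∈ Z, π (x * y) = π x * π y) (p2 : ∀ x ∈ Z, π x = 1 ↔ x ∈ Y)
    (p5 : Nat.card Z = Nat.card V * Nat.card Y) {b : G} (hb : b ∈ A₂) (hb' : b ∉ A₁) :
    (∀ x ∈ A₁, ∀ y ∈ A₁, π ⁅x * y, b⁆ = π ⁅x, b⁆ * π ⁅y, b⁆) ∧ (∀ x ∈ A₁, π ⁅x, b⁆ = 1 ↔ x ∈ Z) ∧
      (∀ v, ∃ x ∈ A₁, π ⁅x, b⁆ = v) ∧ Nat.card A₁ = Nat.card V * Nat.card Z := by
  have hU := h.symm.le₁ hb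
  have q1 : ∀ x ∈ A₁, ∀ y ∈ A₁, π ⁅x * y, b⁆ = π ⁅x, b⁆ * π ⁅y, b⁆ := fun x hx y hy => by
    rw [h.mul_l (h.le₁ hx) (h.le₁ hy) hU, p1 _ (h.cm _ (h.le₁ hx) _ hU) _ (h.cm _ (h.le₁ hy) _ hU)]
  have q2 : ∀ x ∈ A₁, π ⁅x, b⁆ = 1 ↔ x ∈ Z := fun x hx => by
    rw [p2 _ (h.cm _ (h.le₁ hx) _ hU)]
    refine ⟨fun e => h.memZ hx ((h.nz x hx b hb e).resolve_right hb'), fun e => ?_⟩
    rw [commutatorElement_eq_one_iff_mul_comm.2 (h.cen e hU).symm]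
    exact one_mem _
  obtain ⟨N, C, h4, h5, e⟩ := card_hom (fun a => π ⁅a, b⁆) q1
  obtain rfl : N = Z := Subgroup.ext fun x => (h4 x).trans
    ⟨fun e => (q2 x e.1).1 e.2, fun e => ⟨h.Z₁ e, (q2 x (h.Z₁ e)).2 e⟩⟩
  obtain rfl : C = ⊤ := eq_top_of_le_card _ (by
    have := h.cardY
    nth_rw 2 [p5] at this
    rw [e, ← mul_assoc, mul_comm (Nat.card N)] at this
    exact Nat.le_of_mul_le_mul_right (Nat.le_of_mul_le_mul_right this Nat.card_pos) Nat.card_pos)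
  exact ⟨q1, q2, fun v => (h5 v).1 trivial, by rw [e, card_top]⟩

omit [Finite G] in
theorem normY : Z ≤ normalizer (Y : Set G) := le_norm_of_le_cent
  fun _ hz => mem_centralizer_iff.2 fun _ hy => (h.ea₁.mono h.Z₁).comm (h.le hy) hz

/-- The commutators with a fixed element cover `Z` modulo `Y`. -/
theorem exists_comm {b z : G} (hb : b ∈ A₂) (hb' : b ∉ A₁) (hz : z ∈ Z) :
    ∃ a ∈ A₁, ⁅a, b⁆ * z ∈ Y := by
  obtain ⟨V, _, _, π, -, p1, p2, -, -, p5⟩ := exists_sec h.le h.normY (E := ⊥) bot_le bot_le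
  obtain ⟨a, ha, e⟩ := (h.phi p1 p2 p5 hb hb').2.2.1 (π z)⁻¹
  have h1 := h.cm _ (h.le₁ ha) _ (h.symm.le₁ hb)
  exact ⟨a, ha, (p2 _ (mul_mem h1 hz)).1 (by rw [p1 _ h1 _ hz, e, inv_mul_cancel])⟩

theorem exists_phi {E : Subgroup G} (hE : IsPGroup 2 E) (h1 : E ≤ normalizer (A₁ : Set G))
    (h2 : E ≤ normalizer (A₂ : Set G)) {V : Type u} [Group V] [Finite V] {π : G → V}
    {ρ : E →* MulAut V} (p1 : ∀ x ∈ Z, ∀ y ∈ Z, π (x * y) = π x * π y)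
    (p2 : ∀ x ∈ Z, π x = 1 ↔ x ∈ Y) (p4 : ∀ g : E, ∀ x ∈ Z, π (g * x * (g : G)⁻¹) = ρ g (π x))
    (p5 : Nat.card Z = Nat.card V * Nat.card Y) : ∃ φ : G → V,
      (∀ x ∈ A₁, ∀ y ∈ A₁, φ (x * y) = φ x * φ y) ∧ (∀ x ∈ A₁, φ x = 1 ↔ x ∈ Z) ∧
      (∀ v, ∃ x ∈ A₁, φ x = v) ∧ (∀ g : E, ∀ x ∈ A₁, φ (g * x * (g : G)⁻¹) = ρ g (φ x)) ∧
      Nat.card A₁ = Nat.card V * Nat.card Z := by
  obtain ⟨b, hb, hb', h3⟩ := H54.exists_not_mem_commutator_mem_of_isPGroup h.ea₂.isPGroup hE h2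
    h.symm.not_le
  have hU := h.symm.le₁ hb
  obtain ⟨q1, q2, q3, q4⟩ := h.phi p1 p2 p5 hb hb'
  refine ⟨_, q1, q2, q3, fun g x hx => ?_, q4⟩
  have h6 := conj_mem h2 g.2 hb
  rw [← p4 g _ (h.cm _ (h.le₁ hx) _ hU), conjugate_commutatorElement,
    h.eq_r (h.le₁ (conj_mem h1 g.2 hx)) hU (h.memZ ?_ (mul_mem h6 (inv_mem hb)))]
  rw [← commutatorElement_def, ← commutatorElement_inv]
  exact inv_mem (h3 g (mem_sup_left g.2))

/-- The elementary abelian subgroups of largest order. -/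
theorem max {T : Subgroup G} (hT : T ≤ normalizer (U : Set G))
    (hY : ∀ t ∈ T, t ∈ normalizer (A₁ : Set G) → t ∈ normalizer (Y : Set G))
    (lin : ∀ g ∈ T, (∀ u ∈ U, ⁅g, u⁆ ∈ Z) → g ∈ U) {E : Subgroup G} (hE : E ≤ T) (ea : EA E) :
    Nat.card E < Nat.card A₁ ∨ E = A₁ ∨ E = A₂ := by
  by_cases hU : E ≤ U
  · rcases h.le_or hU ea with e | e
    · exact (card_le_of_le e).lt_or_eq.imp_right fun e' => Or.inl (eq_of_le_of_card_ge e e'.ge)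
    · exact (card_le_of_le e).lt_or_eq.imp (·.trans_eq h.card)
        fun e' => Or.inr (eq_of_le_of_card_ge e e'.ge)
  left
  set E' := E ⊓ normalizer (A₁ : Set G)
  have h1 : E' ≤ normalizer (A₁ : Set G) := inf_le_right
  have h2 : E' ≤ normalizer (A₂ : Set G) := fun g hg => h.norm₂ (hT (hE hg.1)) hg.2
  have h3 : E' ≤ normalizer (Y : Set G) := fun g hg => hY g (hE hg.1) hg.2
  have hp : IsPGroup 2 E' := (ea.mono inf_le_left).isPGroup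
  have eZ : EA Z := h.ea₁.mono h.Z₁
  have h4 : E' ≤ normalizer (Z : Set G) := h.inf ▸ le_norm_inf h1 h2
  obtain ⟨V, _, _, π, ρ, p1, p2, p3, p4, p5⟩ := exists_sec h.le h.normY h4 h3
  obtain ⟨φ, f1, f2, f3, f4, f5⟩ := h.exists_phi hp h1 h2 p1 p2 p4 p5
  obtain ⟨ψ, g1, g2, g3, g4, -⟩ := h.symm.exists_phi hp h2 h1 p1 p2 p4 p5
  have sV : ∀ v : V, v * v = 1 := fun v => by
    obtain ⟨x, hx, rfl⟩ := p3 v
    rw [← p1 x hx x hx, eZ x hx, p2 _ (one_mem _)]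
    exact one_mem _
  have key : ∀ {A : Subgroup G} {φ : G → V}, EA A → (∀ x ∈ A, ∀ y ∈ A, φ (x * y) = φ x * φ y) →
      (∀ x ∈ A, φ x = 1 ↔ x ∈ Z) → ∀ {a a'}, a ∈ A → a' ∈ A → φ a' = φ a → a' * a⁻¹ ∈ Z :=
    fun hA f1 f2 a a' ha ha' e => by
      rw [hA.inv ha, ← f2 _ (mul_mem ha' ha), f1 _ ha' _ ha, e, sV]
  choose s s1 s2 using f3
  choose t t1 t2 using g3
  have hμ : ∀ a ∈ A₁, ∀ b ∈ A₂, π ⁅s (φ a), t (ψ b)⁆ = π ⁅a, b⁆ := fun a ha b hb => by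
    rw [h.eq_l (h.le₁ ha) (h.symm.le₁ (t1 _)) (key h.ea₁ f1 f2 ha (s1 _) (s2 _)),
      h.eq_r (h.le₁ ha) (h.symm.le₁ hb) (key h.ea₂ g1 g2 hb (t1 _) (t2 _))]
  have hc : ∀ x y, ⁅s x, t y⁆ ∈ Z := fun x y => h.cm _ (h.le₁ (s1 x)) _ (h.symm.le₁ (t1 y))
  have sf : SF ρ fun x y => π ⁅s x, t y⁆ :=
    { sV := sV
      sW := fun g => Subtype.ext (ea g g.2.1)
      l := fun x x' y => by
        rw [← p1 _ (hc ..) _ (hc ..), ← h.mul_l (h.le₁ (s1 x)) (h.le₁ (s1 x')) (h.symm.le₁ (t1 y)),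
          ← hμ _ (mul_mem (s1 x) (s1 x')) _ (t1 y), f1 _ (s1 x) _ (s1 x'), s2, s2, t2]
      r := fun x y y' => by
        rw [← p1 _ (hc ..) _ (hc ..),
          ← h.mul_r (h.le₁ (s1 x)) (h.symm.le₁ (t1 y)) (h.symm.le₁ (t1 y')),
          ← hμ _ (s1 x) _ (mul_mem (t1 y) (t1 y')), g1 _ (t1 y) _ (t1 y'), s2, t2, t2]
      eqv := fun g x y => by
        rw [← p4 g _ (hc ..), conjugate_commutatorElement,
          ← hμ _ (conj_mem h1 g.2 (s1 x)) _ (conj_mem h2 g.2 (t1 y)), f4 g _ (s1 x), g4 g _ (t1 y),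
          s2, t2]
      nz := fun x y e => (h.nz _ (s1 x) _ (t1 y) ((p2 _ (hc ..)).1 e)).imp
        (fun e => s2 x ▸ (f2 _ (s1 x)).2 (h.memZ (s1 x) e))
        fun e => t2 y ▸ (g2 _ (t1 y)).2 (h.memZ e (t1 y)) }
  have h5 : (st ρ ⊤).map E'.subtype ≤ E ⊓ U := by
    rintro _ ⟨g, hg, rfl⟩
    exact ⟨g.2.1, lin g (hE g.2.1) (h.comm_mem
      (fun a ha => key h.ea₁ f1 f2 ha (conj_mem h1 g.2 ha) ((f4 g a ha).trans (hg _ trivial)))
      fun a ha => key h.ea₂ g1 g2 ha (conj_mem h2 g.2 ha) ((g4 g a ha).trans (hg _ trivial)))⟩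
  have h6 : Nat.card E' ≤ (st ρ ⊤).index * Nat.card ↥(E ⊓ U) := by
    rw [← (st ρ ⊤).card_mul_index, mul_comm, ← card_map_subtype]
    exact Nat.mul_le_mul_left _ (card_le_of_le h5)
  have h7 : ∀ {A N : Subgroup G} {φ : G → V}, (∀ x ∈ A, ∀ y ∈ A, φ (x * y) = φ x * φ y) →
      (∀ x ∈ A, φ x = 1 ↔ x ∈ N) → (∀ g : E', ∀ x ∈ A, φ (g * x * (g : G)⁻¹) = ρ g (φ x)) →
      ∀ {F}, F ≤ E → F ≤ A → Nat.card F ≤ Nat.card (fx ρ ⊤) * Nat.card ↥(F ⊓ N) :=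
    fun {A N φ} f1 f2 f4 F hF hA => card_le_of_hom φ (fun x hx y hy => f1 x (hA hx) y (hA hy))
      (fun x hx g _ => by rw [← f4 g x (hA hx), ea.comm g.2.1 (hF hx), mul_inv_cancel_right])
      fun x hx e => ⟨hx, (f2 x (hA hx)).1 e⟩
  have h8 : Nat.card ↥(E ⊓ U ⊓ Z) ≤ Nat.card (fx ρ ⊤) * Nat.card Y :=
    (h7 p1 p2 p4 (inf_le_left.trans inf_le_left) inf_le_right).trans
      (Nat.mul_le_mul_left _ (card_le_of_le inf_le_right))
  have hy := Nat.card_pos (α := Y)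
  rw [f5, p5]
  by_cases hn : E ≤ normalizer (A₁ : Set G)
  · have h9 : Nat.card ↥(E ⊓ U) ≤ Nat.card (fx ρ ⊤) * Nat.card ↥(E ⊓ U ⊓ Z) :=
      (h.le_or inf_le_right (ea.mono inf_le_left)).elim (h7 f1 f2 f4 inf_le_left)
        (h7 g1 g2 g4 inf_le_left)
    have h10 := sf.bound fun e => hU fun g hg => (h5 ⟨⟨g, hg, hn hg⟩, e.ge trivial, rfl⟩).2
    calc _ ≤ (st ρ ⊤).index * (Nat.card (fx ρ ⊤) * (Nat.card (fx ρ ⊤) * Nat.card Y)) :=
          (card_le_of_le (le_inf le_rfl hn)).trans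
            (h6.trans (Nat.mul_le_mul_left _ (h9.trans (Nat.mul_le_mul_left _ h8))))
      _ < _ := by nlinarith
  obtain ⟨w, hw, hw'⟩ := SetLike.not_le_iff_exists.1 hn
  have h9 : E ⊓ U ≤ Z := fun x hx => by
    have h10 := h.swap (hT (hE hw)) hw'
    have h11 : w * x * w⁻¹ = x := by rw [ea.comm hw hx.1, mul_inv_cancel_right]
    rcases h.invol hx.2 (ea x hx.1) with e | e
    exacts [h.memZ e (h11 ▸ h10.1.le (conj_mem_cj e)), h.memZ (h11 ▸ h10.2.le (conj_mem_cj e)) e]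
  rw [inf_eq_left.2 h9] at h8
  have h10 : Nat.card E ≤ 2 * Nat.card E' := card_le_two_mul_of_mul_mem inf_le_left
    fun a ha b hb ha' hb' => ⟨mul_mem ha hb, cj_eq_self_iff.1 (by
      rw [cj_mul, (h.swap (hT (hE hb)) fun e => hb' ⟨hb, e⟩).1,
        (h.swap (hT (hE ha)) fun e => ha' ⟨ha, e⟩).2])⟩
  have h11 : 4 ≤ Nat.card V := Nat.le_of_mul_le_mul_right (f5 ▸ h.four) Nat.card_pos
  have h12 : 2 * ((st ρ ⊤).index * Nat.card (fx ρ ⊤)) < Nat.card V * Nat.card V := by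
    by_cases e : st ρ ⊤ = ⊤
    · have := card_le_card_group (fx ρ ⊤)
      rw [e, index_top]
      nlinarith
    obtain ⟨x, hx, hx', h13⟩ := H54.exists_not_mem_commutator_mem_of_isPGroup eZ.isPGroup hp h4
      (N := Y) fun e => by
        have := card_le_of_le e
        nlinarith
    have h14 : 1 < Nat.card (fx ρ ⊤) := (one_lt_card_iff_ne_bot _).2 fun e =>
      hx' ((p2 x hx).1 (mem_bot.1 (e.le fun g _ => by
        have h15 := conj_mem h4 g.2 hx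
        rw [← p4 g x hx, ← sf.eq_iff, ← p1 _ h15 _ hx, p2 _ (mul_mem h15 hx)]
        have := inv_mem (h13 g (mem_sup_left g.2))
        rwa [commutatorElement_inv, commutatorElement_def, eZ.inv hx] at this)))
    have := sf.bound e
    nlinarith
  calc _ ≤ 2 * ((st ρ ⊤).index * (Nat.card (fx ρ ⊤) * Nat.card Y)) :=
        h10.trans (Nat.mul_le_mul_left _ (h6.trans (Nat.mul_le_mul_left _ h8)))
    _ < _ := by nlinarith

end Pr3

end Cfsg.Agent.H3.UQK
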